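import Cfsg.Agent.H53.TCKit

/-!
Solvable groups whose conjugacy classes have distinct sizes (project AH): definitions and the
statements of the pieces.  Notes: `stubs/notes/h53_ah.md`.
-/

set_option autoImplicit false

namespace Cfsg.Agent.H53.AH

open MulAction Cfsg.Agent.H12.RO Cfsg.Agent.H53.MW

universe u

/-- the order of the centralizer of an element -/
noncomputable abbrev cc {G : Type*} [Group G] (x : G) : ℕ :=
  Nat.card (Subgroup.centralizer ({x} : Set G))

/-- elements whose centralizers have the same order are conjugate -/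
def Ah (G : Type*) [Group G] : Prop := ∀ x y : G, cc x = cc y → IsConj x y

/-- rational groups -/
def Rat (G : Type*) [Group G] : Prop :=
  ∀ x y : G, Subgroup.zpowers x = Subgroup.zpowers y → IsConj x y

/-- only the primes two and three divide `n` -/
def T23 (n : ℕ) : Prop := ∀ q : ℕ, q.Prime → q ∣ n → q = 2 ∨ q = 3

/-- `G` induces a `{2, 3}`-group on `V` -/
def Sm (G V : Type*) [Group G] [MulAction G V] : Prop :=
  ∃ a : ℕ, ∀ (g : G) (v : V), g ^ 6 ^ a • v = v

/-! ### groups of order `2^a 3^b` -/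

/-- SUM: the class equation of a normal subset -/
def SumStmt : Prop :=
  ∀ (G : Type u) [Group G] [Finite G], Ah G → ∀ S : Set G, (∀ x ∈ S, ∀ g : G, g * x * g⁻¹ ∈ S) →
    ∃ T : Finset ℕ, (∀ n, n ∈ T ↔ ∃ x ∈ S, cc x = n) ∧
      (Nat.card S : ℚ) = Nat.card G * ∑ n ∈ T, (1 : ℚ) / n

/-- C2 -/
def C2Stmt : Prop :=
  ∀ (G : Type u) [Group G] [Finite G], Ah G → ∀ x : G, cc x = 2 →
    Nonempty (G ≃* Equiv.Perm (Fin 3))

/-- NUM -/
def NumStmt : Prop :=
  ∀ (G : Type u) [Group G] [Finite G] [Nontrivial G], Ah G → T23 (Nat.card G) →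
    (∃ x : G, cc x = 2) ∨ ∃ x : G, cc x = 4

/-- QUO -/
def QuoStmt : Prop :=
  ∀ (G : Type u) [Group G] [Finite G] [Group.IsSolvable G], Rat G → T23 (Nat.card G) →
    ∀ x : G, cc x = 4 →
    (∃ L : Subgroup G, L.Normal ∧ L.index = 4 ∧ ∀ y : G, y ∉ L → 2 ∣ cc y ∧ ¬ 8 ∣ cc y) ∨
      ∃ φ : G →* Equiv.Perm (Fin 4), Function.Surjective φ ∧ IsPGroup 3 φ.ker

/-- C4a -/
def C4aStmt : Prop :=
  ∀ (G : Type u) [Group G] [Finite G], Ah G → T23 (Nat.card G) → (∀ x : G, cc x ≠ 2) →
    ∀ L : Subgroup G, L.Normal → L.index = 4 → (∀ y : G, y ∉ L → 2 ∣ cc y ∧ ¬ 8 ∣ cc y) → False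

/-- C4b -/
def C4bStmt : Prop :=
  ∀ (G : Type u) [Group G] [Finite G], Ah G → (∀ x : G, cc x ≠ 2) →
    ∀ φ : G →* Equiv.Perm (Fin 4), Function.Surjective φ → IsPGroup 3 φ.ker → False

/-! ### rational groups -/

/-- an invariant form, non-degenerate on the left -/
structure Frm (G V : Type*) [Group G] [AddCommGroup V] [DistribMulAction G V] {r : ℕ}
    (β : V →+ V →+ ZMod r) : Prop where
  nd : ∀ v, (∀ w, β v w = 0) → v = 0
  inv : ∀ (g : G) v w, β (g • v) (g • w) = β v w

/-- SD: irreducible modules of groups with all elements real are self-dual -/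
def SdStmt : Prop :=
  ∀ (G V : Type u) [Group G] [Finite G] [AddCommGroup V] [Finite V] [DistribMulAction G V]
    (r : ℕ), r.Prime → (∀ v : V, r • v = 0) → Irr G V → (∀ g : G, IsConj g g⁻¹) →
    ∃ β : V →+ V →+ ZMod r, Frm G V β

/-- CORE: the module theoretic part of T2 -/
def CoreStmt : Prop :=
  ∀ (G W X : Type u) [Group G] [Finite G] [AddCommGroup W] [Finite W] [DistribMulAction G W]
    [AddCommGroup X] [Finite X] [Nontrivial X] [DistribMulAction G X] (K M : Subgroup G)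
    (π : G → W) (p r : ℕ) (βW : W →+ W →+ ZMod p) (βX : X →+ X →+ ZMod r),
    p.Prime → 5 ≤ p → r.Prime → r ≠ p → M.Normal → IsSec K M π → Triv K X →
    (∀ x : X, (∀ t ∈ M, t • x = x) → x = 0) → Frm G W βW → (∀ w, βW w w = 0) → Frm G X βX →
    (∀ x : X, ∀ t ∈ M, t • x = x → ∀ k : ℕ, ¬ p ∣ k → ∃ g : G, g • x = x ∧ g • π t = k • π t) →
    False

/-- T2: rational solvable groups have normal Sylow `p`-subgroups for `p ≥ 5` -/
def T2Stmt : Prop :=
  ∀ (G : Type u) [Group G] [Finite G] [Group.IsSolvable G], Rat G → ∀ (p : ℕ) [Fact p.Prime],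
    5 ≤ p → ∀ P : Sylow p G, (P : Subgroup G).Normal

/-! ### symplectic modules with distinct orbit lengths -/

/-- non-zero vectors whose stabilizers have the same order are conjugate -/
def Dos (G V : Type*) [Group G] [AddCommGroup V] [DistribMulAction G V] : Prop :=
  ∀ v w : V, v ≠ 0 → w ≠ 0 → Nat.card (stabilizer G v) = Nat.card (stabilizer G w) →
    ∃ g : G, g • v = w

/-- the modules to be classified -/
structure Mod (G V : Type*) [Group G] [AddCommGroup V] [DistribMulAction G V] (p : ℕ)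
    (β : V →+ V →+ ZMod p) : Prop extends Frm G V β where
  prime : p.Prime
  ge : 5 ≤ p
  irr : Irr G V
  alt : ∀ v, β v v = 0
  sm : Sm G V
  dos : Dos G V

/-- a property of all modules -/
def AllMod (P : ∀ (G V : Type u) [Group G] [AddCommGroup V] [DistribMulAction G V] (p : ℕ)
    (_ : V →+ V →+ ZMod p), Prop) : Prop :=
  ∀ (G V : Type u) [Group G] [Finite G] [Group.IsSolvable G] [AddCommGroup V] [Finite V]
    [Nontrivial V] [DistribMulAction G V] (p : ℕ) (β : V →+ V →+ ZMod p), Mod G V p β →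
    P G V p β

/-- CNT -/
def CntStmt : Prop := AllMod.{u} fun G V _ _ _ _ _ => Nat.card V ≤ 3 * Nat.card (img G V)

/-- TWO: two blocks are orthogonal -/
def TwoStmt : Prop :=
  AllMod.{u} fun G V _ _ _ _ β => ∀ (Ω : Type u) [MulAction G Ω] [Fintype Ω] (S : Sys G V Ω),
    Fintype.card Ω = 2 → ∀ ω ω' : Ω, ω ≠ ω' → ∀ x y, β (S.e ω x) (S.e ω' y) = 0

/-- ORTH: an imprimitive module has an orthogonal system of blocks -/
def OrthStmt : Prop :=
  AllMod.{u} fun G V _ _ _ _ β => ∀ (Ω : Type u) [MulAction G Ω] [Fintype Ω] [Nontrivial Ω],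
    Sys G V Ω → ∃ (Ω' : Type u) (_ : MulAction G Ω') (_ : Fintype Ω') (_ : Nontrivial Ω')
      (S : Sys G V Ω'), ∀ ω ω' : Ω', ω ≠ ω' → ∀ x y, β (S.e ω x) (S.e ω' y) = 0

/-- `N • v` is the set of non-zero vectors of a block on which `N` acts regularly -/
structure Blk (G : Type*) {V : Type*} [Group G] [AddCommGroup V] [DistribMulAction G V] (v : V)
    (N : Subgroup G) : Prop where
  ne : v ≠ 0
  le : ∀ g : G, g • v = v → g ∈ N
  norm : ∀ g : G, g • v = v → ∀ n ∈ N, g • n • v = n • v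
  nz : ∀ a : G, a ∉ N → v + a • v ≠ 0
  uniq : ∀ a b c : G, a ∉ N → b⁻¹ * c ∉ N → v + a • v = b • v + c • v →
    (b • v = v ∧ c • v = a • v) ∨ (b • v = a • v ∧ c • v = v)

/-- the block group maps onto the group of order three -/
def Good5 (G : Type*) {V : Type*} [Group G] [MulAction G V] (v : V) (N : Subgroup G) : Prop :=
  ∃ τ : G → ZMod 3, (∀ a ∈ N, ∀ b ∈ N, τ (a * b) = τ a + τ b) ∧ (∀ g : G, g • v = v → τ g = 0) ∧
    ∃ c ∈ N, τ c ≠ 0

/-- the block group has an element of order eight like the binary octahedral group -/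
def Good7 (G : Type*) {V : Type*} [Group G] [AddCommGroup V] [MulAction G V] (v : V)
    (N : Subgroup G) : Prop :=
  ∃ c ∈ N, (∀ n ∈ N, c ^ 4 • n • v = -(n • v)) ∧ (∀ n ∈ N, (n * c * n⁻¹) • v ≠ -(c • v)) ∧
    ∃ n ∈ N, (n * c ^ 2 * n⁻¹) • v = -(c ^ 2 • v)

/-- the conclusion of the classification -/
def Goal (G V : Type*) [Group G] [AddCommGroup V] [DistribMulAction G V] : Prop :=
  ∃ (v : V) (N : Subgroup G), Blk G v N ∧ (Good5 G v N ∨ Good7 G v N)

/-- LIFT: from a block to the module -/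
def LiftStmt : Prop :=
  ∀ (G V Ω : Type u) [Group G] [AddCommGroup V] [DistribMulAction G V] [MulAction G Ω]
    [Fintype Ω] (S : Sys G V Ω) (ω : Ω),
    (letI := subAct (S.inv_range ω); Goal (stabilizer G ω) (S.e ω).range) → Goal G V

/-- NSC: the scalars are `±1` -/
def NscStmt : Prop :=
  AllPk.{u} fun G V _ _ _ _ _ _ _ _ _ _ U _ _ => ∀ (p : ℕ) (β : V →+ V →+ ZMod p),
    Mod G V p β → ∀ u ∈ U, u ^ 2 = 1

/-- the primitive case -/
structure Px (G V K W : Type*) [Group G] [AddCommGroup V] [DistribMulAction G V] [Field K]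
    [Module K V] [AddCommGroup W] [DistribMulAction G W] (σ : G →* RingAut K)
    (U To E M : Subgroup G) (π : G → W) (b : W → W → Kˣ) (e p : ℕ) (β : V →+ V →+ ZMod p) :
    Prop where
  pk : Pk G V K W σ U To E M π b e
  mod : Mod G V p β
  sqU : ∀ u ∈ U, u ^ 2 = 1

/-- a property of all primitive cases -/
def AllPx (P : ∀ (G V K W : Type u) [Group G] [AddCommGroup V] [DistribMulAction G V] [Field K]
    [Module K V] [AddCommGroup W] [DistribMulAction G W] (_ : ℕ), Prop) : Prop :=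
  ∀ (G V K W : Type u) [Group G] [Finite G] [Group.IsSolvable G] [AddCommGroup V] [Finite V]
    [Nontrivial V] [DistribMulAction G V] [Field K] [Finite K] [Module K V] [AddCommGroup W]
    [Finite W] [DistribMulAction G W] (σ : G →* RingAut K) (U To E M : Subgroup G) (π : G → W)
    (b : W → W → Kˣ) (e p : ℕ) (β : V →+ V →+ ZMod p), Px G V K W σ U To E M π b e p β →
    P G V K W e

/-- E2 -/
def E2Stmt : Prop := AllPx.{u} fun G V _ _ _ _ _ _ _ _ _ e => e = 2 → Goal G V

/-- E4 -/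
def E4Stmt : Prop := AllPx.{u} fun _ _ _ _ _ _ _ _ _ _ _ e => e ≠ 4

/-- TRP: the trace argument -/
def TrpStmt : Prop :=
  AllPx.{u} fun G V K W _ _ _ _ _ _ _ e => e = 8 → Nat.card K = 5 → Module.finrank K V = 8 →
    ∀ g : G, Nat.card (fixedBy W g) ≠ 8

/-- the bound for groups on 64 vectors -/
def O64 (G W : Type*) [Group G] [MulAction G W] : Prop :=
  Nat.card (img G W) ≤ 1296 ∧ (1000 < Nat.card (img G W) → ∃ g : G, Nat.card (fixedBy W g) = 8)

/-- O64-P -/
def O64PStmt : Prop :=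
  ∀ (G W : Type u) [Group G] [Finite G] [Group.IsSolvable G] [AddCommGroup W] [Finite W]
    [DistribMulAction G W], (∀ g : G, (∀ x : W, g • x = x) → g = 1) → Prim G W →
    Nat.card W = 64 → Sm G W → O64 G W

/-- O64 -/
def O64Stmt : Prop :=
  ∀ (G W : Type u) [Group G] [Finite G] [Group.IsSolvable G] [AddCommGroup W] [Finite W]
    [DistribMulAction G W], CR G W → Nat.card W = 64 → Sm G W → O64 G W

/-- ENUM -/
def EnumStmt : Prop := AllPx.{u} fun _ _ _ _ _ _ _ _ _ _ _ e => e = 2 ∨ e = 4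

/-- T4: the classification -/
def T4Stmt : Prop := AllMod.{u} fun G V _ _ _ _ _ => Goal G V

/-- PAIR -/
def PairStmt : Prop :=
  ∀ (G V : Type u) [Group G] [AddCommGroup V] [DistribMulAction G V] (v : V) (N : Subgroup G),
    Dos G V → Blk G v N → ∀ a b : G, a⁻¹ * b ∉ N → ∀ c ∈ N,
      ∃ h : G, h • a • v = a • c • c • v ∧ h • b • v = b • c • c • v

/-- T5 -/
def T5Stmt : Prop :=
  ∀ (G V : Type u) [Group G] [Finite G] [AddCommGroup V] [DistribMulAction G V] (v : V)
    (N : Subgroup G), Rat G → Dos G V → Blk G v N → ¬ Good5 G v N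

/-- T7 -/
def T7Stmt : Prop :=
  ∀ (G V : Type u) [Group G] [Finite G] [AddCommGroup V] [DistribMulAction G V] (v : V)
    (N : Subgroup G), Rat G → Dos G V → Blk G v N → ¬ Good7 G v N

/-- NO5: only the primes two and three occur -/
def No5Stmt : Prop :=
  ∀ (G : Type u) [Group G] [Finite G] [Group.IsSolvable G], Ah G → T23 (Nat.card G)

end Cfsg.Agent.H53.AH
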