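import Cfsg.Agent.H53.DgDefs
import Cfsg.Agent.H75.ModCl
import Cfsg.Agent.H11.Kernel
import Cfsg.Agent.H27.AltBasis

/-! Project DG: small common lemmas. -/

set_option autoImplicit false

namespace Cfsg.Agent.H53.Dg

open Module Cfsg.Agent.H26 Cfsg.Agent.H78
open scoped ComplexConjugate

section Char

variable {G : Type} [Group G] [Finite G]

theorem ip_eq [Fintype G] (φ ψ : G → ℂ) : ip φ ψ = classInner φ ψ :=
  H11.classInner_fintype_irrel _ _ φ ψ

theorem ind_eq [i : Fintype G] (S : Subgroup G) (ξ : S → ℂ) : ind S ξ = indFun S ξ := by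
  rw [ind, Subsingleton.elim (Fintype.ofFinite G) i]

theorem ip_def (φ ψ : G → ℂ) : ip φ ψ = (Nat.card G : ℂ)⁻¹ * ∑ᶠ g, φ g * conj (ψ g) := by
  have := Fintype.ofFinite G
  rw [ip_eq, finsum_eq_sum_of_fintype]; rfl

theorem isCharacter_ind (S : Subgroup G) {ξ : S → ℂ} (h : IsCharacter S ξ) :
    IsCharacter G (ind S ξ) := by
  have := Fintype.ofFinite G
  rw [ind_eq]; exact H14.IsCharacter.indFun S h

theorem irr_of_ip_one {χ : G → ℂ} (h : IsCharacter G χ) (h1 : ip χ χ = 1) :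
    IsIrrCharacter G χ := by
  have := Fintype.ofFinite G
  exact H11.isIrrCharacter_of_classInner_self h (by rwa [ip_eq] at h1)

theorem ip_irr {χ : G → ℂ} (h : IsIrrCharacter G χ) : ip χ χ = 1 := by
  have := Fintype.ofFinite G
  rw [ip_eq]; exact (H11.isIrrCharacter_iff.1 h).2

theorem exists_nat_ip {χ ψ : G → ℂ} (h : IsCharacter G χ) (h' : IsCharacter G ψ) :
    ∃ n : ℕ, ip χ ψ = n := by
  have := Fintype.ofFinite G
  rw [ip_eq]; exact H11.exists_nat_classInner h h'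

theorem exists_pos_ip {χ : G → ℂ} (h : IsCharacter G χ) (h0 : χ ≠ 0) :
    ∃ n : ℕ, 0 < n ∧ ip χ χ = n := by
  have := Fintype.ofFinite G
  obtain ⟨n, hn⟩ := exists_nat_ip h h
  refine ⟨n, Nat.pos_of_ne_zero fun e => h0 ?_, hn⟩
  rw [e, ip_eq] at hn
  exact H11.classInner_self_eq_zero.1 (by simpa using hn)

theorem ip_add_left (φ φ' ψ : G → ℂ) : ip (φ + φ') ψ = ip φ ψ + ip φ' ψ := by
  have := Fintype.ofFinite G
  simp only [ip_eq, H11.classInner_add_left]

theorem ip_add_right (φ ψ ψ' : G → ℂ) : ip φ (ψ + ψ') = ip φ ψ + ip φ ψ' := by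
  have := Fintype.ofFinite G
  simp only [ip_eq, H11.classInner_add_right]

/-- Two non-zero characters whose sum has norm two are irreducible and distinct. -/
theorem irr_of_add_two {a b : G → ℂ} (ha : IsCharacter G a) (hb : IsCharacter G b) (ha0 : a ≠ 0)
    (hb0 : b ≠ 0) (h : ip (a + b) (a + b) = 2) :
    IsIrrCharacter G a ∧ IsIrrCharacter G b ∧ ip a b = 0 := by
  obtain ⟨m, hm0, hm⟩ := exists_pos_ip ha ha0
  obtain ⟨n, hn0, hn⟩ := exists_pos_ip hb hb0
  obtain ⟨x, hx⟩ := exists_nat_ip ha hb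
  obtain ⟨y, hy⟩ := exists_nat_ip hb ha
  rw [ip_add_left, ip_add_right, ip_add_right, hm, hn, hx, hy] at h
  have h' : m + x + (y + n) = 2 := by exact_mod_cast h
  obtain rfl : m = 1 := by omega
  obtain rfl : n = 1 := by omega
  obtain rfl : x = 0 := by omega
  exact ⟨irr_of_ip_one ha (by simpa using hm), irr_of_ip_one hb (by simpa using hn),
    by simpa using hx⟩

/-- A character of norm two is a sum of two distinct irreducible characters. -/
theorem two_of_ip_two {ρ : G → ℂ} (h : IsCharacter G ρ) (h2 : ip ρ ρ = 2) :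
    ∃ χ χ' : G → ℂ, IsIrrCharacter G χ ∧ IsIrrCharacter G χ' ∧ ip χ χ' = 0 ∧
      ∀ g, ρ g = χ g + χ' g := by
  have := Fintype.ofFinite G
  have h0 : ρ ≠ 0 := by
    rintro rfl
    rw [ip_eq, H11.classInner_zero_left] at h2
    norm_num at h2
  obtain ⟨χ, hχ, h3⟩ := H11.exists_irr_constituent h h0
  have h4 := H11.isCharacter_sub_irr h hχ h3
  have h5 : χ + (ρ - χ) = ρ := by abel
  have h6 : χ ≠ 0 := fun e => H11.irr_apply_one_ne_zero hχ (by rw [e]; rfl)
  have h7 : ρ - χ ≠ 0 := fun e => by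
    rw [sub_eq_zero.1 e, ip_irr hχ] at h2
    norm_num at h2
  obtain ⟨-, h8, h9⟩ := irr_of_add_two (H11.isCharacter_of_irr hχ) h4 h6 h7 (by rwa [h5])
  exact ⟨χ, ρ - χ, hχ, h8, h9, fun g => by simp⟩

/-- Three non-zero characters whose sum has norm three are irreducible. -/
theorem three_of_ip_three {a b c : G → ℂ} (ha : IsCharacter G a) (hb : IsCharacter G b)
    (hc : IsCharacter G c) (ha0 : a ≠ 0) (hb0 : b ≠ 0) (hc0 : c ≠ 0)
    (h : ip (a + b + c) (a + b + c) = 3) :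
    IsIrrCharacter G a ∧ IsIrrCharacter G b ∧ IsIrrCharacter G c := by
  obtain ⟨m, hm0, hm⟩ := exists_pos_ip ha ha0
  obtain ⟨n, hn0, hn⟩ := exists_pos_ip hb hb0
  obtain ⟨k, hk0, hk⟩ := exists_pos_ip hc hc0
  obtain ⟨x1, h1⟩ := exists_nat_ip ha hb
  obtain ⟨x2, h2⟩ := exists_nat_ip ha hc
  obtain ⟨x3, h3⟩ := exists_nat_ip hb ha
  obtain ⟨x4, h4⟩ := exists_nat_ip hb hc
  obtain ⟨x5, h5⟩ := exists_nat_ip hc ha
  obtain ⟨x6, h6⟩ := exists_nat_ip hc hb
  simp only [ip_add_left, ip_add_right, hm, hn, hk, h1, h2, h3, h4, h5, h6] at h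
  have h' : m + x3 + x5 + (x1 + n + x6) + (x2 + x4 + k) = 3 := by exact_mod_cast h
  obtain rfl : m = 1 := by omega
  obtain rfl : n = 1 := by omega
  obtain rfl : k = 1 := by omega
  exact ⟨irr_of_ip_one ha (by simpa using hm), irr_of_ip_one hb (by simpa using hn),
    irr_of_ip_one hc (by simpa using hk)⟩

/-- If `z` acts on a sum as the sign `s`, it does so on each summand. -/
theorem sgn_of_add {a b : G → ℂ} (ha : IsCharacter G a) (hb : IsCharacter G b) {z : G} {s : ℂ}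
    (hs : s = 1 ∨ s = -1) (h : a z + b z = s * (a 1 + b 1)) : a z = s * a 1 ∧ b z = s * b 1 := by
  have key : ∀ {a b : G → ℂ}, IsCharacter G a → IsCharacter G b →
      a z + b z = s * (a 1 + b 1) → a z = s * a 1 := by
    intro a b ha hb h
    obtain ⟨m, hm⟩ := H11.exists_nat_degree ha
    obtain ⟨n, hn⟩ := H11.exists_nat_degree hb
    have h1 := H11.norm_apply_le ha z
    have h2 := H11.norm_apply_le hb z
    rw [hm] at h1 h ⊢
    rw [hn] at h2 h
    simp only [Complex.natCast_re] at h1 h2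
    have h3 := abs_le.1 ((Complex.abs_re_le_norm (a z)).trans h1)
    have h4 := abs_le.1 ((Complex.abs_re_le_norm (b z)).trans h2)
    have h5 := congrArg Complex.re h
    have h6 : ‖a z‖ ^ 2 ≤ (m : ℝ) ^ 2 := by gcongr
    rw [← Complex.normSq_eq_norm_sq, Complex.normSq_apply] at h6
    rcases hs with rfl | rfl
    · simp at h5
      have h7 : (a z).re = m := by linarith
      rw [h7] at h6
      apply Complex.ext
      · simpa using h7
      · simpa using (by nlinarith : (a z).im = 0)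
    · simp at h5
      have h7 : (a z).re = -m := by linarith
      rw [h7] at h6
      apply Complex.ext
      · simpa using h7
      · simpa using (by nlinarith : (a z).im = 0)
  exact ⟨key ha hb h, key hb ha (by rw [add_comm, h, add_comm])⟩

end Char

section Geo

variable {F V : Type} [Field F] [AddCommGroup V] [Module F V] {P : PForm F V}

theorem neg_mem_isom (P : PForm F V) : LinearEquiv.neg F ∈ P.isom :=
  ⟨fun x y => by simp [P.f_neg_left, P.f_neg_right], fun x => PForm.h_neg x⟩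

theorem sim_of_isom {g : V ≃ₗ[F] V} (h : g ∈ P.isom) : Sim P g :=
  ⟨fun x y e => by rw [PForm.isom_f h, e], fun _ hx => hx.map h⟩

theorem TS.f_eq_zero {X : Submodule F V} (h : TS P X) {x y : V} (hx : x ∈ X) (hy : y ∈ X) :
    P.f x y = 0 := h.2 hx y hy

theorem TS.mono {X Y : Submodule F V} (h : TS P X) (hY : Y ≤ X) : TS P Y :=
  ⟨fun y hy => h.1 y (hY hy), fun _ hy z hz => h.2 (hY hy) z (hY hz)⟩

theorem ts_bot : TS P ⊥ := ⟨fun x hx => by rw [(Submodule.mem_bot F).1 hx]; exact P.sing_zero, bot_le⟩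

theorem TS.sup {X Y : Submodule F V} (h : TS P X) (h' : TS P Y) (hXY : X ≤ P.perp Y) :
    TS P (X ⊔ Y) := by
  refine ⟨fun v hv => ?_, ?_⟩
  · obtain ⟨x, hx, y, hy, rfl⟩ := Submodule.mem_sup.1 hv
    exact (h.1 x hx).add (h'.1 y hy) (hXY hx y hy)
  · rw [PForm.perp_sup]
    exact sup_le (le_inf h.2 hXY) (le_inf (PForm.le_perp_comm.1 hXY) h'.2)

theorem ts_span_singleton {x : V} (h : P.Sing x) : TS P (F ∙ x) := by
  refine ⟨fun v hv => ?_, fun v hv => ?_⟩
  · obtain ⟨c, rfl⟩ := Submodule.mem_span_singleton.1 hv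
    exact h.smul c
  · obtain ⟨c, rfl⟩ := Submodule.mem_span_singleton.1 hv
    rw [PForm.mem_perp_span_singleton, P.f_smul_left, h.f_self, mul_zero]

theorem mem_mp {g : V ≃ₗ[F] V} {X : Submodule F V} {v : V} : v ∈ mp g X ↔ g⁻¹ v ∈ X :=
  ⟨by rintro ⟨x, hx, rfl⟩; exact (PForm.inv_apply_apply g x).symm ▸ hx,
    fun h => ⟨_, h, PForm.apply_inv_apply g v⟩⟩

theorem apply_mem_mp {g : V ≃ₗ[F] V} {X : Submodule F V} {v : V} : g v ∈ mp g X ↔ v ∈ X := by
  rw [mem_mp, PForm.inv_apply_apply]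

theorem mp_mul (g k : V ≃ₗ[F] V) (X : Submodule F V) : mp (g * k) X = mp g (mp k X) := by
  ext v
  rw [mem_mp, mem_mp, mem_mp, mul_inv_rev, PForm.mul_apply']

theorem mp_one (X : Submodule F V) : mp 1 X = X := by
  ext v
  rw [mem_mp, inv_one]; rfl

theorem finrank_mp (g : V ≃ₗ[F] V) (X : Submodule F V) : finrank F (mp g X) = finrank F X :=
  LinearEquiv.finrank_map_eq g X

theorem mem_stabSub_iff_mp {g : V ≃ₗ[F] V} {X : Submodule F V} : g ∈ stabSub X ↔ mp g X = X := by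
  refine ⟨fun h => Submodule.ext fun v => ?_, fun h x => ?_⟩
  · rw [mem_mp, h, PForm.apply_inv_apply]
  · conv_rhs => rw [← h]
    exact apply_mem_mp.symm

theorem conj_mem_stabSub {g x : V ≃ₗ[F] V} {X : Submodule F V} :
    x⁻¹ * g * x ∈ stabSub X ↔ g ∈ stabSub (mp x X) := by
  rw [mem_stabSub_iff_mp, mem_stabSub_iff_mp, mp_mul, mp_mul]
  refine ⟨fun h => ?_, fun h => ?_⟩
  · conv_rhs => rw [← h]
    rw [← mp_mul x, mul_inv_cancel, mp_one]
  · rw [h, ← mp_mul, inv_mul_cancel, mp_one]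

theorem mem_stab {G : Subgroup (V ≃ₗ[F] V)} {X : Submodule F V} {g : G} :
    g ∈ stab G X ↔ g.1 ∈ stabSub X := Iff.rfl

theorem TS.map {X : Submodule F V} (h : TS P X) {g : V ≃ₗ[F] V} (hg : Sim P g) :
    TS P (mp g X) := by
  refine ⟨?_, ?_⟩
  · rintro _ ⟨x, hx, rfl⟩
    exact hg.2 x (h.1 x hx)
  · rintro _ ⟨x, hx, rfl⟩ _ ⟨y, hy, rfl⟩
    exact hg.1 x y (h.2 hx y hy)

theorem Sim.mem_perp {g : V ≃ₗ[F] V} (hg : Sim P g) {X : Submodule F V} {v : V}
    (hv : v ∈ P.perp X) : g v ∈ P.perp (mp g X) := by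
  rintro _ ⟨y, hy, rfl⟩
  exact hg.1 v y (hv y hy)

theorem mp_perp {g : V ≃ₗ[F] V} (hg : Sim P g) (hg' : Sim P g⁻¹) (X : Submodule F V) :
    mp g (P.perp X) = P.perp (mp g X) := by
  refine le_antisymm ?_ fun v hv => ?_
  · rintro _ ⟨x, hx, rfl⟩
    exact hg.mem_perp hx
  · have := hg'.mem_perp hv
    rw [← mp_mul, inv_mul_cancel, mp_one] at this
    exact mem_mp.2 this

theorem Top.mem_stabSub [Finite V] {X : Submodule F V} (hX : TS P X) {g : V ≃ₗ[F] V}
    (h : Top P X g) : g ∈ stabSub X :=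
  H26.mem_stabSub.2 fun x hx => by simpa using X.add_mem (h x (hX.2 hx)) hx

theorem Rad.mem_stabSub [Finite V] {X : Submodule F V} {g : V ≃ₗ[F] V} (h : Rad P X g) :
    g ∈ stabSub X :=
  H26.mem_stabSub.2 fun x hx => by rwa [h.1 x hx]

theorem Rad.rs_eq [Finite V] {X : Submodule F V} {g : V ≃ₗ[F] V} (h : Rad P X g) : rs X g = 1 := by
  ext x
  rw [rs_apply h.mem_stabSub, h.1 x x.2]; rfl

theorem rs_inv {Y : Submodule F V} {g : V ≃ₗ[F] V} (hg : g ∈ stabSub Y) :
    rs Y g⁻¹ = (rs Y g)⁻¹ := by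
  rw [eq_inv_iff_mul_eq_one, ← rs_mul (inv_mem hg) hg, inv_mul_cancel, rs_one]

/-- The restriction as a homomorphism. -/
noncomputable def rsHom (G : Subgroup (V ≃ₗ[F] V)) (Y : Submodule F V) : stab G Y →* (Y ≃ₗ[F] Y) where
  toFun g := rs Y g.1.1
  map_one' := rs_one Y
  map_mul' a b := rs_mul a.2 b.2

theorem mem_UU [Finite V] {G : Subgroup (V ≃ₗ[F] V)} (hG : G ≤ P.isom) {Y : Submodule F V}
    {u : G} : u ∈ UU P G Y ↔ Rad P Y u := by
  refine ⟨fun h => h.1, fun h => ⟨h, fun v hv => ⟨?_, ?_⟩⟩⟩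
  · have := (sim_of_isom (hG u.2)).mem_perp hv
    rwa [mem_stabSub_iff_mp.1 h.mem_stabSub] at this
  · have := (sim_of_isom (inv_mem (hG u.2))).mem_perp hv
    rwa [mem_stabSub_iff_mp.1 (inv_mem h.mem_stabSub)] at this

instance E_normal (P : PForm F V) : (P.E.subgroupOf P.isom).Normal :=
  ⟨fun _ hn g => PForm.E_conj g.2 hn⟩

theorem E_congr {P P' : PForm F V} (hf : ∀ x y, P.f x y = P'.f x y) (hε : P.ε = P'.ε)
    (h : ∀ e y ν, P.EV e y ν ↔ P'.EV e y ν) : P.E = P'.E := by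
  have key : ∀ {P P' : PForm F V}, (∀ x y, P.f x y = P'.f x y) → P.ε = P'.ε →
      (∀ e y ν, P.EV e y ν → P'.EV e y ν) → P.E ≤ P'.E := fun hf hε h =>
    PForm.E_le_of fun e y ν hv => PForm.Ei.of_eq hv (h e y ν hv).equiv_mem_E fun x => by
      rw [PForm.EV.equiv_apply, PForm.eich_apply, PForm.eich_apply, hf, hf, hε]
  exact le_antisymm (key hf hε fun e y ν => (h e y ν).1)
    (key (fun x y => (hf x y).symm) hε.symm fun e y ν => (h e y ν).2)

variable {w e : ℕ}

/-- The quadratic form of an orthogonal space. -/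
def Ty.Q (h : Ty P false w e) : QuadraticForm F V where
  toFun := P.h
  toFun_smul c x := by
    have := P.h_smul c x
    rw [(h.orth rfl).2.1, AddSubgroup.mem_bot, h.sig, sub_eq_zero] at this
    rw [this, smul_eq_mul]
  exists_companion' := ⟨LinearMap.mk₂ F P.f P.f_add_left P.f_smul_left P.f_add_right
      (fun c x y => by rw [P.f_smul_right, h.sig, smul_eq_mul]), fun x y => by
    have := P.h_add x y
    rw [(h.orth rfl).2.1, AddSubgroup.mem_bot] at this
    rw [LinearMap.mk₂_apply]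
    linear_combination this⟩

theorem Ty.Q_apply (h : Ty P false w e) (x : V) : h.Q x = P.h x := rfl

theorem Ty.polar_Q (h : Ty P false w e) (x y : V) : QuadraticMap.polar h.Q x y = P.f x y := by
  have := P.h_add x y
  rw [(h.orth rfl).2.1, AddSubgroup.mem_bot] at this
  rw [QuadraticMap.polar, h.Q_apply, h.Q_apply, h.Q_apply]
  linear_combination this

theorem Ty.nondeg (h : Ty P false w e) : (QuadraticMap.polarBilin h.Q).Nondegenerate :=
  H30.nondegenerate_of_forall fun x hx => PForm.eq_zero_of_f_left (P := P) fun y => by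
    rw [← h.polar_Q, hx]

theorem Ty.sing_iff (h : Ty P false w e) {x : V} : P.Sing x ↔ P.h x = 0 := by
  rw [PForm.Sing, (h.orth rfl).2.1, AddSubgroup.mem_bot]

theorem Ty.isom_eq (h : Ty P false w e) : P.isom = H30.O h.Q := by
  ext g
  refine ⟨fun hg v => ?_, fun hg => ⟨fun x y => ?_, fun x => ?_⟩⟩
  · have := hg.2 v
    rwa [(h.orth rfl).2.1, AddSubgroup.mem_bot, sub_eq_zero] at this
  · rw [← h.polar_Q, ← h.polar_Q]; exact H30.O_polar ⟨g, hg⟩ x y
  · rw [(h.orth rfl).2.1, AddSubgroup.mem_bot, sub_eq_zero]; exact hg x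

theorem Ty.E_eq [Finite F] (h : Ty P false w e) : P.E = (PForm.ofQuad h.Q h.nondeg).E := by
  refine E_congr (fun x y => (h.polar_Q x y).symm) (h.orth rfl).1 fun a y ν => ⟨fun H => ⟨?_, ?_, ?_⟩,
    fun H => ⟨?_, ?_, ?_⟩⟩
  · exact h.sing_iff.1 H.sing
  · exact (h.polar_Q y a).trans H.orth
  · have := H.nu
    rwa [(h.orth rfl).2.1] at this
  · exact h.sing_iff.2 H.sing
  · exact (h.polar_Q y a).symm.trans H.orth
  · rw [(h.orth rfl).2.1]; exact H.nu

/-- The Eichler group in terms of `H30`. -/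
theorem Ty.mem_E_iff [Finite F] (h : Ty P false w e) (g : H30.O h.Q) :
    g.1 ∈ P.E ↔ g ∈ H30.eichGroup h.Q := by
  rw [h.E_eq, ← H75.range_eichIncl]
  refine ⟨?_, fun hg => ⟨⟨g, hg⟩, rfl⟩⟩
  rintro ⟨k, hk⟩
  obtain rfl : k.1 = g := Subtype.ext hk
  exact k.2

/-- The bridge in one statement. -/
theorem Ty.toQ [Finite F] (h : Ty P false w e) : ∃ (Q : QuadraticForm F V)
    (hQ : (QuadraticMap.polarBilin Q).Nondegenerate), (∀ x, Q x = P.h x) ∧
    (∀ x y, QuadraticMap.polar Q x y = P.f x y) ∧ P.isom = H30.O Q ∧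
    P.E = (PForm.ofQuad Q hQ).E ∧ ∀ g : H30.O Q, g.1 ∈ P.E ↔ g ∈ H30.eichGroup Q :=
  ⟨h.Q, h.nondeg, h.Q_apply, h.polar_Q, h.isom_eq, h.E_eq, h.mem_E_iff⟩

theorem Ty.two_ne_zero [Finite V] (h : Ty P false w 1) : (2 : F) ≠ 0 := fun h2 => by
  have := H27.even_finrank_of_alt h.nondeg fun x => by
    rw [QuadraticMap.polarBilin_apply_apply, H30.polar_self', h2, zero_mul]
  rw [(h.orth rfl).2.2.2] at this
  exact Nat.not_even_two_mul_add_one w this

theorem Ty.odd [Finite F] [Finite V] (h : Ty P false w 1) : Odd (Nat.card F) := by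
  have := Fintype.ofFinite F
  rw [Nat.card_eq_fintype_card]
  exact H30.two_ne_zero_iff_odd_card.1 h.two_ne_zero

theorem Ty.sing_sp (h : Ty P true w e) (x : V) : P.Sing x := by
  rw [PForm.Sing, (h.symp rfl).2.1]; trivial

theorem Ty.f_self_sp (h : Ty P true w e) (x : V) : P.f x x = 0 := (h.sing_sp x).f_self

theorem Ty.f_skew (h : Ty P true w e) (x y : V) : P.f x y = -P.f y x := by
  rw [P.herm y x, h.sig, (h.symp rfl).1, neg_one_mul]

theorem Ty.mem_isom_sp (h : Ty P true w e) {g : V ≃ₗ[F] V} :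
    g ∈ P.isom ↔ ∀ x y, P.f (g x) (g y) = P.f x y :=
  ⟨fun H => H.1, fun H => ⟨H, fun _ => by rw [(h.symp rfl).2.1]; trivial⟩⟩

theorem Ty.E_eq_sp (h : Ty P true w e) :
    P.E = (PForm.ofAlt P.f P.f_add_left P.f_smul_left h.f_skew h.f_self_sp P.nondeg).E :=
  E_congr (fun _ _ => rfl) (h.symp rfl).1 fun a y ν => ⟨fun H => ⟨trivial, H.orth, trivial⟩,
    fun H => ⟨h.sing_sp a, H.orth, by rw [(h.symp rfl).2.1]; trivial⟩⟩

theorem Ty.finrank_eq {sp : Bool} (h : Ty P sp w e) :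
    finrank F V = if sp then 2 * w else 2 * w + e := by
  cases sp
  · exact (h.orth rfl).2.2.2
  · exact (h.symp rfl).2.2.2

/-- The trivial character. -/
theorem dg_one (P : PForm F V) : Dg P 1 1 :=
  ⟨fun _ => 1, H11.isIrrCharacter_one, by simp, fun _ _ => by simp⟩

end Geo

end Cfsg.Agent.H53.Dg
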