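import Cfsg.Agent.H31.HermQ
import Cfsg.Agent.H31.HermSU
import Cfsg.Agent.H11.Kernel

/-!
Project UW (statement S4793): definitions and the statements of the pieces.
Proof sketches: `stubs/notes/h53_uw.md`.
-/

set_option autoImplicit false

namespace Cfsg.Agent.H53.Uw

open Module Polynomial Cfsg.Agent.H31
open scoped ComplexConjugate commutatorElement

universe u v

/-! ### Definitions -/

/-- The inner product of class functions. -/
noncomputable def ip {G : Type u} [Group G] [Finite G] (φ ψ : G → ℂ) : ℂ :=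
  @classInner G _ (Fintype.ofFinite G) φ ψ

theorem ip_eq {G : Type u} [Group G] [Finite G] [i : Fintype G] (φ ψ : G → ℂ) :
    ip φ ψ = classInner φ ψ := H11.classInner_fintype_irrel _ _ φ ψ

/-- The weight space of the function `l` on the subgroup `A`. -/
def Wt {G : Type u} [Group G] {M : Type} [AddCommGroup M] [Module ℂ M] (ρ : Representation ℂ G M)
    (A : Subgroup G) (l : G → ℂ) : Submodule ℂ M where
  carrier := {v | ∀ a ∈ A, ρ a v = l a • v}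
  add_mem' {v w} hv hw a ha := by rw [map_add, hv a ha, hw a ha, smul_add]
  zero_mem' a _ := by rw [map_zero, smul_zero]
  smul_mem' c v hv a ha := by rw [map_smul, hv a ha, smul_comm]

theorem mem_Wt {G : Type u} [Group G] {M : Type} [AddCommGroup M] [Module ℂ M]
    {ρ : Representation ℂ G M} {A : Subgroup G} {l : G → ℂ} {v : M} :
    v ∈ Wt ρ A l ↔ ∀ a ∈ A, ρ a v = l a • v := Iff.rfl

/-- The fixed space of `A`. -/
abbrev Fix {G : Type u} [Group G] {M : Type} [AddCommGroup M] [Module ℂ M]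
    (ρ : Representation ℂ G M) (A : Subgroup G) : Submodule ℂ M := Wt ρ A (fun _ => 1)

theorem mem_Fix {G : Type u} [Group G] {M : Type} [AddCommGroup M] [Module ℂ M]
    {ρ : Representation ℂ G M} {A : Subgroup G} {v : M} :
    v ∈ Fix ρ A ↔ ∀ a ∈ A, ρ a v = v := by
  simp only [mem_Wt, one_smul]

/-- The additive character `ψ` is not trivial on the skew elements. -/
def Sk {E : Type u} [Field E] (σ : E →+* E) (ψ : AddChar E ℂ) : Prop :=
  ∃ a, a + σ a = 0 ∧ ψ a ≠ 1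

section Geo

variable {E V : Type u} [Field E] [AddCommGroup V] [Module E V] {σ : E →+* E}

instance finEquiv [Finite V] : Finite (V ≃ₗ[E] V) :=
  Finite.of_injective (fun g : V ≃ₗ[E] V => (g : V → V)) DFunLike.coe_injective

/-- The fixed space. -/
def fx (g : V ≃ₗ[E] V) : Submodule E V := LinearMap.ker ((g : V →ₗ[E] V) - LinearMap.id)

theorem mem_fx {g : V ≃ₗ[E] V} {v : V} : v ∈ fx g ↔ g v = v := by
  simp [fx, sub_eq_zero]

/-- A "Singer cycle". -/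
def Good (σ : E →+* E) (q : ℕ) (C : V ≃ₗ[E] V) : Prop :=
  orderOf C = q ^ (2 * finrank E V) - 1 ∧ ∃ p : E[X], aeval (C : V →ₗ[E] V) p = 0 ∧ p.eval 1 ≠ 0 ∧
    Function.Injective (aeval ((C⁻¹ : V ≃ₗ[E] V) : V →ₗ[E] V) (p.map σ))

variable (B : V →ₛₗ[σ] V →ₗ[E] E)

/-- The setting: a unitary space over the field with `q ^ 2` elements. -/
structure St [Fintype E] (q : ℕ) : Prop where
  card : Fintype.card E = q ^ 2
  pow : ∀ x, σ x = x ^ q
  herm : IsHerm B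

/-- The Weil character. -/
noncomputable def om (q : ℕ) (g : isom B) : ℂ :=
  (-1) ^ finrank E V * (-(q : ℂ)) ^ finrank E (fx g.1)

/-- The scalars. -/
def Zc : Subgroup (isom B) where
  carrier := {g | ∃ a : E, ∀ x, g.1 x = a • x}
  mul_mem' := by
    rintro g k ⟨a, ha⟩ ⟨b, hb⟩
    exact ⟨a * b, fun x => by
      change g.1 (k.1 x) = _
      rw [ha, hb, mul_smul]⟩
  one_mem' := ⟨1, fun x => (one_smul _ _).symm⟩
  inv_mem' := by
    rintro g ⟨a, ha⟩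
    by_cases h : a = 0
    · refine ⟨0, fun x => ?_⟩
      have : x = 0 := by
        rw [← apply_inv_apply g.1 x, ha, h, zero_smul]
      rw [this, map_zero, smul_zero]
    · refine ⟨a⁻¹, fun x => ?_⟩
      change g.1⁻¹ x = _
      conv_rhs => rw [← apply_inv_apply g.1 x, ha, smul_smul, inv_mul_cancel₀ h, one_smul]

/-- The pointwise stabilizer of `X^⊥`: for a totally isotropic `X` the centre of the unipotent
radical, for a non-isotropic point the group of quasi-reflections. -/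
def CX (X : Submodule E V) : Subgroup (isom B) := (fixOn (perp B X)).subgroupOf (isom B)

/-- The elements trivial on `X` and `X^⊥ / X`. -/
def QX (X : Submodule E V) : Subgroup (isom B) where
  carrier := {g | (∀ x ∈ X, g.1 x = x) ∧ ∀ v ∈ perp B X, g.1 v - v ∈ X}
  mul_mem' {a b} ha hb := ⟨fun x hx => by
      change a.1 (b.1 x) = x
      rw [hb.1 x hx, ha.1 x hx], fun v hv => by
      change a.1 (b.1 v) - v ∈ X
      have h1 := hb.2 v hv
      have e : a.1 (b.1 v) - v = (a.1 v - v) + (b.1 v - v) := by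
        rw [← ha.1 _ h1, map_sub]; abel
      rw [e]
      exact X.add_mem (ha.2 v hv) h1⟩
  one_mem' := ⟨fun _ _ => rfl, fun v _ => by
      change v - v ∈ X
      rw [sub_self]; exact X.zero_mem⟩
  inv_mem' {a} ha := ⟨fun x hx => by
      change a.1⁻¹ x = x
      conv_lhs => rw [← ha.1 x hx]
      exact inv_apply_apply a.1 x, fun v hv => by
      change a.1⁻¹ v - v ∈ X
      have h1 := ha.2 v hv
      have e : a.1⁻¹ (a.1 v - v) = a.1 v - v := by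
        conv_lhs => rw [← ha.1 _ h1]
        exact inv_apply_apply a.1 _
      rw [map_sub, inv_apply_apply] at e
      rw [← neg_sub, e]
      exact X.neg_mem h1⟩

/-- The component of the Weil character with trivial central character. -/
noncomputable def om0 (q : ℕ) (g : isom B) : ℂ :=
  ((q : ℂ) + 1)⁻¹ * ∑ᶠ z : Zc B, om B q (z * g)

/-- The sums over the cosets of the reflection groups vanish. -/
def NF (φ : isom B → ℂ) : Prop :=
  ∀ u, B u u ≠ 0 → ∀ g : isom B, ∑ᶠ r : CX B (E ∙ u), φ (g * r) = 0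

/-- The reflection groups have no fixed vectors. -/
def RNF {M : Type} [AddCommGroup M] [Module ℂ M] (ρ : Representation ℂ (isom B) M) : Prop :=
  ∀ u, B u u ≠ 0 → Fix ρ (CX B (E ∙ u)) = ⊥

/-- Some transvection acts non-trivially. -/
def NT {M : Type} [AddCommGroup M] [Module ℂ M] (ρ : Representation ℂ (isom B) M) : Prop :=
  ∃ x, B x x = 0 ∧ ∃ t ∈ CX B (E ∙ x), ρ t ≠ 1

/-- `X` is a maximal totally isotropic subspace of `u^⊥`, and `X^⊥ = X + u`. -/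
structure Fl (u : V) (X : Submodule E V) : Prop where
  an : B u u ≠ 0
  ti : TotIso B X
  orth : ∀ x ∈ X, B u x = 0
  dim : 2 * finrank E X + 1 = finrank E V

variable {B}

theorem mem_Zc {g : isom B} : g ∈ Zc B ↔ ∃ a : E, ∀ x, g.1 x = a • x := Iff.rfl

theorem mem_CX {X : Submodule E V} {g : isom B} :
    g ∈ CX B X ↔ ∀ v ∈ perp B X, g.1 v = v := Iff.rfl

theorem mem_CX_span {u : V} {g : isom B} :
    g ∈ CX B (E ∙ u) ↔ ∀ v, B u v = 0 → g.1 v = v := by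
  simp only [mem_CX, mem_perp_span_singleton]

theorem mem_QX {X : Submodule E V} {g : isom B} :
    g ∈ QX B X ↔ (∀ x ∈ X, g.1 x = x) ∧ ∀ v ∈ perp B X, g.1 v - v ∈ X := Iff.rfl

theorem CX_mono {X Y : Submodule E V} (h : X ≤ Y) : CX B X ≤ CX B Y :=
  fun _ hg v hv => hg v (perp_anti h hv)

theorem CX_le_QX {X : Submodule E V} (h : TotIso B X) : CX B X ≤ QX B X :=
  fun _ hg => ⟨fun x hx => hg x (totIso_iff_le_perp.1 h hx), fun v hv => by
    rw [mem_CX.1 hg v hv, sub_self]; exact X.zero_mem⟩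

theorem mul_ap (g k : isom B) (x : V) : (g * k).1 x = g.1 (k.1 x) := rfl

theorem isom_ext {g k : isom B} (h : ∀ x, g.1 x = k.1 x) : g = k :=
  Subtype.ext (LinearEquiv.ext h)

theorem Zc_comm {s : isom B} (hs : s ∈ Zc B) (g : isom B) : s * g = g * s := by
  obtain ⟨a, ha⟩ := hs
  exact isom_ext fun x => by rw [mul_ap, mul_ap, ha, ha, map_smul]

/-- `z - 1` maps into `X` for `z` in `CX X`. -/
theorem sub_mem_of_CX [FiniteDimensional E V] (h : IsHerm B) {X : Submodule E V} {z : isom B}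
    (hz : z ∈ CX B X) (v : V) : z.1 v - v ∈ X := by
  rw [← h.perp_perp X, mem_perp]
  intro y hy
  have e : z.1 y = y := mem_CX.1 hz y hy
  rw [map_sub, ← e, mem_isom.1 z.2, e, sub_self]

end Geo

/-- The degree of the small Weil character. -/
def DD (q n : ℕ) : ℕ := (q ^ n - q) / (q + 1)

/-! ### Abstract pieces -/

/-- R1: simultaneous eigenvectors. -/
def R1Stmt : Prop := ∀ (G : Type u) [Group G] [Finite G] (M : Type) [AddCommGroup M] [Module ℂ M]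
  [FiniteDimensional ℂ M] (ρ : Representation ℂ G M) (A : Subgroup G) (N : Submodule ℂ M),
  (∀ a ∈ A, ∀ v ∈ N, ρ a v ∈ N) → (∀ a ∈ A, ∀ b ∈ A, ∀ v ∈ N, ρ a (ρ b v) = ρ b (ρ a v)) →
  ∀ a₀ ∈ A, ∀ v₀ ∈ N, ρ a₀ v₀ ≠ v₀ →
  ∃ (l : G → ℂ) (v : M), v ≠ 0 ∧ v ∈ N ∧ v ∈ Wt ρ A l ∧ l a₀ ≠ 1

/-- R2: orbit sums. -/
def R2Stmt : Prop := ∀ (G : Type u) [Group G] [Finite G] (M : Type) [AddCommGroup M] [Module ℂ M]
  [FiniteDimensional ℂ M] (ρ : Representation ℂ G M) (A H : Subgroup G) (l : G → ℂ) (v : M),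
  (∀ h ∈ H, ∀ a ∈ A, h⁻¹ * a * h ∈ A) → v ≠ 0 → v ∈ Wt ρ A l →
  (∀ h ∈ H, (∀ a ∈ A, l (h⁻¹ * a * h) = l a) → ρ h v = v) → Fix ρ H ≠ ⊥

/-- R3: independence of weight spaces. -/
def R3Stmt : Prop := ∀ (G : Type u) [Group G] [Finite G] (M : Type) [AddCommGroup M] [Module ℂ M]
  [FiniteDimensional ℂ M] (ρ : Representation ℂ G M) (A : Subgroup G) (N : Submodule ℂ M) (k : ℕ)
  (l : Fin k → G → ℂ), (∀ i j, i ≠ j → ∃ a ∈ A, l i a ≠ l j a) →
  ∑ i, finrank ℂ ↥(N ⊓ Wt ρ A (l i)) ≤ finrank ℂ N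

/-- R4: fixed vectors and character sums. -/
def R4Stmt : Prop := ∀ (G : Type u) [Group G] [Finite G] (M : Type) [AddCommGroup M] [Module ℂ M]
  [FiniteDimensional ℂ M] (ρ : Representation ℂ G M) (H : Subgroup G),
  (Fix ρ H = ⊥ ↔ ∑ᶠ h : H, ρ.character h = 0) ∧
  (Fix ρ H = ⊥ → ∀ g : G, ∑ᶠ h : H, ρ.character (g * h) = 0)

/-- R5: the restriction to an abelian subgroup. -/
def R5Stmt : Prop := ∀ (G : Type u) [Group G] [Finite G] (M : Type) [AddCommGroup M] [Module ℂ M]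
  [FiniteDimensional ℂ M] (ρ : Representation ℂ G M) (A : Subgroup G),
  (∀ a ∈ A, ∀ b ∈ A, a * b = b * a) → ∃ (d : ℕ) (l : Fin d → G → ℂ),
  (∀ i, Wt ρ A (l i) ≠ ⊥) ∧ ∀ a ∈ A, ρ.character a = ∑ i, l i a

/-- HEIS: a fixed point free group on a Heisenberg group. -/
def HeisStmt : Prop := ∀ (G : Type u) [Group G] [Finite G] (M : Type) [AddCommGroup M] [Module ℂ M]
  [FiniteDimensional ℂ M] (ρ : Representation ℂ G M) (Q R Z : Subgroup G) (l : G → ℂ),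
  Z ≤ Q → (∀ r ∈ R, ∀ y ∈ Q, r * y * r⁻¹ ∈ Q) → (∀ z ∈ Z, ∀ y ∈ Q, z * y = y * z) →
  (∀ z ∈ Z, ∀ r ∈ R, z * r = r * z) → (∀ y ∈ Q, ∀ y' ∈ Q, ⁅y, y'⁆ ∈ Z) → Wt ρ Z l ≠ ⊥ →
  (∀ y ∈ Q, y ∉ Z → ∃ y' ∈ Q, l ⁅y, y'⁆ ≠ 1) →
  (∀ r ∈ R, r ≠ 1 → ∀ y ∈ Q, ⁅y, r⁆ ∈ Z → y ∈ Z) → Fix ρ R = ⊥ →
  Z.relIndex Q ≤ (Nat.card R - 1) ^ 2

/-- PI: constituents of the conjugation character. -/
def PiStmt : Prop := ∀ (G : Type v) [Group G] [Fintype G] (χ : G → ℂ), IsCharacter G χ →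
  (classInner χ (fun g : G => (Nat.card ↥(Subgroup.centralizer ({g} : Set G)) : ℂ)) = 0 ↔
    ∀ g : G, ∑ᶠ h : Subgroup.centralizer ({g} : Set G), χ h = 0)

/-! ### Fields and forms -/

/-- GAUSS: Gauss sums of skew-Hermitian forms. -/
def GaussStmt : Prop := ∀ (E U : Type u) [Field E] [Fintype E] [AddCommGroup U] [Module E U]
  [Finite U] (σ : E →+* E) (q : ℕ) (ψ : AddChar E ℂ) (γ : U →ₛₗ[σ] U →ₗ[E] E),
  Fintype.card E = q ^ 2 → (∀ x, σ x = x ^ q) → Sk σ ψ → (∀ x y, σ (γ x y) = -γ y x) →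
  ∑ᶠ y, ψ (γ y y) = (-(q : ℂ)) ^ (finrank E U + finrank E (LinearMap.ker γ))

/-- FOB: a non-degenerate form on an extension field with few isometries. -/
def FobStmt : Prop := ∀ (E K : Type u) [Field E] [Fintype E] [Field K] [Algebra E K] [Finite K]
  (σ : E →+* E) (q : ℕ), Fintype.card E = q ^ 2 → (∀ x, σ x = x ^ q) → 2 ≤ finrank E K →
  ∃ b : K →ₛₗ[σ] K →ₗ[E] E, IsHerm b ∧
    ∀ a : K, (∀ x y, b (a * x) (a * y) = b x y) → ∃ c : E, a = algebraMap E K c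

/-- FO: a Singer cycle in general position. -/
def FoStmt : Prop := ∀ (E X : Type u) [Field E] [Fintype E] [AddCommGroup X] [Module E X]
  [Finite X] (σ : E →+* E) (q : ℕ) (β : X →ₛₗ[σ] X →ₗ[E] E),
  Fintype.card E = q ^ 2 → (∀ x, σ x = x ^ q) → IsHermSymm β → β ≠ 0 →
  ¬ (q = 2 ∧ finrank E X = 1) → ∃ C : X ≃ₗ[E] X, Good σ q C ∧
    ∀ t : X ≃ₗ[E] X, t * C = C * t → (∀ x y, β (t x) (t y) = β x y) →
      ∃ a : E, a * σ a = 1 ∧ ∀ x, t x = a • x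

/-! ### The Weil character -/

/-- KIT: orders of the small subgroups. -/
def KitStmt : Prop := ∀ (E V : Type u) [Field E] [Fintype E] [AddCommGroup V] [Module E V]
  [Finite V] (σ : E →+* E) (B : V →ₛₗ[σ] V →ₗ[E] E) (q : ℕ), St B q →
  (∃ ψ : AddChar E ℂ, Sk σ ψ) ∧ (1 ≤ finrank E V → Nat.card (Zc B) = q + 1) ∧
  (∀ u, B u u ≠ 0 → Nat.card (CX B (E ∙ u)) = q + 1) ∧
  (∀ u, B u u ≠ 0 → ∑ᶠ r : CX B (E ∙ u), om B q r = 0) ∧
  (∀ x, B x x = 0 → ∀ t ∈ CX B (E ∙ x), t ≠ 1 → om B q t ≠ om B q 1) ∧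
  (∀ x y, B x x = 0 → B y y = 0 → ∀ t ∈ CX B (E ∙ x), ∀ t' ∈ CX B (E ∙ y), t ≠ 1 → t' ≠ 1 →
    IsConj t t') ∧
  (∀ x, B x x = 0 → x ≠ 0 → ∃ t ∈ CX B (E ∙ x), t ≠ 1) ∧
  (∀ x, B x x = 0 → ∀ t ∈ CX B (E ∙ x), t.1 ∈ sisom B)

/-- TW: the simple module of the twisted group algebra of `V`. -/
def TwStmt : Prop := ∀ (E V : Type u) [Field E] [Fintype E] [AddCommGroup V] [Module E V]
  [Finite V] (σ : E →+* E) (B : V →ₛₗ[σ] V →ₗ[E] E) (q : ℕ), St B q → ∀ ψ : AddChar E ℂ,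
  Sk σ ψ → ∃ e : V → Module.End ℂ (Fin (q ^ finrank E V) → ℂ), e 0 = 1 ∧
    (∀ u v, e u * e v = ψ (B u v) • e (u + v)) ∧
    (∀ v, v ≠ 0 → LinearMap.trace ℂ _ (e v) = 0) ∧
    ∀ T : Module.End ℂ (Fin (q ^ finrank E V) → ℂ), (∀ v, T * e v = e v * T) → ∃ c : ℂ, T = c • 1

/-- WEIL: the Weil character is a character. -/
def WeilStmt : Prop := ∀ (E V : Type u) [Field E] [Fintype E] [AddCommGroup V] [Module E V]
  [Finite V] (σ : E →+* E) (B : V →ₛₗ[σ] V →ₗ[E] E) (q : ℕ), St B q →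
  IsCharacter (isom B) (om B q)

/-- NORM: its norm. -/
def NormStmt : Prop := ∀ (E V : Type u) [Field E] [Fintype E] [AddCommGroup V] [Module E V]
  [Finite V] (σ : E →+* E) (B : V →ₛₗ[σ] V →ₗ[E] E) (q : ℕ), St B q →
  ∃ k : ℕ, k ≤ q + 1 ∧ ip (om B q) (om B q) = k

/-- WD: its constituents. -/
def WdStmt : Prop := ∀ (E V : Type u) [Field E] [Fintype E] [AddCommGroup V] [Module E V]
  [Finite V] (σ : E →+* E) (B : V →ₛₗ[σ] V →ₗ[E] E) (q : ℕ), St B q → Odd (finrank E V) →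
  3 ≤ finrank E V →
  IsIrrCharacter (isom B) (om0 B q) ∧ om0 B q 1 = DD q (finrank E V) ∧
  (∀ χ, IsIrrCharacter (isom B) χ → ip χ (om B q) ≠ 0 →
    χ = om0 B q ∨ (χ 1 = DD q (finrank E V) + 1 ∧ ∃ z ∈ Zc B, χ z ≠ χ 1)) ∧
  ∃ φ : isom B → ℂ, NF B φ ∧ (∀ X, TotIso B X → ∀ z ∈ CX B X, φ z = 1) ∧ ip φ (om B q) = 0

/-- MOB: Moebius inversion over the fixed spaces. -/
def MobStmt : Prop := ∀ (E V : Type u) [Field E] [Fintype E] [AddCommGroup V] [Module E V]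
  [Finite V] (σ : E →+* E) (B : V →ₛₗ[σ] V →ₗ[E] E) (q : ℕ), St B q → ∀ φ : isom B → ℂ,
  NF B φ → (∀ X, TotIso B X → ∀ z ∈ CX B X, φ z = 0) → ip φ (om B q) = 0

/-! ### Modules without fixed vectors of reflections -/

/-- GEN: generators of `CX X`. -/
def GenStmt : Prop := ∀ (E V : Type u) [Field E] [Fintype E] [AddCommGroup V] [Module E V]
  [Finite V] (σ : E →+* E) (B : V →ₛₗ[σ] V →ₗ[E] E) (q : ℕ), St B q → ∀ X, TotIso B X →
  (∀ x ∈ X, ∀ y ∈ X, ∃ z ∈ CX B X, IsEich B x y 0 z.1) ∧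
  (∀ z ∈ CX B X, ∀ z' ∈ CX B X, ∀ v, (z * z').1 v - v = (z.1 v - v) + (z'.1 v - v)) ∧
  ∀ K : Subgroup (isom B), (∀ x ∈ X, ∀ y ∈ X, ∀ z : isom B, IsEich B x y 0 z.1 → z ∈ K) →
    CX B X ≤ K

/-- FORM: the Hermitian form of a linear character of `CX X`. -/
def FormStmt : Prop := ∀ (E V : Type u) [Field E] [Fintype E] [AddCommGroup V] [Module E V]
  [Finite V] (σ : E →+* E) (B : V →ₛₗ[σ] V →ₗ[E] E) (q : ℕ), St B q → ∀ (ψ : AddChar E ℂ)
  (X : Submodule E V) (l : isom B → ℂ), Sk σ ψ → TotIso B X → l 1 = 1 →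
  (∀ z ∈ CX B X, ∀ z' ∈ CX B X, l (z * z') = l z * l z') →
  ∃ β : X →ₛₗ[σ] X →ₗ[E] E, IsHermSymm β ∧
    (∀ (x y : X) (z : isom B), IsEich B x y 0 z.1 → l z = ψ (β x y - β y x)) ∧
    (β = 0 → ∀ z ∈ CX B X, l z = 1) ∧
    (∀ x y : X, β x y ≠ 0 → ∃ c : E, ψ (β x (c • y) - β (c • y) x) ≠ 1) ∧
    ∀ (h : isom B) (t : X ≃ₗ[E] X), (∀ x : X, h.1 x = t x) →
      (∀ z ∈ CX B X, l (h⁻¹ * z * h) = l z) → ∀ x y, β (t x) (t y) = β x y

/-- RK1: only characters of rank at most one occur. -/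
def Rk1Stmt : Prop := ∀ (E V : Type u) [Field E] [Fintype E] [AddCommGroup V] [Module E V]
  [Finite V] (σ : E →+* E) (B : V →ₛₗ[σ] V →ₗ[E] E) (q : ℕ), St B q → Odd (finrank E V) →
  ∀ (M : Type) [AddCommGroup M] [Module ℂ M] [FiniteDimensional ℂ M]
  (ρ : Representation ℂ (isom B) M) (ψ : AddChar E ℂ) (X : Submodule E V) (l : isom B → ℂ),
  RNF B ρ → Sk σ ψ → TotIso B X → Wt ρ (CX B X) l ≠ ⊥ →
  ∃ y, ∀ z ∈ CX B X, l z = ψ (B y (z.1 y - y))

/-- RK: the values on the quadratic unipotent elements. -/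
def RkStmt : Prop := ∀ (E V : Type u) [Field E] [Fintype E] [AddCommGroup V] [Module E V]
  [Finite V] (σ : E →+* E) (B : V →ₛₗ[σ] V →ₗ[E] E) (q : ℕ), St B q → Odd (finrank E V) →
  ∀ (M : Type) [AddCommGroup M] [Module ℂ M] [FiniteDimensional ℂ M]
  (ρ : Representation ℂ (isom B) M), RNF B ρ → ∀ X, TotIso B X →
  ∃ a κ : ℂ, ∀ z ∈ CX B X, ρ.character z = κ + a * om B q z

/-! ### Finding fixed vectors -/

/-- TOR: the centralizer of the lifted Singer cycle. -/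
def TorStmt : Prop := ∀ (E V : Type u) [Field E] [Fintype E] [AddCommGroup V] [Module E V]
  [Finite V] (σ : E →+* E) (B : V →ₛₗ[σ] V →ₗ[E] E) (q : ℕ), St B q →
  ∀ (u : V) (X : Submodule E V) (C : X ≃ₗ[E] X), Fl B u X → Good σ q C →
  ∃ g : isom B, g.1 u = u ∧ (∀ x : X, g.1 x = C x) ∧ ∀ h : isom B, h * g = g * h →
    (∃ t : X ≃ₗ[E] X, t * C = C * t ∧ ∀ x : X, h.1 x = t x) ∧ (∃ c : E, h.1 u = c • u) ∧
    ∀ a : E, a * σ a = 1 → (∀ x ∈ X, h.1 x = a • x) →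
      ∃ s ∈ Zc B, ∃ r ∈ CX B (E ∙ u), (∀ x, s.1 x = a • x) ∧ h = s * r

/-- CASE1: the unipotent radical acts non-trivially on the fixed space of its centre. -/
def Case1Stmt : Prop := ∀ (E V : Type u) [Field E] [Fintype E] [AddCommGroup V] [Module E V]
  [Finite V] (σ : E →+* E) (B : V →ₛₗ[σ] V →ₗ[E] E) (q : ℕ), St B q →
  ∀ (M : Type) [AddCommGroup M] [Module ℂ M] [FiniteDimensional ℂ M]
  (ρ : Representation ℂ (isom B) M) (u : V) (X : Submodule E V) (v : M), Fl B u X →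
  ¬ (q = 2 ∧ finrank E X = 1) → v ∈ Fix ρ (CX B X) → v ∉ Fix ρ (QX B X) →
  q ^ (2 * finrank E X) - 1 ≤ finrank ℂ M ∧ ((∀ s ∈ Zc B, ρ s = 1) →
    ∃ g : isom B, Fix ρ (Subgroup.centralizer ({g} : Set (isom B))) ≠ ⊥)

/-- CASE2: the centre acts non-trivially on an eigenspace of the reflection group. -/
def Case2Stmt : Prop := ∀ (E V : Type u) [Field E] [Fintype E] [AddCommGroup V] [Module E V]
  [Finite V] (σ : E →+* E) (B : V →ₛₗ[σ] V →ₗ[E] E) (q : ℕ), St B q →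
  ∀ (M : Type) [AddCommGroup M] [Module ℂ M] [FiniteDimensional ℂ M]
  (ρ : Representation ℂ (isom B) M) (u : V) (X : Submodule E V) (η : isom B → ℂ) (v : M),
  Fl B u X → ¬ (q = 2 ∧ finrank E X = 1) → v ∈ Wt ρ (CX B (E ∙ u)) η → v ∉ Fix ρ (CX B X) →
  q ^ (2 * finrank E X) - 1 ≤ (q + 1) * finrank ℂ (Wt ρ (CX B (E ∙ u)) η) ∧
  ((∀ r ∈ CX B (E ∙ u), η r = 1) → (∀ s ∈ Zc B, ρ s = 1) →
    ∃ g : isom B, Fix ρ (Subgroup.centralizer ({g} : Set (isom B))) ≠ ⊥)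

/-- GENQ: the unipotent radicals generate all transvections. -/
def GenqStmt : Prop := ∀ (E V : Type u) [Field E] [Fintype E] [AddCommGroup V] [Module E V]
  [Finite V] (σ : E →+* E) (B : V →ₛₗ[σ] V →ₗ[E] E) (q : ℕ), St B q → Odd (finrank E V) →
  3 ≤ finrank E V → ∀ (u : V) (K : Subgroup (isom B)), B u u ≠ 0 →
  (∀ X, Fl B u X → QX B X ≤ K) → ∀ x, B x x = 0 → CX B (E ∙ x) ≤ K

/-- ETA: the linear characters on the reflection groups. -/
def EtaStmt : Prop := ∀ (E V : Type u) [Field E] [Fintype E] [AddCommGroup V] [Module E V]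
  [Finite V] (σ : E →+* E) (B : V →ₛₗ[σ] V →ₗ[E] E) (q : ℕ), St B q →
  (∃ η : Fin (q + 1) → (isom B →* ℂˣ), (∀ i (g : isom B), g.1 ∈ sisom B → η i g = 1) ∧
    ∀ u, B u u ≠ 0 → ∀ i j, i ≠ j → ∃ r ∈ CX B (E ∙ u), η i r ≠ η j r) ∧
  ∀ u u', B u u ≠ 0 → B u' u' ≠ 0 → ∃ k : isom B,
    ∀ r : isom B, r ∈ CX B (E ∙ u') ↔ k⁻¹ * r * k ∈ CX B (E ∙ u)

/-- DI: the dichotomy. -/
def DiStmt : Prop := ∀ (E V : Type u) [Field E] [Fintype E] [AddCommGroup V] [Module E V]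
  [Finite V] (σ : E →+* E) (B : V →ₛₗ[σ] V →ₗ[E] E) (q : ℕ), St B q → Odd (finrank E V) →
  3 ≤ finrank E V → ¬ (finrank E V = 3 ∧ q = 2) →
  ∀ (M : Type) [AddCommGroup M] [Module ℂ M] [FiniteDimensional ℂ M]
  (ρ : Representation ℂ (isom B) M), ρ.IsIrreducible → NT B ρ →
  ((∀ s ∈ Zc B, ρ s = 1) →
    (∀ g : isom B, Fix ρ (Subgroup.centralizer ({g} : Set (isom B))) = ⊥) → RNF B ρ) ∧
  (finrank ℂ M < q ^ (finrank E V - 1) - 1 → ∃ η : isom B →* ℂˣ,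
    (∀ g : isom B, g.1 ∈ sisom B → η g = 1) ∧
    ∀ u, B u u ≠ 0 → Wt ρ (CX B (E ∙ u)) (fun g => η g) = ⊥)

/-! ### No centralizer has fixed vectors in the Weil representation -/

/-- CYC: orthogonally indecomposable spaces of odd dimension are cyclic and primary. -/
def CycStmt : Prop := ∀ (E V : Type u) [Field E] [Fintype E] [AddCommGroup V] [Module E V]
  [Finite V] (σ : E →+* E) (B : V →ₛₗ[σ] V →ₗ[E] E) (q : ℕ), St B q → Odd (finrank E V) →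
  ∀ g : isom B, (∀ W : Submodule E V, (∀ w ∈ W, g.1 w ∈ W) → NondegOn B W → W = ⊥ ∨ W = ⊤) →
  ∃ (f : E[X]) (k : ℕ) (v : V), Irreducible f ∧ aeval (g.1 : V →ₗ[E] V) (f ^ k) = 0 ∧
    ∀ w, ∃ p : E[X], w = aeval (g.1 : V →ₗ[E] V) p v

/-- SUM: the cyclic primary case. -/
def SumStmt : Prop := ∀ (E V : Type u) [Field E] [Fintype E] [AddCommGroup V] [Module E V]
  [Finite V] (σ : E →+* E) (B : V →ₛₗ[σ] V →ₗ[E] E) (q : ℕ), St B q → Odd (finrank E V) →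
  ∀ (g : isom B) (f : E[X]) (k : ℕ) (v : V), Irreducible f →
  aeval (g.1 : V →ₗ[E] V) (f ^ k) = 0 → (∀ w, ∃ p : E[X], w = aeval (g.1 : V →ₗ[E] V) p v) →
  ∑ᶠ h : Subgroup.centralizer ({g} : Set (isom B)), om B q h = 0

/-- CENT: the general case. -/
def CentStmt : Prop := ∀ (E V : Type u) [Field E] [Fintype E] [AddCommGroup V] [Module E V]
  [Finite V] (σ : E →+* E) (B : V →ₛₗ[σ] V →ₗ[E] E) (q : ℕ), St B q → Odd (finrank E V) →
  ∀ g : isom B, ∃ H : Subgroup (isom B), H ≤ Subgroup.centralizer ({g} : Set (isom B)) ∧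
    ∑ᶠ h : H, om B q h = 0

/-- BR: the bridge to `PSU`. -/
def BrStmt : Prop := ∀ (G : Type v) [Group G] (n q : ℕ) (F : Type u) [Field F] [Fintype F]
  (hF : Fintype.card F = q ^ 2), 3 ≤ n → Nat.Coprime n (q + 1) → Nonempty (G ≃* PSU n F q) →
  ∃ f : isom (hermB hF n) →* G, Function.Surjective f ∧ f.ker = Zc (hermB hF n) ∧
    (∀ a b, f a * f b = f b * f a → a * b = b * a) ∧
    ∀ g : isom (hermB hF n), ∃ s z : isom (hermB hF n), s.1 ∈ sisom (hermB hF n) ∧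
      z ∈ Zc (hermB hF n) ∧ g = s * z

end Cfsg.Agent.H53.Uw
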