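import Cfsg.Agent.H53.AhKit

/-!
Project AH: the induction T4 and the final assembly.
-/

set_option autoImplicit false

namespace Cfsg.Agent.H53.AH

open MulAction Cfsg.Agent.H12.RO Cfsg.Agent.H53.MW

universe u

section Quot

variable {G G' V : Type*} [Group G] [Group G'] [AddCommGroup V] [DistribMulAction G V]
  [DistribMulAction G' V] (f : G →* G') (hf : Function.Surjective f)
  (hs : ∀ (g : G) (v : V), f g • v = g • v)
include hf hs

theorem Mod.quot [Finite G] {p : ℕ} {β : V →+ V →+ ZMod p} (h : Mod G V p β) : Mod G' V p β where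
  nd := h.nd
  inv g v w := by
    obtain ⟨g, rfl⟩ := hf g
    rw [hs, hs, h.inv]
  prime := h.prime
  ge := h.ge
  irr U hU := h.irr U fun g v hv => hs g v ▸ hU (f g) v hv
  alt := h.alt
  sm := h.sm.imp fun a ha g v => by
    obtain ⟨g, rfl⟩ := hf g
    rw [← map_pow, hs, ha]
  dos v w hv hw e := by
    have : Finite G' := Finite.of_surjective f hf
    have h1 : ∀ x : V, (stabilizer G x).index = (stabilizer G' x).index := fun x => by
      rw [← Subgroup.index_comap_of_surjective _ hf]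
      congr 1
      ext g
      rw [Subgroup.mem_comap, mem_stabilizer_iff, mem_stabilizer_iff, hs]
    have h2 : (stabilizer G' v).index = (stabilizer G' w).index :=
      Nat.eq_of_mul_eq_mul_left Nat.card_pos (by
        rw [Subgroup.card_mul_index, e, Subgroup.card_mul_index])
    have h3 : (stabilizer G v).index ≠ 0 := Subgroup.index_ne_zero_of_finite
    obtain ⟨g, hg⟩ := h.dos v w hv hw (Nat.eq_of_mul_eq_mul_right (Nat.pos_of_ne_zero h3) (by
      rw [Subgroup.card_mul_index, h1, h2, ← h1, Subgroup.card_mul_index]))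
    exact ⟨f g, (hs g v).trans hg⟩

theorem Goal.quot (h : Goal G' V) : Goal G V := by
  obtain ⟨v, N, hb, hg⟩ := h
  refine ⟨v, N.comap f, ⟨hb.ne, fun g e => hb.le _ (by rw [hs, e]), fun g e n hn => ?_,
    fun a ha => hs a v ▸ hb.nz _ ha, fun a b c ha hbc e => ?_⟩, ?_⟩
  · simpa only [hs] using hb.norm (f g) (by rw [hs, e]) (f n) hn
  · simpa only [hs] using hb.uniq (f a) (f b) (f c) ha (by rwa [← map_inv, ← map_mul])
      (by simpa only [hs] using e)
  rcases hg with ⟨τ, h1, h2, c, hc, h3⟩ | ⟨c, hc, h1, h2, n, hn, h3⟩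
  · obtain ⟨c, rfl⟩ := hf c
    exact Or.inl ⟨fun g => τ (f g), fun a ha b hb => by simpa only [map_mul] using h1 _ ha _ hb,
      fun g e => h2 _ (by rw [hs, e]), c, hc, h3⟩
  · obtain ⟨c, rfl⟩ := hf c
    obtain ⟨n, rfl⟩ := hf n
    refine Or.inr ⟨c, hc, fun m hm => ?_, fun m hm => ?_, n, hn, ?_⟩
    · simpa only [← map_pow, hs] using h1 (f m) hm
    · simpa only [← map_inv, ← map_mul, hs] using h2 (f m) hm
    · simpa only [← map_inv, ← map_pow, ← map_mul, hs] using h3

end Quot

theorem Mod.block {G V Ω : Type*} [Group G] [AddCommGroup V] [DistribMulAction G V]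
    [MulAction G Ω] [Fintype Ω] {p : ℕ} {β : V →+ V →+ ZMod p} (h : Mod G V p β) (S : Sys G V Ω)
    (ho : ∀ ω ω' : Ω, ω ≠ ω' → ∀ x y, β (S.e ω x) (S.e ω' y) = 0) (ω : Ω) :
    letI := subAct (S.inv_range ω)
    Mod (stabilizer G ω) (S.e ω).range p
      ((β.comp (S.e ω).range.subtype).compl₂ (S.e ω).range.subtype) := by
  classical
  letI := subAct (S.inv_range ω)
  have hid : ∀ x : (S.e ω).range, S.e ω x = x := by
    rintro ⟨_, y, rfl⟩
    exact S.idem ω y
  have hst : ∀ (g : G) (x y : (S.e ω).range), x ≠ 0 → g • (x : V) = y → g • ω = ω := by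
    intro g x y hx e
    by_contra hc
    have h1 := S.equiv g ω x
    rw [e, ← hid y, S.orth _ _ hc, hid, eq_comm, smul_eq_zero_iff_eq] at h1
    exact hx (Subtype.ext h1)
  refine ⟨⟨fun v hv => Subtype.ext (h.nd _ fun w => ?_), fun g v w => h.inv g v w⟩, h.prime, h.ge,
    S.irr_range h.irr ω, fun v => h.alt v, h.sm.imp fun a ha g v => Subtype.ext (ha g v),
    fun v w hv hw e => ?_⟩
  · rw [← S.sum w, map_sum, Finset.sum_eq_single ω]
    · exact hv ⟨_, w, rfl⟩
    · intro ω' _ hω
      rw [← hid v]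
      exact ho _ _ hω.symm _ _
    · simp
  · have h1 : ∀ x : (S.e ω).range, x ≠ 0 →
        Nat.card (stabilizer G (x : V)) = Nat.card (stabilizer (stabilizer G ω) x) := fun x hx =>
      Nat.card_congr
        { toFun := fun g => ⟨⟨g.1, hst g x x hx g.2⟩, Subtype.ext g.2⟩
          invFun := fun g => ⟨g.1.1, congrArg Subtype.val g.2⟩
          left_inv := fun _ => rfl
          right_inv := fun _ => rfl }
    obtain ⟨g, hg⟩ := h.dos v w (fun e => hv (Subtype.ext e)) (fun e => hw (Subtype.ext e))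
      (by rw [h1 v hv, h1 w hw, e])
    exact ⟨⟨g, hst g v w hv hg⟩, Subtype.ext hg⟩

theorem t4 (orth : OrthStmt.{u}) (lift : LiftStmt.{u}) (nsc : NscStmt.{u}) (e2 : E2Stmt.{u})
    (e4 : E4Stmt.{u}) (enum : EnumStmt.{u}) : T4Stmt.{u} := by
  intro G V _ _ _ _ _ _ _ p β h
  induction hn : Nat.card V using Nat.strong_induction_on generalizing G V with
  | _ n ih =>
  let f := DistribMulAction.toModuleAut ℤ V (S := G)
  let G' := f.range
  have hfin : Finite G' := Finite.of_surjective _ f.rangeRestrict_surjective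
  have hsol : Group.IsSolvable G' := Group.isSolvable_of_surjective f.rangeRestrict_surjective
  have hf : ∀ g : G', (∀ x : V, g • x = x) → g = 1 := fun g hg => Subtype.ext (LinearEquiv.ext hg)
  have h' : Mod G' V p β := h.quot f.rangeRestrict f.rangeRestrict_surjective fun _ _ => rfl
  refine Goal.quot f.rangeRestrict f.rangeRestrict_surjective (fun _ _ => rfl) ?_
  by_cases hp : Prim G' V
  · obtain ⟨K, _, _, _, W, _, _, _, σ, U, To, E, M, π, b, e, hk⟩ := pk G' V hf hp
    have hx : Px G' V K W σ U To E M π b e p β :=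
      ⟨hk, h', nsc G' V K W σ U To E M π b e hk p β h'⟩
    exact e2 G' V K W σ U To E M π b e p β hx
      ((enum G' V K W σ U To E M π b e p β hx).resolve_right
        (e4 G' V K W σ U To E M π b e p β hx))
  obtain ⟨Ω, _, _, _, S, -⟩ := exists_aff h'.irr hp
  obtain ⟨Ω', _, _, _, S', ho⟩ := orth G' V p β h' Ω S
  obtain ⟨ω, -⟩ := exists_pair_ne Ω'
  refine lift G' V Ω' S' ω ?_
  letI := subAct (S'.inv_range ω)
  have : Nontrivial (S'.e ω).range := by
    obtain ⟨x, hx⟩ := S'.ne ω
    exact ⟨⟨⟨_, x, rfl⟩, 0, fun e => hx (congrArg Subtype.val e)⟩⟩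
  exact ih _ (hn ▸ S'.card_range_lt ω) _ _ _ (h'.block S' ho ω) rfl

theorem final (c2 : C2Stmt.{u}) (num : NumStmt.{u}) (quo : QuoStmt.{u}) (c4a : C4aStmt.{u})
    (c4b : C4bStmt.{u}) (no5 : No5Stmt.{u}) (G : Type u) [Group G] [Finite G] [Nontrivial G]
    (hG : Group.IsSolvable G)
    (h : Function.Injective fun C : ConjClasses G => Nat.card C.carrier) :
    Nonempty (G ≃* Equiv.Perm (Fin 3)) := by
  have h1 : ∀ x : G, Nat.card (ConjClasses.mk x).carrier * cc x = Nat.card G := fun x => by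
    rw [cc, Subgroup.nat_card_centralizer_nat_card_stabilizer,
      ← ConjAct.orbit_eq_carrier_conjClasses, ← Nat.card_prod]
    exact Nat.card_congr (orbitProdStabilizerEquivGroup (ConjAct G) x)
  have ha : Ah G := fun x y e => ConjClasses.mk_eq_mk_iff_isConj.1 (h
    (Nat.eq_of_mul_eq_mul_right (Nat.card_pos (α := Subgroup.centralizer ({x} : Set G)))
      ((h1 x).trans ((h1 y).symm.trans (by rw [← e])))))
  by_cases h2 : ∃ x : G, cc x = 2
  · obtain ⟨x, hx⟩ := h2
    exact c2 G ha x hx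
  have h3 := no5 G ha
  obtain ⟨x, hx⟩ := (num G ha h3).resolve_left h2
  push Not at h2
  rcases quo G ha.rat h3 x hx with ⟨L, l1, l2, l3⟩ | ⟨φ, l1, l2⟩
  · exact (c4a G ha h3 h2 L l1 l2 l3).elim
  · exact (c4b G ha h2 φ l1 l2).elim

end Cfsg.Agent.H53.AH
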