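import Cfsg.Agent.H53.AhDefs

/-!
Project AH: basic tools.
-/

set_option autoImplicit false

namespace Cfsg.Agent.H53.AH

open MulAction Cfsg.Agent.H12.RO Cfsg.Agent.H53.MW Subgroup
open scoped commutatorElement

section Grp

variable {G : Type*} [Group G]

theorem cc_eq_of_zpowers {x y : G} (h : zpowers x = zpowers y) : cc x = cc y := by
  have : centralizer ({x} : Set G) = centralizer {y} := by
    rw [← centralizer_closure, ← zpowers_eq_closure, h, zpowers_eq_closure, centralizer_closure]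
  rw [cc, this]

theorem Ah.rat (h : Ah G) : Rat G := fun x y e => h x y (cc_eq_of_zpowers e)

theorem Rat.real (h : Rat G) (g : G) : IsConj g g⁻¹ := h _ _ zpowers_inv.symm

theorem zpowers_pow_of_coprime [Finite G] {x : G} {k : ℕ} (hk : k.Coprime (orderOf x)) :
    zpowers (x ^ k) = zpowers x :=
  le_antisymm (zpowers_le.2 (pow_mem (mem_zpowers x) k))
    (zpowers_le.2 (mem_zpowers_pow_iff.2 hk))

theorem Rat.pow [Finite G] (h : Rat G) (x : G) {k : ℕ} (hk : k.Coprime (orderOf x)) :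
    IsConj x (x ^ k) := h _ _ (zpowers_pow_of_coprime hk).symm

theorem Rat.map [Finite G] (h : Rat G) {H : Type*} [Group H] (f : G →* H)
    (hf : Function.Surjective f) : Rat H := by
  have : Finite H := Finite.of_surjective f hf
  intro x y e
  obtain ⟨x, rfl⟩ := hf x
  obtain ⟨k, rfl⟩ : ∃ k : ℕ, f x ^ k = y := mem_powers_iff_mem_zpowers.2 (e ▸ mem_zpowers y)
  have hk : k.Coprime (orderOf (f x)) := mem_zpowers_pow_iff.1 (e ▸ mem_zpowers _)
  have : NeZero (orderOf x) := ⟨(orderOf_pos x).ne'⟩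
  obtain ⟨u, hu⟩ := ZMod.unitsMap_surjective (orderOf_map_dvd f x) (ZMod.unitOfCoprime k hk)
  have h1 : f x ^ (u : ZMod (orderOf x)).val = f x ^ k := by
    rw [pow_eq_pow_iff_modEq, ← ZMod.natCast_eq_natCast_iff]
    have := congrArg Units.val hu
    rw [ZMod.unitsMap_def, Units.coe_map, ZMod.coe_unitOfCoprime] at this
    rw [← this, ZMod.natCast_val]
    rfl
  rw [← h1, ← map_pow]
  exact f.map_isConj (h.pow x (ZMod.val_coe_unit_coprime u))

theorem T23.of_dvd {m n : ℕ} (h : T23 n) (hm : m ∣ n) : T23 m :=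
  fun q hq hd => h q hq (hd.trans hm)

theorem T23.eq {n : ℕ} (h : T23 n) (hn : n ≠ 0) : ∃ a b : ℕ, n = 2 ^ a * 3 ^ b := by
  obtain ⟨a, m, hm, rfl⟩ := Nat.exists_eq_pow_mul_and_not_dvd hn 2 (by norm_num)
  have hm0 : m ≠ 0 := by rintro rfl; simp at hm
  obtain ⟨b, k, hk, rfl⟩ := Nat.exists_eq_pow_mul_and_not_dvd hm0 3 (by norm_num)
  refine ⟨a, b, ?_⟩
  by_cases h1 : k = 1
  · rw [h1, mul_one]
  obtain ⟨q, hq, hd⟩ := Nat.exists_prime_and_dvd h1
  rcases h q hq ((hd.mul_left _).mul_left _) with rfl | rfl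
  · exact absurd (hd.mul_left _) hm
  · exact absurd hd hk

theorem T23.dvd_pow {n : ℕ} (h : T23 n) (hn : n ≠ 0) : ∃ a : ℕ, n ∣ 6 ^ a := by
  obtain ⟨a, b, rfl⟩ := h.eq hn
  refine ⟨a + b, ?_⟩
  rw [show 6 = 2 * 3 from rfl, mul_pow]
  exact Nat.mul_dvd_mul (pow_dvd_pow _ (by omega)) (pow_dvd_pow _ (by omega))

theorem t23_of_dvd_pow {n a : ℕ} (h : n ∣ 6 ^ a) : T23 n := fun q hq hd => by
  have h1 : q ∣ 2 * 3 := hq.dvd_of_dvd_pow (hd.trans h)
  rcases (Nat.Prime.dvd_mul hq).1 h1 with h2 | h2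
  · exact Or.inl ((Nat.prime_dvd_prime_iff_eq hq Nat.prime_two).1 h2)
  · exact Or.inr ((Nat.prime_dvd_prime_iff_eq hq Nat.prime_three).1 h2)

/-- a group all of whose elements have `{2, 3}`-order -/
theorem t23_of_pow [Finite G] {a : ℕ} (h : ∀ g : G, g ^ 6 ^ a = 1) : T23 (Nat.card G) := by
  intro q hq hd
  have := Fact.mk hq
  obtain ⟨g, hg⟩ := exists_prime_orderOf_dvd_card' q hd
  exact t23_of_dvd_pow (orderOf_dvd_of_pow_eq_one (h g)) q hq (hg ▸ dvd_rfl)

variable {V : Type*} [MulAction G V]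

theorem Sm.t23 [Finite G] (h : Sm G V) : T23 (Nat.card (img G V)) := by
  obtain ⟨a, ha⟩ := h
  have : Finite (img G V) := Finite.of_surjective _ (toPermHom G V).rangeRestrict_surjective
  refine t23_of_pow (a := a) ?_
  rintro ⟨_, g, rfl⟩
  exact Subtype.ext (Equiv.ext fun v => by
    rw [SubgroupClass.coe_pow, ← map_pow]; exact ha g v)

theorem Sm.t23_of_faith [Finite G] (h : Sm G V) (hf : ∀ g : G, (∀ x : V, g • x = x) → g = 1) :
    T23 (Nat.card G) := by
  obtain ⟨a, ha⟩ := h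
  exact t23_of_pow fun g => hf _ (ha g)

theorem Sm.sub (h : Sm G V) (H : Subgroup G) : Sm H V :=
  h.imp fun _ ha g v => ha g v

/-- the index of a stabilizer (the length of an orbit) is a `{2, 3}`-number -/
theorem Sm.index [Finite G] (h : Sm G V) (v : V) : T23 (stabilizer G v).index := by
  refine h.t23.of_dvd ?_
  rw [← index_ker]
  exact index_dvd_of_le fun g hg => Equiv.ext_iff.1 (MonoidHom.mem_ker.1 hg) v

theorem sm_of_t23 [Finite G] (h : T23 (Nat.card (img G V))) : Sm G V := by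
  have : Finite (img G V) := Finite.of_surjective _ (toPermHom G V).rangeRestrict_surjective
  obtain ⟨a, ha⟩ := h.dvd_pow Nat.card_pos.ne'
  refine ⟨a, fun g v => ?_⟩
  have h1 : (toPermHom G V).rangeRestrict g ^ 6 ^ a = 1 :=
    orderOf_dvd_iff_pow_eq_one.1 ((_root_.orderOf_dvd_natCard _).trans ha)
  rw [← map_pow] at h1
  exact Equiv.ext_iff.1 (congrArg Subtype.val h1) v

end Grp

section Mod

variable {G V : Type*} [Group G] [AddCommGroup V] [DistribMulAction G V] {p : ℕ}
  {β : V →+ V →+ ZMod p}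

theorem Frm.nsmul (h : Frm G V β) (v : V) : p • v = 0 :=
  h.nd _ fun w => by rw [map_nsmul, AddMonoidHom.nsmul_apply, nsmul_eq_mul, ZMod.natCast_self,
    zero_mul]

theorem Frm.adj (h : Frm G V β) (g : G) (v w : V) : β (g • v) w = β v (g⁻¹ • w) := by
  rw [← h.inv g v, smul_inv_smul]

theorem Frm.adj' (h : Frm G V β) (g : G) (v w : V) : β v (g • w) = β (g⁻¹ • v) w := by
  rw [← h.inv g (g⁻¹ • v), smul_inv_smul]

theorem Frm.exists_ne (h : Frm G V β) {v : V} (hv : v ≠ 0) : ∃ w, β v w ≠ 0 := by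
  by_contra hc
  push Not at hc
  exact hv (h.nd v hc)

theorem nsmul_left (β : V →+ V →+ ZMod p) (k : ℕ) (v w : V) : β (k • v) w = k * β v w := by
  rw [map_nsmul, AddMonoidHom.nsmul_apply, nsmul_eq_mul]

theorem nsmul_right (β : V →+ V →+ ZMod p) (k : ℕ) (v w : V) : β v (k • w) = k * β v w := by
  rw [map_nsmul, nsmul_eq_mul]

theorem add_left (β : V →+ V →+ ZMod p) (u v w : V) : β (u + v) w = β u w + β v w := by
  rw [map_add, AddMonoidHom.add_apply]

theorem skew_of_alt (h : ∀ v, β v v = 0) (v w : V) : β w v = -β v w := by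
  have := h (v + w)
  rw [add_left, map_add, map_add, h, h, zero_add, add_zero] at this
  exact eq_neg_of_add_eq_zero_right this

theorem Dos.of_stab (h : Dos G V) {v w : V} (hv : v ≠ 0) (hw : w ≠ 0)
    (e : ∀ g : G, g • v = v ↔ g • w = w) : ∃ g : G, g • v = w :=
  h v w hv hw (by rw [show stabilizer G v = stabilizer G w from Subgroup.ext e])

variable (h : Mod G V p β)
include h

theorem Mod.pV (v : V) : p • v = 0 := h.toFrm.nsmul v

theorem Mod.skew (v w : V) : β w v = -β v w := skew_of_alt h.alt v w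

theorem Mod.nd' (w : V) (hw : ∀ v, β v w = 0) : w = 0 :=
  h.nd w fun v => by rw [h.skew, hw, neg_zero]

theorem Mod.nsmul_eq_zero {k : ℕ} (hk : ¬ p ∣ k) {v : V} (e : k • v = 0) : v = 0 := by
  have h1 := addOrderOf_dvd_of_nsmul_eq_zero e
  have h2 := addOrderOf_dvd_of_nsmul_eq_zero (h.pV v)
  rcases (Nat.dvd_prime h.prime).1 h2 with h3 | h3
  · exact AddMonoid.addOrderOf_eq_one_iff.1 h3
  · exact absurd (h3 ▸ h1) hk

theorem Mod.not_dvd {k : ℕ} (h0 : 0 < k) (h5 : k < 5) : ¬ p ∣ k := fun hd =>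
  absurd ((Nat.le_of_dvd h0 hd).trans_lt h5) (not_lt.2 h.ge)

theorem Mod.cast_ne {k : ℕ} (h0 : 0 < k) (h5 : k < 5) : (k : ZMod p) ≠ 0 := by
  rw [Ne, ZMod.natCast_eq_zero_iff]
  exact h.not_dvd h0 h5

theorem Mod.eq_zero_of_neg {v : V} (e : v = -v) : v = 0 :=
  h.nsmul_eq_zero (h.not_dvd two_pos (by norm_num)) (by rw [two_nsmul]; nth_rw 1 [e]; simp)

/-- the eigenvector property -/
theorem Mod.ep (v : V) {k : ℕ} (hk : ¬ p ∣ k) : ∃ g : G, g • v = k • v := by
  by_cases hv : v = 0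
  · exact ⟨1, by simp [hv]⟩
  refine h.dos.of_stab hv (fun e => hv (h.nsmul_eq_zero hk e)) fun g => ⟨fun e => ?_, fun e => ?_⟩
  · rw [smul_comm, e]
  · rw [← sub_eq_zero]
    refine h.nsmul_eq_zero hk ?_
    rw [smul_sub, smul_comm, e, sub_self]

theorem Mod.ep_two (v : V) : ∃ g : G, g • v = 2 • v := h.ep v (h.not_dvd two_pos (by norm_num))

theorem Mod.ep_neg (v : V) : ∃ g : G, g • v = -v := by
  have hp := h.prime
  obtain ⟨g, hg⟩ := h.ep v (k := p - 1) fun hd =>
    absurd (Nat.le_of_dvd (by have := h.ge; omega) hd) (by have := h.ge; omega)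
  refine ⟨g, hg.trans (eq_neg_of_add_eq_zero_left ?_)⟩
  rw [← succ_nsmul, Nat.sub_add_cancel hp.one_le, h.pV]

theorem Mod.sq_le [Finite V] [Nontrivial V] : p ^ 2 ≤ Nat.card V := by
  have := Fact.mk h.prime
  obtain ⟨v, hv⟩ := exists_ne (0 : V)
  obtain ⟨w, hw⟩ := h.toFrm.exists_ne hv
  let f : V → ZMod p × ZMod p := fun x => (β v x, β w x)
  have hf : Function.Surjective f := by
    rintro ⟨a, c⟩
    refine ⟨(a / β v w).val • w + (-c / β v w).val • v, Prod.ext ?_ ?_⟩
    · simp only [f, map_add, nsmul_right, h.alt, ZMod.natCast_val, ZMod.cast_id', id]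
      field_simp
      ring
    · simp only [f, map_add, nsmul_right, h.alt, ZMod.natCast_val, ZMod.cast_id', id, h.skew v w]
      field_simp
      ring
  simpa [sq] using Nat.card_le_card_of_surjective f hf

/-- two blocks which are not orthogonal -/
theorem Mod.pair {Ω : Type*} [MulAction G Ω] [Fintype Ω] (S : Sys G V Ω) {i j : Ω} (hij : i ≠ j)
    {v w : V} (hv : S.e i v = v) (hw : S.e j w = w) (hb : β v w ≠ 0) :
    p = 5 ∧ ∃ g : G, g • v = 2 • w ∧ g • w = 2 • v := by
  have := Fact.mk h.prime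
  obtain ⟨g, hg⟩ := h.ep_two (v + w)
  have hv0 : v ≠ 0 := by rintro rfl; simp at hb
  have hw0 : w ≠ 0 := by rintro rfl; simp at hb
  have e1 : ∀ ω, ω ≠ i → S.e ω v = 0 := fun ω hω => by rw [← hv, S.orth _ _ hω]
  have e2 : ∀ ω, ω ≠ j → S.e ω w = 0 := fun ω hω => by rw [← hw, S.orth _ _ hω]
  have a1 : g • v = 2 • (S.e (g • i) v + S.e (g • i) w) := by
    rw [← map_add, ← map_nsmul, ← hg, S.equiv, map_add, hv, e2 i hij, add_zero]
  have a2 : g • w = 2 • (S.e (g • j) v + S.e (g • j) w) := by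
    rw [← map_add, ← map_nsmul, ← hg, S.equiv, map_add, hw, e1 j hij.symm, zero_add]
  have hne : g • i ≠ g • j := fun e => hij (smul_left_cancel g e)
  have hi : g • i = i ∨ g • i = j := by
    by_contra hc
    push Not at hc
    rw [e1 _ hc.1, e2 _ hc.2, add_zero, smul_zero, smul_eq_zero_iff_eq] at a1
    exact hv0 a1
  have hj : g • j = i ∨ g • j = j := by
    by_contra hc
    push Not at hc
    rw [e1 _ hc.1, e2 _ hc.2, add_zero, smul_zero, smul_eq_zero_iff_eq] at a2
    exact hw0 a2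
  have hinv := h.inv g v w
  rcases hi with hi | hi
  · have hj' : g • j = j := hj.resolve_left fun e => hne (hi.trans e.symm)
    rw [hi, hv, e2 i hij, add_zero] at a1
    rw [hj', hw, e1 j hij.symm, zero_add] at a2
    rw [a1, a2, nsmul_left, nsmul_right] at hinv
    have h3 : ((3 : ℕ) : ZMod p) * β v w = 0 := by push_cast at hinv ⊢; linear_combination hinv
    exact absurd h3 (mul_ne_zero (h.cast_ne (by norm_num) (by norm_num)) hb)
  · have hj' : g • j = i := hj.resolve_right fun e => hne (hi.trans e.symm)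
    rw [hi, hw, e1 j hij.symm, zero_add] at a1
    rw [hj', hv, e2 i hij, add_zero] at a2
    refine ⟨?_, g, a1, a2⟩
    rw [a1, a2, nsmul_left, nsmul_right, h.skew v w] at hinv
    have h5 : ((5 : ℕ) : ZMod p) * β v w = 0 := by push_cast at hinv ⊢; linear_combination -hinv
    rw [mul_eq_zero, ZMod.natCast_eq_zero_iff] at h5
    exact (Nat.prime_dvd_prime_iff_eq h.prime (by norm_num)).1 (h5.resolve_right hb)

end Mod

section Px

variable {G V K W : Type*} [Group G] [AddCommGroup V] [DistribMulAction G V] [Field K]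
  [Module K V] [AddCommGroup W] [DistribMulAction G W] {σ : G →* RingAut K}
  {U To E M : Subgroup G} {π : G → W} {b : W → W → Kˣ} {e p : ℕ} {β : V →+ V →+ ZMod p}
  (h : Px G V K W σ U To E M π b e p β)
include h

theorem Px.ext {f g : G} (e : ∀ v : V, f • v = g • v) : f = g := by
  rw [← inv_mul_eq_one]
  exact h.pk.faith _ fun v => by rw [mul_smul, ← e, inv_smul_smul]

theorem Px.alt : Alt b := ⟨h.pk.b_add_left, h.pk.b_add_right, h.pk.b_self, h.pk.b_nd⟩

/-- the elements of `U` are `±1` -/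
theorem Px.pm [Nontrivial V] {u : G} (hu : u ∈ U) : u = 1 ∨ ∀ v : V, u • v = -v := by
  obtain ⟨c, hc⟩ := h.pk.Usc u hu
  obtain ⟨v, hv⟩ := exists_ne (0 : V)
  have h1 : c * c = 1 := smul_left_injective K hv (by
    change (c * c) • v = (1 : K) • v
    rw [mul_smul, ← hc, ← hc, ← mul_smul, ← sq, h.sqU u hu, one_smul, one_smul])
  rcases mul_self_eq_one_iff.1 h1 with rfl | rfl
  · exact Or.inl (h.pk.faith _ fun v => by rw [hc, one_smul])
  · exact Or.inr fun v => by rw [hc, neg_smul, one_smul]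

theorem Px.neg_mem {z : G} (hz : ∀ v : V, z • v = -v) : z ∈ U :=
  h.pk.scal z ⟨-1, fun v => by rw [hz, neg_smul, one_smul]⟩

theorem Px.comm [Nontrivial V] {u : G} (hu : u ∈ U) (g : G) : Commute g u := by
  rcases h.pm hu with rfl | hz
  · exact Commute.one_right g
  · exact h.ext fun v => by rw [mul_smul, mul_smul, hz, hz, smul_neg]

theorem Px.σ_eq [Nontrivial V] (g : G) : σ g = 1 := h.pk.σU g fun _ hu => (h.comm hu g).eq

theorem Px.lin [Nontrivial V] (g : G) (c : K) (v : V) : g • c • v = c • g • v := by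
  rw [h.pk.semi, h.σ_eq]; rfl

/-- the linear representation -/
def Px.ρ [Nontrivial V] : G →* Module.End K V where
  toFun g :=
    { toFun := fun v => g • v
      map_add' := smul_add g
      map_smul' := h.lin g }
  map_one' := LinearMap.ext (one_smul G)
  map_mul' a c := LinearMap.ext (mul_smul a c)

theorem Px.ρ_apply [Nontrivial V] (g : G) (v : V) : h.ρ g v = g • v := rfl

theorem Px.b_inv [Nontrivial V] (g : G) (x y : W) : b (g • x) (g • y) = b x y :=
  Units.ext (by rw [h.pk.b_smul, h.σ_eq]; rfl)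

theorem Px.mem_M [Nontrivial V] {g : G} (hg : ∀ w : W, g • w = w) : g ∈ M :=
  h.pk.kerW g (h.σ_eq g) hg

theorem Px.conj_mem (g : G) {t : G} (ht : t ∈ M) : g * t * g⁻¹ ∈ M := h.pk.Mn.conj_mem t ht g

theorem Px.comm_mem {s t : G} (hs : s ∈ M) (ht : t ∈ M) : ⁅s, t⁆ ∈ U :=
  h.pk.scal _ ⟨_, h.pk.hb s hs t ht⟩

theorem Px.swap [Nontrivial V] {s t : G} (hs : s ∈ M) (ht : t ∈ M) (v : V) :
    s • t • v = (b (π s) (π t) : K) • t • s • v := by
  rw [← h.pk.hb s hs t ht, commutatorElement_def, mul_smul, mul_smul, mul_smul, inv_smul_smul,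
    inv_smul_smul]

theorem Px.b_pm [Nontrivial V] (x y : W) : b x y = 1 ∨ b x y = -1 := by
  obtain ⟨s, hs, rfl⟩ := h.pk.sec.surj x
  obtain ⟨t, ht, rfl⟩ := h.pk.sec.surj y
  rcases h.pm (h.comm_mem hs ht) with h1 | h1
  · exact Or.inl (unit_ext (V := V) fun v => by
      rw [← h.pk.hb s hs t ht, h1, one_smul, Units.val_one, one_smul])
  · exact Or.inr (unit_ext (V := V) fun v => by
      rw [← h.pk.hb s hs t ht, h1, Units.val_neg, Units.val_one, neg_smul, one_smul])

theorem Px.commute_iff [Nontrivial V] {s t : G} (hs : s ∈ M) (ht : t ∈ M) :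
    Commute s t ↔ b (π s) (π t) = 1 := by
  rw [← commutatorElement_eq_one_iff_commute]
  exact ⟨fun e => unit_ext (V := V) fun v => by
      rw [← h.pk.hb s hs t ht, e, one_smul, Units.val_one, one_smul],
    fun e => h.pk.faith _ fun v => by rw [h.pk.hb s hs t ht, e, Units.val_one, one_smul]⟩

theorem Px.anti [Nontrivial V] {s t : G} (hs : s ∈ M) (ht : t ∈ M) (e : b (π s) (π t) ≠ 1)
    (v : V) : s • t • v = -(t • s • v) := by
  rw [h.swap hs ht, (h.b_pm _ _).resolve_left e, Units.val_neg, Units.val_one, neg_smul, one_smul]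

theorem Px.add_self [Nontrivial V] (w : W) : w + w = 0 :=
  h.pk.b_nd _ fun y => by
    rw [h.pk.b_add_left]
    rcases h.b_pm w y with e | e <;> simp [e]

theorem Px.two_W [Nontrivial V] (w : W) : 2 • w = 0 := by rw [two_nsmul, h.add_self]

theorem Px.neg_eq [Nontrivial V] (w : W) : -w = w := neg_eq_of_add_eq_zero_left (h.add_self w)

theorem Px.sq_mem [Nontrivial V] {t : G} (ht : t ∈ M) : t ^ 2 ∈ U :=
  (h.pk.sec.ker _ (M.pow_mem ht 2)).1 (by rw [h.pk.sec.pow ht, h.two_W])

/-- elements of `M` with the same image differ by a sign -/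
theorem Px.eq_or_neg [Nontrivial V] {s t : G} (hs : s ∈ M) (ht : t ∈ M) (e : π s = π t) :
    s = t ∨ ∀ v : V, s • v = -(t • v) := by
  rcases h.pm ((h.pk.sec.eq_iff ht hs).1 e.symm) with h1 | h1
  · exact Or.inl (inv_mul_eq_one.1 h1).symm
  · refine Or.inr fun v => ?_
    rw [← smul_neg, ← h1, mul_smul, smul_inv_smul]

theorem Px.two_ne [Nontrivial V] : (2 : K) ≠ 0 := fun e => by
  obtain ⟨v, hv⟩ := exists_ne (0 : V)
  refine hv (h.mod.nsmul_eq_zero (h.mod.not_dvd two_pos (by norm_num)) ?_)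
  rw [← Nat.cast_smul_eq_nsmul K, Nat.cast_ofNat, e, zero_smul]

theorem Px.card_U [Finite G] [Nontrivial V] : Nat.card U ∣ 2 := by
  have := h.pk.cyc
  rw [← IsCyclic.exponent_eq_card]
  exact Monoid.exponent_dvd_of_forall_pow_eq_one fun u => Subtype.ext (h.sqU u u.2)

theorem Px.e_pow [Finite G] [Nontrivial V] : ∃ k : ℕ, e = 2 ^ k :=
  ⟨_, Nat.eq_prime_pow_of_unique_prime_dvd h.pk.pos.ne' fun hr hd =>
    (Nat.prime_dvd_prime_iff_eq hr Nat.prime_two).1 ((h.pk.dvd _ hr hd).trans h.card_U)⟩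

theorem Px.card_U_eq [Finite G] [Nontrivial V] (he : e ≠ 1) : Nat.card U = 2 := by
  obtain ⟨r, hr, hd⟩ := Nat.exists_prime_and_dvd he
  have h1 := h.pk.dvd r hr hd
  rcases (Nat.dvd_prime Nat.prime_two).1 h.card_U with h2 | h2
  · rw [h2] at h1
    exact absurd (Nat.dvd_one.1 h1) hr.ne_one
  · exact h2

theorem Px.card_G [Finite G] [Nontrivial V] :
    Nat.card G = Nat.card U * e ^ 2 * Nat.card (img G W) := by
  have h1 : (toPermHom G W).ker = M := by
    ext g
    rw [MonoidHom.mem_ker, Equiv.ext_iff]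
    have := h.pk.Mn
    exact ⟨fun hg => h.mem_M hg, fun hg w => h.pk.sec.smul_of_mem hg w⟩
  rw [← (toPermHom G W).ker.card_mul_index, Subgroup.index_ker, h1, h.pk.card_M]

theorem Px.card_img [Finite G] : Nat.card (img G V) = Nat.card G :=
  (Nat.card_congr (MonoidHom.ofInjective (f := toPermHom G V) ((injective_iff_map_eq_one _).2
    fun g hg => h.pk.faith g (Equiv.ext_iff.1 hg))).toEquiv).symm

theorem Px.card_V [Finite V] : Nat.card V = Nat.card K ^ Module.finrank K V :=
  have : Module.Finite K V := Module.Finite.of_finite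
  Module.natCard_eq_pow_finrank

theorem Px.card_K [Finite K] [Nontrivial V] : ∃ f, 0 < f ∧ Nat.card K = p ^ f := by
  obtain ⟨f, h1, -, h2⟩ := char_field (G := G) h.mod.prime h.mod.pV σ
  exact ⟨f, h2, h1⟩

theorem Px.sm [Finite G] : Sm G W := by
  obtain ⟨a, ha⟩ := h.mod.sm
  exact ⟨a, fun g w => by rw [h.pk.faith _ (ha g), one_smul]⟩

theorem Px.exists_anti [Nontrivial V] (he : e ≠ 1) :
    ∃ s ∈ M, ∃ t ∈ M, b (π s) (π t) ≠ 1 := by
  by_contra hc
  push Not at hc
  have : Subsingleton W := subsingleton_of_forall_eq 0 fun x => h.pk.b_nd x fun y => by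
    obtain ⟨s, hs, rfl⟩ := h.pk.sec.surj x
    obtain ⟨t, ht, rfl⟩ := h.pk.sec.surj y
    exact hc s hs t ht
  have h1 := h.pk.card
  rw [Nat.card_of_subsingleton (0 : W), eq_comm] at h1
  exact he ((Nat.pow_eq_one.1 h1).resolve_right two_ne_zero)

theorem Px.exists_z [Nontrivial V] (he : e ≠ 1) : ∃ z ∈ U, ∀ v : V, z • v = -v := by
  obtain ⟨s, hs, t, ht, hb⟩ := h.exists_anti he
  exact ⟨_, h.comm_mem hs ht, fun v => by
    rw [h.pk.hb s hs t ht, (h.b_pm _ _).resolve_left hb, Units.val_neg, Units.val_one, neg_smul,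
      one_smul]⟩

theorem Px.even [Finite V] [Nontrivial V] (he : e ≠ 1) : Even (Module.finrank K V) := by
  obtain ⟨s, hs, t, ht, hb⟩ := h.exists_anti he
  have h1 := h.pk.pow_finrank (h.σ_eq t) (h.σ_eq s) (h.comm_mem hs ht)
    (by rw [commutatorElement_def, inv_mul_cancel_right])
  by_contra hodd
  obtain ⟨k, hk⟩ := Nat.not_even_iff_odd.1 hodd
  rw [hk, pow_succ, pow_mul, h.sqU _ (h.comm_mem hs ht), one_pow, one_mul,
    commutatorElement_eq_one_iff_commute, h.commute_iff hs ht] at h1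
  exact hb h1

/-- no non-zero vector of `W` is fixed by `G` -/
theorem Px.nofix [Nontrivial V] {w : W} (hw : ∀ g : G, g • w = w) : w = 0 := by
  have := h.pk.Mn
  have hA : Inv G (AddSubgroup.zmultiples w) := by
    rintro g _ ⟨k, rfl⟩
    exact ⟨k, by simp only [smul_comm g k w, hw]⟩
  obtain ⟨t, ht, rfl⟩ := h.pk.sec.surj w
  refine (h.pk.sec.ker t ht).2 (h.pk.maxU _ (h.pk.sec.pre_normal hA) (fun u hu => ?_) ?_
    (h.pk.sec.mem_pre.2 ⟨ht, AddSubgroup.mem_zmultiples _⟩))
  · refine h.pk.sec.mem_pre.2 ⟨h.pk.U_le hu, ?_⟩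
    rw [(h.pk.sec.ker u (h.pk.U_le hu)).2 hu]
    exact zero_mem _
  · intro a ha c hc
    obtain ⟨ha, k, hk⟩ := h.pk.sec.mem_pre.1 ha
    obtain ⟨hc, l, hl⟩ := h.pk.sec.mem_pre.1 hc
    refine ((h.commute_iff ha hc).2 ?_).eq
    rw [← hk, ← hl]
    simp only [h.alt.zsmul_left, h.alt.zsmul_right, h.pk.b_self, one_zpow]

/-- representatives of the elements of `W` are linearly independent operators -/
theorem Px.ind [Nontrivial V] {ι : Type*} (t : ι → G) (ht : ∀ i, t i ∈ M)
    (hi : Function.Injective fun i => π (t i)) : LinearIndependent K fun i => h.ρ (t i) := by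
  classical
  rw [linearIndependent_iff']
  intro s
  induction s using Finset.induction_on with
  | empty => simp
  | insert a s ha ih =>
    intro c hc
    have h1 : ∀ j ∈ s, c j = 0 := by
      intro j hj
      have hne : π (t j) - π (t a) ≠ 0 := sub_ne_zero.2 fun e => ha (hi e ▸ hj)
      obtain ⟨y, hy⟩ := h.alt.exists_ne hne
      obtain ⟨r, hr, rfl⟩ := h.pk.sec.surj y
      have h2 : ∑ i ∈ s, (c i * ((b (π r) (π (t i)) : K) - b (π r) (π (t a)))) • h.ρ (t i) = 0 := by
        have h3 : ∑ i ∈ insert a s, (c i * (b (π r) (π (t i)) : K)) • h.ρ (t i) = 0 := by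
          have h4 : ∀ i, (c i * (b (π r) (π (t i)) : K)) • h.ρ (t i) =
              h.ρ r * (c i • h.ρ (t i)) * h.ρ r⁻¹ := fun i => LinearMap.ext fun v => by
            change (c i * _) • t i • v = r • c i • t i • r⁻¹ • v
            rw [h.lin, h.swap hr (ht i), smul_inv_smul, mul_smul]
          simp only [h4]
          rw [← Finset.sum_mul, ← Finset.mul_sum, hc, mul_zero, zero_mul]
        have h5 := congrArg ((b (π r) (π (t a)) : K) • ·) hc
        simp only [Finset.smul_sum, smul_smul, smul_zero] at h5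
        have h6 := congrArg₂ (· - ·) h3 h5
        simp only [← Finset.sum_sub_distrib, ← sub_smul, sub_zero] at h6
        rw [Finset.sum_insert ha, mul_comm, sub_self, zero_smul, zero_add] at h6
        rw [← h6]
        exact Finset.sum_congr rfl fun i _ => by rw [mul_sub, mul_comm (c i) (b _ (π (t a)) : K)]
      refine (mul_eq_zero.1 (ih _ h2 j hj)).resolve_right (sub_ne_zero.2 fun e => hy ?_)
      rw [h.alt.swap, h.alt.sub_right, Units.ext e, div_self', inv_one]
    intro i hi'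
    rcases Finset.mem_insert.1 hi' with rfl | hi'
    · rw [Finset.sum_insert ha, Finset.sum_eq_zero fun j hj => by rw [h1 j hj, zero_smul],
        add_zero] at hc
      obtain ⟨v, hv⟩ := exists_ne (0 : V)
      have h7 : c i • t i • v = 0 := LinearMap.congr_fun hc v
      exact (smul_eq_zero.1 h7).resolve_right (by rwa [smul_eq_zero_iff_eq])
    · exact h1 i hi'

/-- when `K` is the prime field its elements are natural numbers -/
theorem Px.exists_nat [Finite K] [Nontrivial V] (hK : Nat.card K = p) (c : K) :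
    ∃ k : ℕ, c = k := by
  have := Fact.mk h.mod.prime
  have := Fintype.ofFinite K
  obtain ⟨x, hx⟩ := (ZMod.ringEquivOfPrime K h.mod.prime
    (by rw [← Nat.card_eq_fintype_card, hK])).surjective c
  exact ⟨x.val, by rw [← hx, ← map_natCast (ZMod.ringEquivOfPrime K h.mod.prime _),
    ZMod.natCast_zmod_val]⟩

end Px

end Cfsg.Agent.H53.AH
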