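import Cfsg.Agent.H53.DgKit

/-! Project DG: the arithmetic of the case table. -/

set_option autoImplicit false

namespace Cfsg.Agent.H53.Dg

/-- `r` divides the part of the group order prime to `q`. -/
def Np (q w e r : ℕ) : Prop :=
  (∃ i, 1 ≤ i ∧ i ≤ w ∧ r ∣ q ^ i - 1) ∨ ∃ j, 1 ≤ j ∧ j < w + e ∧ r ∣ q ^ j + 1

/-- `r` divides the degree of the character induced from a cuspidal character of `GL_k`. -/
def Cov (q w e k r : ℕ) : Prop :=
  (∃ i, w - k < i ∧ i ≤ w ∧ i ≠ k ∧ r ∣ q ^ i - 1) ∨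
    ∃ j, w - k + e ≤ j ∧ j < w + e ∧ r ∣ q ^ j + 1

variable {q w e k r : ℕ}

theorem m_mul {i : ℕ} (h : r ∣ q ^ i - 1) (t : ℕ) : r ∣ q ^ (i * t) - 1 := by
  rw [pow_mul]
  exact h.trans (Nat.sub_one_dvd_pow_sub_one _ _)

theorem m_one (h : r ∣ q ^ 1 - 1) (t : ℕ) : r ∣ q ^ t - 1 := by simpa using m_mul h t

theorem sq_split (x : ℕ) : x ^ 2 - 1 = (x - 1) * (x + 1) := by
  have := Nat.sq_sub_sq x 1
  rw [one_pow] at this
  rw [this, mul_comm]

theorem m_two (hr : r.Prime) {t : ℕ} (h : r ∣ q ^ (2 * t) - 1) : r ∣ q ^ t - 1 ∨ r ∣ q ^ t + 1 := by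
  rw [mul_comm, pow_mul, sq_split] at h
  exact (Nat.Prime.dvd_mul hr).1 h

theorem p_three {j : ℕ} (h : r ∣ q ^ j + 1) : r ∣ q ^ (3 * j) + 1 := by
  have := Odd.nat_add_dvd_pow_add_pow (q ^ j) 1 (n := 3) (by decide)
  rw [one_pow, ← pow_mul, mul_comm] at this
  exact h.trans this

theorem p_two {j : ℕ} (h : r ∣ q ^ j + 1) : r ∣ q ^ (2 * j) - 1 := by
  rw [mul_comm, pow_mul, sq_split]
  exact h.mul_left _

theorem Cov.m (i : ℕ) (h : r ∣ q ^ i - 1) (h1 : w - k < i) (h2 : i ≤ w) (h3 : i ≠ k) :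
    Cov q w e k r := Or.inl ⟨i, h1, h2, h3, h⟩

theorem Cov.p (j : ℕ) (h : r ∣ q ^ j + 1) (h1 : w - k + e ≤ j) (h2 : j < w + e) :
    Cov q w e k r := Or.inr ⟨j, h1, h2, h⟩

/-- `k = w`. -/
theorem cov_top (hr : r.Prime) (he : e ≤ 2) (hw : 2 ≤ w) (h3 : e = 2 → 3 ≤ w) (h : Np q w e r) :
    Cov q w e w r ∨ (Odd w ∧ r ∣ q ^ w - 1) := by
  have hp : ∀ j, 1 ≤ j → j < w + e → r ∣ q ^ j + 1 → Cov q w e w r := fun j h1 h2 h => by
    by_cases h4 : e ≤ j
    · exact .p j h (by omega) h2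
    · obtain rfl : j = 1 := by omega
      exact .p 3 (p_three h) (by omega) (by omega)
  rcases h with ⟨i, h1, h2, h⟩ | ⟨j, h1, h2, h⟩
  · by_cases hi : i = w
    · subst hi
      rcases Nat.even_or_odd' i with ⟨t, rfl | rfl⟩
      · rcases m_two hr h with h | h
        · exact Or.inl (.m t h (by omega) (by omega) (by omega))
        · exact Or.inl (hp t (by omega) (by omega) h)
      · exact Or.inr ⟨odd_two_mul_add_one t, h⟩
    · exact Or.inl (.m i h (by omega) h2 hi)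
  · exact Or.inl (hp j h1 h2 h)

/-- `k = w - 1`. -/
theorem cov_one (hr : r.Prime) (he : e ≤ 2) (hw : 3 ≤ w) (h : Np q w e r) :
    Cov q w e (w - 1) r ∨ (Even w ∧ r ∣ q ^ (w - 1) - 1) ∨ (w = 3 ∧ e = 2 ∧ r ∣ q ^ 2 + 1) := by
  have hp : ∀ j, 1 ≤ j → j < w + e → r ∣ q ^ j + 1 →
      Cov q w e (w - 1) r ∨ (w = 3 ∧ e = 2 ∧ r ∣ q ^ 2 + 1) := fun j h1 h2 h => by
    by_cases h4 : 1 + e ≤ j
    · exact Or.inl (.p j h (by omega) h2)
    · obtain rfl | rfl : j = 1 ∨ j = 2 := by omega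
      · exact Or.inl (.p 3 (p_three h) (by omega) (by omega))
      · by_cases h5 : w = 3
        · exact Or.inr ⟨h5, by omega, h⟩
        · by_cases h6 : w = 5
          · exact Or.inl (.p 6 (p_three h) (by omega) (by omega))
          · exact Or.inl (.m 4 (p_two h) (by omega) (by omega) (by omega))
  have hm : ∀ i, 1 ≤ i → i ≤ w → i ≠ w - 1 → r ∣ q ^ i - 1 → Cov q w e (w - 1) r :=
    fun i h1 h2 h3 h => by
      by_cases h4 : i = 1
      · subst h4
        exact .m w (m_one h w) (by omega) le_rfl (by omega)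
      · exact .m i h (by omega) h2 h3
  rcases h with ⟨i, h1, h2, h⟩ | ⟨j, h1, h2, h⟩
  · by_cases hi : i = w - 1
    · subst hi
      rcases Nat.even_or_odd' w with ⟨t, rfl | rfl⟩
      · exact Or.inr (Or.inl ⟨even_two_mul t, h⟩)
      · rw [Nat.add_sub_cancel] at h
        rcases m_two hr h with h | h
        · exact Or.inl (hm t (by omega) (by omega) (by omega) h)
        · exact (hp t (by omega) (by omega) h).imp_right Or.inr
    · exact Or.inl (hm i h1 h2 hi h)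
  · exact (hp j h1 h2 h).imp_right Or.inr

/-- `k = w - 2`, plus type. -/
theorem cov_two (hr : r.Prime) (hw : 5 ≤ w) (h : Np q w 0 r) :
    Cov q w 0 (w - 2) r ∨ (Odd w ∧ r ∣ q ^ (w - 2) - 1) := by
  have hp : ∀ j, 1 ≤ j → j < w + 0 → r ∣ q ^ j + 1 → Cov q w 0 (w - 2) r := fun j h1 h2 h => by
    by_cases h4 : j = 1
    · subst h4
      exact .p 3 (p_three h) (by omega) (by omega)
    · exact .p j h (by omega) h2
  have hm : ∀ i, 1 ≤ i → i ≤ w → i ≠ w - 2 → r ∣ q ^ i - 1 → Cov q w 0 (w - 2) r :=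
    fun i h1 h2 h3 h => by
      by_cases h4 : i = 1
      · subst h4
        exact .m w (m_one h w) (by omega) le_rfl (by omega)
      · by_cases h5 : i = 2
        · subst h5
          rcases m_two (t := 1) hr h with h | h
          · exact .m w (m_one h w) (by omega) le_rfl (by omega)
          · exact hp 1 le_rfl (by omega) h
        · exact .m i h (by omega) h2 h3
  rcases h with ⟨i, h1, h2, h⟩ | ⟨j, h1, h2, h⟩
  · by_cases hi : i = w - 2
    · subst hi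
      rcases Nat.even_or_odd' w with ⟨t, rfl | rfl⟩
      · rw [show 2 * t - 2 = 2 * (t - 1) by omega] at h
        rcases m_two hr h with h | h
        · exact Or.inl (hm _ (by omega) (by omega) (by omega) h)
        · exact Or.inl (hp _ (by omega) (by omega) h)
      · exact Or.inr ⟨odd_two_mul_add_one t, h⟩
    · exact Or.inl (hm i h1 h2 hi h)
  · exact Or.inl (hp j h1 h2 h)

/-- The degree without the factor `q ^ k - 1`. -/
theorem deg_eq {d n : ℕ} (hq : 2 ≤ q) (h0 : 0 < k) (h1 : k ≤ w) (h2 : w < 2 * k)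
    (h : d * (q ^ k - 1) = n * Nk q w e k) :
    d = n * ((q ^ (k + e - 1) + 1) * ∏ i ∈ (Finset.range k).erase (w - k), ns q (w - i) e) := by
  have h3 : w - k ∈ Finset.range k := Finset.mem_range.2 (by omega)
  have h4 : 0 < q ^ k - 1 := Nat.sub_pos_of_lt (Nat.one_lt_pow h0.ne' hq)
  rw [Nk, ← Finset.mul_prod_erase _ _ h3, show w - (w - k) = k by omega, ns] at h
  refine Nat.eq_of_mul_eq_mul_right h4 ?_
  rw [h]; ring

theorem Cov.dvd {d n : ℕ} (hq : 2 ≤ q) (h0 : 0 < k) (h1 : k ≤ w) (h2 : w < 2 * k)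
    (h : d * (q ^ k - 1) = n * Nk q w e k) (hc : Cov q w e k r) : r ∣ d := by
  rw [deg_eq hq h0 h1 h2 h]
  have key : ∀ i, w - k < i → i ≤ w → i ≠ k →
      ns q i e ∣ ∏ i ∈ (Finset.range k).erase (w - k), ns q (w - i) e := fun i h3 h4 h5 => by
    have := Finset.dvd_prod_of_mem (fun i => ns q (w - i) e) (a := w - i)
      (s := (Finset.range k).erase (w - k))
      (Finset.mem_erase.2 ⟨by omega, Finset.mem_range.2 (by omega)⟩)
    rwa [show w - (w - i) = i by omega] at this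
  rcases hc with ⟨i, h3, h4, h5, h6⟩ | ⟨j, h3, h4, h6⟩
  · exact (((h6.mul_right _).trans (key i h3 h4 h5)).mul_left _).mul_left _
  · by_cases h5 : j + 1 - e = k
    · rw [show k + e - 1 = j by omega]
      exact (h6.mul_right _).mul_left _
    · refine (((?_ : r ∣ ns q (j + 1 - e) e).trans
        (key _ (by omega) (by omega) h5)).mul_left _).mul_left _
      rw [ns, show j + 1 - e + e - 1 = j by omega]
      exact h6.mul_left _

theorem dvd_deg {d n : ℕ} (hq : 2 ≤ q) (h0 : 0 < k) (h1 : k ≤ w) (h2 : w < 2 * k)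
    (h : d * (q ^ k - 1) = n * Nk q w e k) : n ∣ d := by
  rw [deg_eq hq h0 h1 h2 h]; exact dvd_mul_right _ _

theorem two_dvd_p (hq : Odd q) (j : ℕ) : 2 ∣ q ^ j + 1 := (hq.pow.add_one).two_dvd

theorem two_dvd_m (hq : Odd q) (j : ℕ) : 2 ∣ q ^ j - 1 :=
  (Nat.Odd.sub_odd hq.pow odd_one).two_dvd

theorem eight_dvd_deg {d n : ℕ} (hq : 2 ≤ q) (ho : Odd q) (h0 : 2 ≤ k) (h1 : k ≤ w)
    (h2 : w < 2 * k) (h : d * (q ^ k - 1) = n * Nk q w e k) : 8 ∣ d := by
  rw [deg_eq hq (by omega) h1 h2 h]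
  obtain ⟨i, hi⟩ : ∃ i, i ∈ (Finset.range k).erase (w - k) := by
    by_cases h3 : w - k = 0
    · exact ⟨1, Finset.mem_erase.2 ⟨by omega, Finset.mem_range.2 (by omega)⟩⟩
    · exact ⟨0, Finset.mem_erase.2 ⟨by omega, Finset.mem_range.2 (by omega)⟩⟩
  exact (mul_dvd_mul (two_dvd_p ho _) ((mul_dvd_mul (two_dvd_m ho _) (two_dvd_p ho _)).trans
    (Finset.dvd_prod_of_mem (fun i => ns q (w - i) e) hi))).mul_left _

/-- Descent of the divisibility. -/
theorem pair_dvd {c d m r s : ℕ} (hc : c ∣ 4) (hr : r.Prime) (hs : s.Prime) (hrs : r ≠ s)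
    (h : d ∣ c * m) (h1 : r ∣ d) (h2 : s ∣ d) (h3 : r = 2 ∨ s = 2 → 2 * c ∣ d) : r * s ∣ m := by
  have hc0 : 0 < c := Nat.pos_of_dvd_of_pos hc (by norm_num)
  have key : ∀ t, t.Prime → t ∣ d → (t = 2 → 2 * c ∣ d) → t ∣ m := fun t ht h4 h5 => by
    by_cases h6 : t = 2
    · subst h6
      have := (h5 rfl).trans h
      rwa [mul_comm 2, Nat.mul_dvd_mul_iff_left hc0] at this
    · refine ((Nat.Prime.dvd_mul ht).1 (h4.trans h)).resolve_left fun h7 => h6 ?_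
      have h8 : t ∣ 2 ^ 2 := h7.trans hc
      exact (Nat.prime_dvd_prime_iff_eq ht Nat.prime_two).1 (ht.dvd_of_dvd_pow h8)
  exact ((Nat.coprime_primes hr hs).2 hrs).mul_dvd_of_dvd_of_dvd
    (key r hr h1 fun e => h3 (Or.inl e)) (key s hs h2 fun e => h3 (Or.inr e))

theorem cc_dvd (sp : Bool) (q : ℕ) : cc sp q ∣ 4 := by
  unfold cc
  split_ifs <;> norm_num

/-! ### The rank three degrees -/

theorem cast_m (hq : 1 ≤ q) (i : ℕ) : ((q ^ i - 1 : ℕ) : ℤ) = (q : ℤ) ^ i - 1 := by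
  rw [Nat.cast_sub (Nat.one_le_pow _ _ hq)]; simp

theorem FG.int {f g : ℕ} (hq : 2 ≤ q) (h : FG q w e f g) :
    (f : ℤ) * ((q - 1) * (q ^ e + q)) = q ^ (e + 1) * (q ^ w - 1) * (q ^ (w + e - 2) + 1) ∧
    (g : ℤ) * ((q - 1) * (q ^ e + q)) = q ^ 2 * (q ^ (w - 1) - 1) * (q ^ (w + e - 1) + 1) := by
  have h1 := congrArg (Nat.cast : ℕ → ℤ) h.1
  have h2 := congrArg (Nat.cast : ℕ → ℤ) h.2
  have h3 : ((q - 1 : ℕ) : ℤ) = q - 1 := by simpa using cast_m (q := q) (by omega) 1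
  simp only [Nat.cast_mul, Nat.cast_add, Nat.cast_pow, cast_m (q := q) (by omega), h3,
    Nat.cast_one] at h1 h2
  exact ⟨h1, h2⟩

theorem canc {a x y : ℤ} (ha : 0 < a) (h : a * x = a * y) : x = y := mul_left_cancel₀ ha.ne' h

variable {f g : ℕ}

theorem fg21 (hq : 2 ≤ q) (h : FG q 2 1 f g) :
    2 * f = q * (q + 1) ^ 2 ∧ 2 * g = q * (q ^ 2 + 1) := by
  obtain ⟨h1, h2⟩ := h.int hq
  have h3 : (2 : ℤ) ≤ q := by exact_mod_cast hq
  have h4 : (0 : ℤ) < (q - 1) * q := by nlinarith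
  norm_num at h1 h2
  constructor <;> zify
  · exact canc h4 (by linear_combination h1)
  · exact canc h4 (by linear_combination h2)

theorem fg41 (hq : 2 ≤ q) (h : FG q 4 1 f g) : 2 * g = q * (q ^ 2 + q + 1) * (q ^ 4 + 1) := by
  obtain ⟨-, h2⟩ := h.int hq
  have h3 : (2 : ℤ) ≤ q := by exact_mod_cast hq
  have h4 : (0 : ℤ) < (q - 1) * q := by nlinarith
  norm_num at h2
  zify
  exact canc h4 (by linear_combination h2)

theorem fg20 (hq : 2 ≤ q) (h : FG q 2 0 f g) : g = q ^ 2 := by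
  obtain ⟨-, h2⟩ := h.int hq
  have h3 : (2 : ℤ) ≤ q := by exact_mod_cast hq
  have h4 : (0 : ℤ) < (q - 1) * (q + 1) := by nlinarith
  norm_num at h2
  zify
  exact canc h4 (by linear_combination h2)

theorem fg30 (hq : 2 ≤ q) (h : FG q 3 0 f g) : f = q * (q ^ 2 + q + 1) := by
  obtain ⟨h1, -⟩ := h.int hq
  have h3 : (2 : ℤ) ≤ q := by exact_mod_cast hq
  have h4 : (0 : ℤ) < (q - 1) * (q + 1) := by nlinarith
  norm_num at h1
  zify
  exact canc h4 (by linear_combination h1)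

theorem fg22 (hq : 2 ≤ q) (h : FG q 2 2 f g) : f = q ^ 2 * (q ^ 2 + 1) := by
  obtain ⟨h1, -⟩ := h.int hq
  have h3 : (2 : ℤ) ≤ q := by exact_mod_cast hq
  have h4 : (0 : ℤ) < (q - 1) * (q ^ 2 + q) := by nlinarith
  norm_num at h1
  zify
  exact canc h4 (by linear_combination h1)

theorem fg42 (hq : 2 ≤ q) (h : FG q 4 2 f g) : q * (q ^ 2 + q + 1) ∣ g := by
  obtain ⟨-, h2⟩ := h.int hq
  have h3 : (2 : ℤ) ≤ q := by exact_mod_cast hq
  have h4 : (0 : ℤ) < (q - 1) * (q ^ 2 + q) := by nlinarith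
  norm_num at h2
  have h5 : (g : ℤ) = q * (q ^ 2 + q + 1) * (q ^ 4 - q ^ 3 + q ^ 2 - q + 1) :=
    canc h4 (by linear_combination h2)
  have h6 : (q : ℤ) * (q ^ 2 + q + 1) ∣ (g : ℤ) := ⟨_, h5⟩
  exact_mod_cast h6

theorem cube_split (hr : r.Prime) (hq : 1 ≤ q) (h : r ∣ q ^ 3 - 1) :
    r ∣ q ^ 1 - 1 ∨ r ∣ q ^ 2 + q + 1 := by
  refine (Nat.Prime.dvd_mul hr).1 (by
    convert h using 1
    zify [cast_m hq]
    ring)

theorem odd_cyc (q : ℕ) : Odd (q ^ 2 + q + 1) := by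
  rw [pow_two, ← Nat.mul_succ]
  exact (Nat.even_mul_succ_self q).add_one

end Cfsg.Agent.H53.Dg
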