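import Cfsg.Agent.H53.DgAr
import Cfsg.Agent.H12.Central
import Cfsg.Agent.S0245
import Cfsg.Agent.S0292
import Cfsg.Agent.S0293
import Cfsg.Agent.S0294
import Cfsg.Agent.S0301
import Cfsg.Prelude.Def_DegreeGraph

/-! Project DG: the case table. -/

set_option autoImplicit false

namespace Cfsg.Agent.H53.Dg

open Module Cfsg.Agent.H26

/-- The pieces used in the case table. -/
structure Hy : Prop where
  cu : CuStmt
  a : AStmt
  ap : ApStmt
  re : ReStmt
  st : StStmt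
  desc : DescStmt
  zen : ZenStmt
  sp4 : Sp4Stmt
  sp82 : Sp82Stmt
  o10 : O10Stmt
  o5 : O5Stmt
  sp62 : Sp62Stmt
  m2a : M2aStmt
  m2b : M2bStmt
  m3 : M3Stmt

section Cusp

variable {F : Type} [Field F] [Finite F]

theorem two_le_card (F : Type) [Field F] [Finite F] : 2 ≤ Nat.card F := Finite.one_lt_card

theorem not_dvd_of_lt {q k u : ℕ} (hq : 2 ≤ q) (hu : 0 < u) (h : u * (q ^ (k - 1) + 1) < q ^ k - 1) :
    (∀ i, 0 < i → i < k → ¬ q ^ k - 1 ∣ u * (q ^ i - 1)) ∧ ∀ i < k, ¬ q ^ k - 1 ∣ u * (q ^ i + 1) := by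
  have key : ∀ i < k, q ^ i ≤ q ^ (k - 1) := fun i hi => Nat.pow_le_pow_right (by omega) (by omega)
  refine ⟨fun i h0 hi => Nat.not_dvd_of_pos_of_lt (Nat.mul_pos hu ?_) (lt_of_le_of_lt ?_ h),
    fun i hi => Nat.not_dvd_of_pos_of_lt (Nat.mul_pos hu (Nat.succ_pos _)) (lt_of_le_of_lt ?_ h)⟩
  · exact Nat.sub_pos_of_lt (Nat.one_lt_pow h0.ne' hq)
  · exact Nat.mul_le_mul_left _ (by have := key i hi; omega)
  · exact Nat.mul_le_mul_left _ (by have := key i hi; omega)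

theorem Hy.cusp_lt (H : Hy) {k u : ℕ} (hk : 0 < k) (hu : 0 < u)
    (h : u * (Nat.card F ^ (k - 1) + 1) < Nat.card F ^ k - 1) :
    Cusp F k false (if Odd (Nat.card F) then (-1) ^ u else 1) :=
  (H.cu F k u hk hu (not_dvd_of_lt (two_le_card F) hu h).1).1 (not_dvd_of_lt (two_le_card F) hu h).2

theorem Hy.cusp1 (H : Hy) {k : ℕ} (h : 3 ≤ k ∨ (k = 2 ∧ 4 ≤ Nat.card F)) : Cusp F k false 1 := by
  have hq := two_le_card F
  obtain ⟨j, rfl⟩ : ∃ j, k = j + 1 := ⟨k - 1, by omega⟩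
  have h1 : 3 ≤ j + 1 → Nat.card F ^ 2 ≤ Nat.card F ^ j := fun h =>
    Nat.pow_le_pow_right (by omega) (by omega)
  by_cases ho : Odd (Nat.card F)
  · have h3 : 3 ≤ Nat.card F := by obtain ⟨t, ht⟩ := ho; omega
    have := H.cusp_lt (F := F) (k := j + 1) (u := 2) (by omega) (by omega) (by
      rw [Nat.add_sub_cancel, pow_succ]
      refine Nat.lt_sub_of_add_lt ?_
      rcases h with h | ⟨h, h'⟩
      · have := h1 h
        nlinarith
      · obtain rfl : j = 1 := by omega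
        rw [pow_one]
        nlinarith)
    simpa [ho] using this
  · have := H.cusp_lt (F := F) (k := j + 1) (u := 1) (by omega) (by omega) (by
      rw [Nat.add_sub_cancel, pow_succ]
      refine Nat.lt_sub_of_add_lt ?_
      rcases h with h | ⟨h, h'⟩
      · have := h1 h
        nlinarith
      · obtain rfl : j = 1 := by omega
        rw [pow_one]
        nlinarith)
    simpa [ho] using this

theorem Hy.cusp3 (H : Hy) (h : Nat.card F = 3) : Cusp F 2 false (-1) := by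
  have := H.cusp_lt (F := F) (k := 2) (u := 1) (by omega) (by omega) (by rw [h]; norm_num)
  rw [h, if_pos (by decide)] at this
  simpa using this

theorem Hy.cusp4 (H : Hy) (h : 4 ≤ Nat.card F) :
    Cusp F 1 false (if Odd (Nat.card F) then -1 else 1) := by
  have := H.cusp_lt (F := F) (k := 1) (u := 1) (by omega) (by omega) (by simp; omega)
  simpa using this

theorem Hy.cusp5 (H : Hy) : Cusp F 2 true 1 := by
  have hq := two_le_card F
  have := (H.cu F 2 (Nat.card F - 1) (by omega) (by omega) fun i h0 hi => ?_).2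
    ⟨1, by omega, by rw [sq_split, pow_one]⟩
  · by_cases ho : Odd (Nat.card F)
    · rwa [if_pos ho, (Nat.Odd.sub_odd ho odd_one).neg_one_pow] at this
    · rwa [if_neg ho] at this
  · obtain rfl : i = 1 := by omega
    rw [sq_split, pow_one, Nat.mul_dvd_mul_iff_left (by omega)]
    exact Nat.not_dvd_of_pos_of_lt (by omega) (by omega)

theorem Hy.cusp6 (H : Hy) (h : Nat.card F = 2) : Cusp F 4 true 1 := by
  have := (H.cu F 4 3 (by omega) (by omega) fun i h0 hi => ?_).2 ⟨2, by omega, by rw [h]; norm_num⟩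
  · rwa [h, if_neg (by decide)] at this
  · rw [h]
    interval_cases i <;> norm_num

theorem eq_of_dvd_card {r s : ℕ} (hr : r.Prime) (hs : s.Prime) (h : r ∣ Nat.card F)
    (h' : s ∣ Nat.card F) : r = s ∧ CharP F r := by
  have := Fintype.ofFinite F
  obtain ⟨p, hp, n, hpp, hn⟩ := FiniteField.card' F
  rw [Nat.card_eq_fintype_card, hn] at h h'
  obtain rfl := (Nat.prime_dvd_prime_iff_eq hr hpp).1 (hr.dvd_of_dvd_pow h)
  exact ⟨((Nat.prime_dvd_prime_iff_eq hs hpp).1 (hs.dvd_of_dvd_pow h')).symm, hp⟩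

theorem four_dvd_card (h : 2 ∣ Nat.card F) (h' : Nat.card F ≠ 2) : 4 ∣ Nat.card F := by
  have := Fintype.ofFinite F
  have h2 := (eq_of_dvd_card Nat.prime_two Nat.prime_two h h).2
  obtain ⟨n, -, hn⟩ := FiniteField.card F 2
  rw [Nat.card_eq_fintype_card, hn] at h' ⊢
  refine pow_dvd_pow 2 (m := 2) ?_
  have h3 : (n : ℕ) ≠ 1 := fun e => h' (by rw [e, pow_one])
  have := n.pos
  omega

end Cusp

variable {F V : Type} [Field F] [Finite F] [AddCommGroup V] [Module F V] [Finite V]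
  {P : PForm F V} {sp : Bool} {w e : ℕ}

theorem Dv.of_dvd {a b : ℕ} (h : Dv P b) (hab : a ∣ b) : Dv P a :=
  h.imp fun _ hn => ⟨hab.trans hn.1, hn.2⟩

theorem Dv.swap {a b : ℕ} (h : Dv P (a * b)) : Dv P (b * a) := mul_comm a b ▸ h

theorem DgE.dv {n r s : ℕ} (h : DgE P n) (hr : r.Prime) (hs : s.Prime) (hrs : r ≠ s) (h1 : r ∣ n)
    (h2 : s ∣ n) : Dv P (r * s) :=
  ⟨n, ((Nat.coprime_primes hr hs).2 hrs).mul_dvd_of_dvd_of_dvd h1 h2, h⟩

theorem Dv.dv {n r s : ℕ} (h : Dv P n) (hr : r.Prime) (hs : s.Prime) (hrs : r ≠ s) (h1 : r ∣ n)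
    (h2 : s ∣ n) : Dv P (r * s) :=
  h.of_dvd (((Nat.coprime_primes hr hs).2 hrs).mul_dvd_of_dvd_of_dvd h1 h2)

/-- The space is large enough for the descent. -/
def Big (sp : Bool) (w e : ℕ) : Prop := 1 ≤ w ∧ (sp = true ∨ 5 ≤ 2 * w + e)

theorem Hy.fin (H : Hy) (T : Ty P sp w e) (hb : Big sp w e) {d r s : ℕ} {t : ℂ} (h : Dg P d t)
    (ht : t = 1 ∨ LinearEquiv.neg F ∉ P.E) (hr : r.Prime) (hs : s.Prime) (hrs : r ≠ s)
    (h1 : r ∣ d) (h2 : s ∣ d) (h3 : r = 2 ∨ s = 2 → 2 * cc sp (Nat.card F) ∣ d) :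
    Dv P (r * s) := by
  obtain ⟨m, hm, hd⟩ := H.desc F V P sp w e d t T hb.1 (by
    cases sp
    · exact Or.inr ((T.orth rfl).2.2.2 ▸ hb.2.resolve_left (by simp))
    · exact Or.inl rfl) h ht
  exact ⟨m, pair_dvd (cc_dvd _ _) hr hs hrs hd h1 h2 h3, hm⟩

theorem two_cc_dvd {q d : ℕ} (h1 : Odd q → 8 ∣ d) (h2 : Even q → sp = true → 2 ∣ d)
    (h3 : Even q → sp = false → 4 ∣ d) : 2 * cc sp q ∣ d := by
  unfold cc
  rcases Nat.even_or_odd q with h | h
  · cases sp
    · simpa [h] using h3 h rfl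
    · simpa using h2 h rfl
  · have := h1 h
    split_ifs <;> omega

variable (F) in
/-- All spaces of a type have a character of degree divisible by `c`. -/
def Fam (sp : Bool) (w e c : ℕ) (t : ℂ) : Prop :=
  ∀ (W : Type) [AddCommGroup W] [Module F W] [Finite W] (P' : PForm F W),
    Ty P' sp w e → ∃ n, c ∣ n ∧ Dg P' n t

theorem fam_one (sp : Bool) (w e : ℕ) : Fam F sp w e 1 1 := fun _ _ _ _ P' _ =>
  ⟨1, dvd_rfl, dg_one P'⟩

/-- The power of `q` obtained from the Steinberg character. -/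
def sq (q e : ℕ) : ℕ := if e = 1 then q else q ^ 2

theorem dvd_sq (q e : ℕ) : q ∣ sq q e := by
  unfold sq
  split_ifs
  · exact dvd_rfl
  · exact dvd_pow_self _ two_ne_zero

theorem Hy.fam_st (H : Hy) (h0 : 1 ≤ w) (h1 : 1 ≤ e ∨ 2 ≤ w) :
    Fam F sp w e (sq (Nat.card F) e) 1 := fun W _ _ _ P' T => by
  by_cases h2 : 1 ≤ e ∨ 3 ≤ w
  · obtain ⟨n, h3, h4, h5⟩ := (H.st F W P' sp w e T h0).1 h2
    refine ⟨n, ?_, h3⟩
    unfold sq
    split_ifs with h6
    · exact h4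
    · exact h5 h6
  · obtain rfl : e = 0 := by omega
    obtain rfl : w = 2 := by omega
    obtain ⟨f, g, h3, -, h4⟩ := (H.re F W P' sp 2 0 T le_rfl).1
    exact ⟨g, by rw [fg20 (two_le_card F) h3]; simp [sq], h4⟩

theorem Hy.aa (H : Hy) (T : Ty P sp w e) (hb : Big sp w e) {k c r s : ℕ} {t t' : ℂ} (h2 : 2 ≤ k)
    (h3 : k ≤ w) (h4 : w < 2 * k) (hc : Cusp F k false t) (hf : Fam F sp (w - k) e c t')
    (ht : t * t' = 1 ∨ LinearEquiv.neg F ∉ P.E) (hr : r.Prime) (hs : s.Prime) (hrs : r ≠ s)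
    (h5 : r ∣ c ∨ Cov (Nat.card F) w e k r) (h6 : s ∣ c ∨ Cov (Nat.card F) w e k s)
    (h7 : Even (Nat.card F) → sp = false → r = 2 ∨ s = 2 → 4 ∣ c) : Dv P (r * s) := by
  have hq := two_le_card F
  obtain ⟨n, d, h8, h9, h10⟩ := H.a F V P sp w e k c t t' T (by omega) h3 h4 hc hf
  have h11 := h8.trans (dvd_deg hq (by omega) h3 h4 h9)
  have h12 : r ∣ d := h5.elim (·.trans h11) (Cov.dvd hq (by omega) h3 h4 h9)
  have h13 : s ∣ d := h6.elim (·.trans h11) (Cov.dvd hq (by omega) h3 h4 h9)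
  refine H.fin T hb h10 ht hr hs hrs h12 h13 fun h => two_cc_dvd
    (fun ho => eight_dvd_deg hq ho h2 h3 h4 h9) (fun _ _ => ?_) fun he hs => (h7 he hs h).trans h11
  rcases h with rfl | rfl
  exacts [h12, h13]

/-- Two primes not dividing `q`. -/
theorem Hy.a1 (H : Hy) (T : Ty P sp w e) (hb : Big sp w e) {k r s : ℕ} {t : ℂ} (h2 : 2 ≤ k)
    (h3 : k ≤ w) (h4 : w < 2 * k) (hc : Cusp F k false t) (ht : t = 1 ∨ LinearEquiv.neg F ∉ P.E)
    (hr : r.Prime) (hs : s.Prime) (hrs : r ≠ s) (hr' : ¬ r ∣ Nat.card F) (hs' : ¬ s ∣ Nat.card F)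
    (h5 : Cov (Nat.card F) w e k r) (h6 : Cov (Nat.card F) w e k s) : Dv P (r * s) :=
  H.aa T hb h2 h3 h4 hc (fam_one _ _ _) (by rwa [mul_one]) hr hs hrs (Or.inr h5) (Or.inr h6)
    fun he _ h => by
      rcases h with rfl | rfl
      exacts [(hr' he.two_dvd).elim, (hs' he.two_dvd).elim]

/-- With the Steinberg character. -/
theorem Hy.a2 (H : Hy) (T : Ty P sp w e) (hb : Big sp w e) {k r s : ℕ} {t : ℂ} (h2 : 2 ≤ k)
    (h3 : k < w) (h3' : 1 ≤ e ∨ k + 2 ≤ w) (h4 : w < 2 * k) (hc : Cusp F k false t)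
    (ht : t = 1 ∨ LinearEquiv.neg F ∉ P.E) (hr : r.Prime) (hs : s.Prime) (hrs : r ≠ s)
    (h5 : r ∣ Nat.card F ∨ Cov (Nat.card F) w e k r)
    (h6 : s ∣ Nat.card F ∨ Cov (Nat.card F) w e k s) : Dv P (r * s) :=
  H.aa T hb h2 h3.le h4 hc (H.fam_st (by omega) (by omega)) (by rwa [mul_one]) hr hs hrs
    (h5.imp_left (·.trans (dvd_sq _ _))) (h6.imp_left (·.trans (dvd_sq _ _))) fun he hs _ => by
      subst hs
      unfold sq
      split_ifs with h
      · subst h
        exact absurd T.odd (Nat.not_odd_iff_even.2 he)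
      · exact pow_dvd_pow_of_dvd he.two_dvd 2

/-- All pairs of primes are joined. -/
def Goal (w e : ℕ) (P : PForm F V) : Prop := ∀ r s : ℕ, r.Prime → s.Prime → r ≠ s →
  (r ∣ Nat.card F ∨ Np (Nat.card F) w e r) → (s ∣ Nat.card F ∨ Np (Nat.card F) w e s) → Dv P (r * s)

theorem goal_of
    (h1 : ∀ r s : ℕ, r.Prime → s.Prime → r ≠ s → ¬ r ∣ Nat.card F → ¬ s ∣ Nat.card F →
      Np (Nat.card F) w e r → Np (Nat.card F) w e s → Dv P (r * s))
    (h2 : ∀ p r : ℕ, p.Prime → r.Prime → p ≠ r → p ∣ Nat.card F → ¬ r ∣ Nat.card F →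
      Np (Nat.card F) w e r → Dv P (p * r)) : Goal w e P := by
  intro r s hr hs hrs h3 h4
  by_cases h5 : r ∣ Nat.card F <;> by_cases h6 : s ∣ Nat.card F
  · exact (hrs (eq_of_dvd_card hr hs h5 h6).1).elim
  · exact h2 r s hr hs hrs h5 h6 (h4.resolve_left h6)
  · exact (h2 s r hs hr hrs.symm h6 h5 (h3.resolve_left h5)).swap
  · exact h1 r s hr hs hrs h5 h6 (h3.resolve_left h5) (h4.resolve_left h6)

theorem dvd_half {p q g x : ℕ} (hp : p.Prime) (h : 2 * g = q * x) (h1 : p ∣ q) (h2 : p = 2 → 4 ∣ q) :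
    p ∣ g := by
  by_cases h3 : p = 2
  · subst h3
    have : 2 * 2 ∣ 2 * g := h ▸ (h2 rfl).mul_right x
    exact Nat.dvd_of_mul_dvd_mul_left two_pos this
  · exact ((Nat.Prime.dvd_mul hp).1 (h ▸ h1.mul_right x)).resolve_left fun h4 =>
      h3 ((Nat.prime_dvd_prime_iff_eq hp Nat.prime_two).1 h4)

theorem prime_le {r n : ℕ} (h : r ∣ n) (h0 : 0 < n) : r ≤ n := Nat.le_of_dvd h0 h

/-- The primes dividing a small number. -/
theorem mem_of_dvd {r n : ℕ} (hr : r.Prime) (h : r ∣ n) (h0 : n ≠ 0) : r ∈ n.primeFactorsList :=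
  (Nat.mem_primeFactorsList h0).2 ⟨hr, h⟩

/-- `e = 1`, `w ≥ 3` odd, generic case. -/
theorem Hy.e1_odd (H : Hy) (T : Ty P sp w 1) (h3 : 3 ≤ w) (ho : Odd w) {t : ℂ}
    (hc : Cusp F (w - 1) false t) (ht : t = 1 ∨ LinearEquiv.neg F ∉ P.E) : Goal w 1 P := by
  have key : ∀ r, r.Prime → Np (Nat.card F) w 1 r → Cov (Nat.card F) w 1 (w - 1) r :=
    fun r hr h => by
      rcases cov_one hr (by omega) h3 h with h | h | h
      · exact h
      · exact absurd ho (Nat.not_odd_iff_even.2 h.1)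
      · omega
  exact fun r s hr hs hrs h1 h2 => H.a2 T ⟨by omega, Or.inr (by omega)⟩ (by omega) (by omega)
    (Or.inl le_rfl) (by omega) hc ht hr hs hrs (h1.imp_right (key r hr)) (h2.imp_right (key s hs))

theorem not_cov_cyc {q r : ℕ} (hr : r.Prime) (hq : 2 ≤ q) {k : ℕ} (h : r ∣ q ^ 3 - 1)
    (h1 : ¬ Cov q w e k r) (h2 : 0 < k) (h3 : k < w) : r ∣ q ^ 2 + q + 1 :=
  (cube_split hr (by omega) h).resolve_left fun h4 =>
    h1 (.m w (m_one h4 w) (by omega) le_rfl (by omega))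

/-- `e ≥ 1`, `w ≥ 4` even. -/
theorem Hy.e12_even (H : Hy) (T : Ty P sp w e) (he : e = 1 ∨ e = 2) (h4 : 4 ≤ w) (ho : Even w) :
    Goal w e P := by
  have hq := two_le_card F
  have hb : Big sp w e := ⟨by omega, Or.inr (by omega)⟩
  have key : ∀ r, r.Prime → Np (Nat.card F) w e r → Cov (Nat.card F) w e w r := fun r hr h =>
    (cov_top hr (by omega) (by omega) (by omega) h).resolve_right fun h =>
      Nat.not_odd_iff_even.2 ho h.1
  refine goal_of (fun r s hr hs hrs hr' hs' h1 h2 => H.a1 T hb (by omega) le_rfl (by omega)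
    (H.cusp1 (Or.inl (by omega))) (Or.inl rfl) hr hs hrs hr' hs' (key r hr h1) (key s hs h2))
    fun p r hp hr hpr hp' hr' h => ?_
  by_cases h5 : Cov (Nat.card F) w e (w - 1) r
  · exact H.a2 T hb (by omega) (by omega) (by omega) (by omega) (H.cusp1 (Or.inl (by omega)))
      (Or.inl rfl) hp hr hpr (Or.inl hp') (Or.inr h5)
  have h6 : r ∣ Nat.card F ^ (w - 1) - 1 := by
    rcases cov_one hr (by omega) (by omega) h with h | h | h
    · exact (h5 h).elim
    · exact h.2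
    · omega
  by_cases h7 : w = 4
  · subst h7
    have h8 := not_cov_cyc hr hq h6 h5 (by omega) (by omega)
    obtain ⟨f, g, h9, -, h10⟩ := (H.re F V P sp 4 e T (by omega)).2 (by omega)
    rcases he with rfl | rfl
    · by_cases h11 : Nat.card F = 2
      · cases sp
        · exact absurd T.odd (by rw [h11]; decide)
        · rw [h11] at hp' h8
          obtain rfl := (Nat.prime_dvd_prime_iff_eq hp Nat.prime_two).1 hp'
          obtain rfl := (Nat.prime_dvd_prime_iff_eq hr (by norm_num : Nat.Prime 7)).1 h8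
          exact H.sp82 F V P T h11 (H.cusp6 h11)
      · have h12 := fg41 hq h9
        refine h10.dv hp hr hpr (dvd_half hp (h12.trans (mul_assoc _ _ _)) hp' fun e =>
          four_dvd_card (e ▸ hp') h11) (dvd_half hr (x := Nat.card F * (Nat.card F ^ 4 + 1))
          (by rw [h12]; ring) h8 fun e => ?_)
        exact absurd (odd_cyc _) (Nat.not_odd_iff_even.2 (even_iff_two_dvd.2 (e ▸ h8)))
    · have h12 := fg42 hq h9
      exact h10.dv hp hr hpr ((hp'.mul_right _).trans h12) ((h8.mul_left _).trans h12)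
  · have h8 : 6 ≤ w := by obtain ⟨t, rfl⟩ := ho; omega
    exact H.a2 (k := w - 2) T hb (by omega) (by omega) (by omega) (by omega)
      (H.cusp1 (Or.inl (by omega))) (Or.inl rfl) hp hr hpr (Or.inl hp')
      (Or.inr (.m (w - 1) h6 (by omega) (by omega) (by omega)))

/-- `e = 1`, `w = 2`. -/
theorem Hy.e1_two (H : Hy) (T : Ty P sp 2 1) {t : ℂ} (hc : Cusp F 2 false t)
    (ht : t = 1 ∨ LinearEquiv.neg F ∉ P.E) (h2 : Nat.card F ≠ 2)
    (h : ∀ p r : ℕ, p.Prime → r.Prime → p ∣ Nat.card F → r ≠ 2 → r ∣ Nat.card F - 1 →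
      Dv P (p * r)) : Goal 2 1 P := by
  have hq := two_le_card F
  have hb : Big sp 2 1 := ⟨by omega, Or.inr (by omega)⟩
  have key : ∀ r, r.Prime → Np (Nat.card F) 2 1 r → Cov (Nat.card F) 2 1 2 r := fun r hr h =>
    (cov_top hr (by omega) (by omega) (by omega) h).resolve_right fun h => absurd h.1 (by decide)
  refine goal_of (fun r s hr hs hrs hr' hs' h1 h2 => H.a1 T hb le_rfl le_rfl (by omega)
    hc ht hr hs hrs hr' hs' (key r hr h1) (key s hs h2)) fun p r hp hr hpr hp' hr' h1 => ?_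
  obtain ⟨f, g, h9, h10, h11⟩ := (H.re F V P sp 2 1 T le_rfl).2 (by omega)
  obtain ⟨h12, h13⟩ := fg21 hq h9
  have h4 : p = 2 → 4 ∣ Nat.card F := fun e => four_dvd_card (e ▸ hp') h2
  have hf : r ∣ Nat.card F + 1 → Dv P (p * r) := fun h3 =>
    h10.dv hp hr hpr (dvd_half hp h12 hp' h4) (dvd_half hr (q := (Nat.card F + 1) ^ 2)
      (by rw [h12, mul_comm]) (dvd_pow h3 two_ne_zero) fun e => pow_dvd_pow_of_dvd (e ▸ h3) 2)
  by_cases h5 : r = 2
  · subst h5
    refine hf (Odd.add_one ?_).two_dvd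
    exact Nat.not_even_iff_odd.1 fun e => hr' e.two_dvd
  rcases key r hr h1 with ⟨i, h6, h7, h8, h3⟩ | ⟨j, h6, h7, h3⟩
  · obtain rfl : i = 1 := by omega
    exact h p r hp hr hp' h5 (by simpa using h3)
  · obtain rfl | rfl : j = 1 ∨ j = 2 := by omega
    · exact hf (by simpa using h3)
    · exact h11.dv hp hr hpr (dvd_half hp h13 hp' h4)
        (dvd_half hr (by rw [h13, mul_comm]) h3 fun e => (h5 e).elim)

theorem np_small {q r : ℕ} (l : List ℕ) (hr : r.Prime) (h : Np q w e r)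
    (h1 : ∀ i ∈ Finset.Icc 1 w, q ^ i - 1 ≠ 0 ∧ ∀ x ∈ (q ^ i - 1).primeFactorsList, x ∈ l)
    (h2 : ∀ j ∈ Finset.Ico 1 (w + e), ∀ x ∈ (q ^ j + 1).primeFactorsList, x ∈ l) : r ∈ l := by
  rcases h with ⟨i, h3, h4, h⟩ | ⟨j, h3, h4, h⟩
  · have := h1 i (Finset.mem_Icc.2 ⟨h3, h4⟩)
    exact this.2 r (mem_of_dvd hr h this.1)
  · exact h2 j (Finset.mem_Ico.2 ⟨h3, h4⟩) r (mem_of_dvd hr h (Nat.succ_ne_zero _))

/-- `Sp₆(2)`. -/
theorem Hy.sp6_two (H : Hy) (T : Ty P true 3 1) (h2 : Nat.card F = 2) : Goal 3 1 P := by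
  have key : ∀ r, r.Prime → (r ∣ Nat.card F ∨ Np (Nat.card F) 3 1 r) → r ∣ 210 := fun r hr h => by
    rw [h2] at h
    rcases h with h | h
    · exact h.trans (by norm_num)
    · have := np_small [3, 5, 7] hr h (by decide +kernel) (by decide +kernel)
      simp only [List.mem_cons, List.not_mem_nil, or_false] at this
      rcases this with rfl | rfl | rfl <;> norm_num
  exact fun r s hr hs hrs h3 h4 =>
    (H.sp62 F V P T h2 H.cusp5).dv hr hs hrs (key r hr h3) (key s hs h4)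

/-- `Sp₆(3)`. -/
theorem Hy.sp6_three (H : Hy) (T : Ty P true 3 1) (h2 : Nat.card F = 3) : Goal 3 1 P := by
  have hb : Big true 3 1 := ⟨by omega, Or.inl rfl⟩
  have key : ∀ r, r.Prime → Np (Nat.card F) 3 1 r → Cov (Nat.card F) 3 1 2 r := fun r hr h => by
    rcases cov_one hr (by omega) le_rfl h with h | h | h
    · exact h
    · exact absurd h.1 (by decide)
    · omega
  have hf : Fam F true (3 - 2) 1 1 (-1) := fun W _ _ _ P' T' =>
    ((H.st F W P' true _ 1 T' le_rfl).2 rfl (by rw [h2]; decide)).imp fun n hn => ⟨one_dvd _, hn⟩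
  refine goal_of (fun r s hr hs hrs hr' hs' h3 h4 => H.aa T hb le_rfl (by omega) (by omega)
    (H.cusp3 h2) hf (Or.inl (by norm_num)) hr hs hrs (Or.inr (key r hr h3)) (Or.inr (key s hs h4))
    fun _ h => absurd h (by simp)) fun p r hp hr hpr hp' hr' h1 => ?_
  obtain ⟨f, g, h9, h10, h11⟩ := (H.re F V P true 3 1 T (by omega)).2 (by omega)
  rw [h2] at hp' h1 h9
  obtain rfl := (Nat.prime_dvd_prime_iff_eq hp Nat.prime_three).1 hp'
  obtain ⟨h12, h13⟩ := h9
  obtain rfl : f = 195 := by omega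
  obtain rfl : g = 168 := by omega
  have := np_small [2, 5, 7, 13] hr h1 (by decide +kernel) (by decide +kernel)
  simp only [List.mem_cons, List.not_mem_nil, or_false] at this
  rcases this with rfl | rfl | rfl | rfl
  exacts [⟨_, by norm_num, h11⟩, ⟨_, by norm_num, h10⟩, ⟨_, by norm_num, h11⟩,
    ⟨_, by norm_num, h10⟩]

/-- The symplectic groups, except `Sp₄(q)` with `q` odd. -/
theorem Hy.goal_sp (H : Hy) (T : Ty P true w 1) (h2 : 2 ≤ w)
    (h : w = 2 → Even (Nat.card F) ∧ Nat.card F ≠ 2) : Goal w 1 P := by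
  have hq := two_le_card F
  by_cases h3 : w = 2
  · subst h3
    obtain ⟨h4, h5⟩ := h rfl
    have h6 : 4 ≤ Nat.card F := by obtain ⟨t, ht⟩ := h4; omega
    refine H.e1_two T (H.cusp1 (Or.inr ⟨rfl, h6⟩)) (Or.inl rfl) h5 fun p r hp hr hp' _ h7 => ?_
    obtain rfl := (eq_of_dvd_card hp Nat.prime_two hp' h4.two_dvd).1
    exact H.sp4 F V P r T h4 hr h7 H.cusp5
  rcases Nat.even_or_odd w with ho | ho
  · exact H.e12_even T (Or.inl rfl) (by obtain ⟨t, rfl⟩ := ho; omega) ho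
  by_cases h4 : w = 3
  · subst h4
    by_cases h5 : Nat.card F = 2
    · exact H.sp6_two T h5
    by_cases h6 : Nat.card F = 3
    · exact H.sp6_three T h6
    exact H.e1_odd T le_rfl ho (H.cusp1 (Or.inr ⟨rfl, by omega⟩)) (Or.inl rfl)
  · exact H.e1_odd T (by omega) ho (H.cusp1 (Or.inl (by omega))) (Or.inl rfl)

theorem Hy.cusp2 (H : Hy) {k : ℕ} (hk : 2 ≤ k) (h : Nat.card F ≠ 2) :
    ∃ t, Cusp F k false t ∧ (t = 1 ∨ (k = 2 ∧ Nat.card F = 3)) := by
  have hq := two_le_card F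
  by_cases h1 : k = 2 ∧ Nat.card F = 3
  · exact ⟨-1, h1.1 ▸ H.cusp3 h1.2, Or.inr h1⟩
  · exact ⟨1, H.cusp1 (by omega), Or.inl rfl⟩

/-- The orthogonal groups of odd dimension. -/
theorem Hy.goal_odd (H : Hy) (T : Ty P false w 1) (h2 : 2 ≤ w) : Goal w 1 P := by
  have hn := (H.zen F V P false w 1 T).2.2 rfl rfl
  have h5 : Nat.card F ≠ 2 := fun e => absurd T.odd (by rw [e]; decide)
  by_cases h3 : w = 2
  · subst h3
    obtain ⟨t, ht, -⟩ := H.cusp2 (F := F) le_rfl h5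
    exact H.e1_two T ht (Or.inr hn) h5 fun p r hp hr hp' h6 h7 =>
      H.o5 F V P p r T hp (eq_of_dvd_card hp hp hp' hp').2 hr h6 h7 H.cusp5
  rcases Nat.even_or_odd w with ho | ho
  · exact H.e12_even T (Or.inl rfl) (by obtain ⟨t, rfl⟩ := ho; omega) ho
  · obtain ⟨t, ht, -⟩ := H.cusp2 (F := F) (k := w - 1) (by omega) h5
    exact H.e1_odd T (by omega) ho ht (Or.inr hn)

theorem cancel_m {q k d x : ℕ} (hq : 2 ≤ q) (hk : 0 < k) (h : d * (q ^ k - 1) = x * (q ^ k - 1)) :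
    d = x :=
  Nat.eq_of_mul_eq_mul_right (Nat.sub_pos_of_lt (Nat.one_lt_pow hk.ne' hq)) h

theorem four_split (q : ℕ) : q ^ 4 - 1 = (q ^ 2 - 1) * (q ^ 2 + 1) := by
  rw [← sq_split, ← pow_mul]

/-- `Ω₈⁺(q)`: the characteristic. -/
theorem Hy.plus_four (H : Hy) (T : Ty P false 4 0) {p r : ℕ} (hp : p.Prime) (hr : r.Prime)
    (hpr : p ≠ r) (hp' : p ∣ Nat.card F) (hr' : ¬ r ∣ Nat.card F) (h : Np (Nat.card F) 4 0 r) :
    Dv P (p * r) := by
  have hq := two_le_card F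
  by_cases h4 : 4 ≤ Nat.card F
  · obtain ⟨f, g, -, d, h5, -, -, h6, h7⟩ := H.ap F V P false 4 0 2 1 T (by omega) le_rfl
      (H.cusp1 (Or.inr ⟨rfl, h4⟩))
    obtain rfl := fg20 hq h5
    generalize hF : Nat.card F = q at *
    have h8 : d = q ^ 2 * ((q ^ 2 + 1) * (q ^ 3 + 1) * ((q ^ 3 - 1) * (q ^ 2 + 1))) := by
      refine cancel_m hq two_pos ?_
      rw [h6]
      simp only [Nk, ns, Finset.prod_range_succ, Finset.prod_range_zero]
      norm_num
      rw [four_split]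
      ring
    have m3 : r ∣ q ^ 3 - 1 → r ∣ d := fun h => h8 ▸ ((h.mul_right _).mul_left _).mul_left _
    have p2 : r ∣ q ^ 2 + 1 → r ∣ d := fun h => h8 ▸ ((h.mul_left _).mul_left _).mul_left _
    have p3 : r ∣ q ^ 3 + 1 → r ∣ d := fun h => h8 ▸ ((h.mul_left _).mul_right _).mul_left _
    have p1 : r ∣ q ^ 1 + 1 → r ∣ d := fun h => p3 (p_three h)
    have m1 : r ∣ q ^ 1 - 1 → r ∣ d := fun h => m3 (m_one h 3)
    have m2 : r ∣ q ^ 2 - 1 → r ∣ d := fun h => (m_two (t := 1) hr h).elim m1 p1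
    have h9 : r ∣ d := by
      rcases h with ⟨i, h1, h2, h⟩ | ⟨j, h1, h2, h⟩
      · interval_cases i
        exacts [m1 h, m2 h, m3 h, (m_two (t := 2) hr h).elim m2 p2]
      · interval_cases j
        exacts [p1 h, p2 h, p3 h]
    have h10 : q ^ 2 ∣ d := h8 ▸ dvd_mul_right _ _
    refine H.fin T ⟨by omega, Or.inr (by omega)⟩ h7 (Or.inl rfl) hp hr hpr
      ((dvd_pow hp' two_ne_zero).trans h10) h9 fun _ => ?_
    rw [hF]
    refine two_cc_dvd (fun ho => ?_) (fun _ h => absurd h (by simp))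
      fun he _ => (pow_dvd_pow_of_dvd he.two_dvd 2).trans h10
    rw [h8]
    exact (mul_dvd_mul (mul_dvd_mul (two_dvd_p ho 2) (two_dvd_p ho 3))
      ((two_dvd_m ho 3).mul_right _)).mul_left _
  · obtain ⟨f, g, h9, h10, h11⟩ := (H.re F V P false 4 0 T (by omega)).2 (by omega)
    obtain h2 | h2 : Nat.card F = 2 ∨ Nat.card F = 3 := by omega
    · rw [h2] at hp' h h9
      obtain rfl := (Nat.prime_dvd_prime_iff_eq hp Nat.prime_two).1 hp'
      obtain ⟨h12, h13⟩ := h9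
      obtain rfl : f = 50 := by omega
      obtain rfl : g = 84 := by omega
      have := np_small [3, 5, 7] hr h (by decide +kernel) (by decide +kernel)
      simp only [List.mem_cons, List.not_mem_nil, or_false] at this
      rcases this with rfl | rfl | rfl
      exacts [⟨_, by norm_num, h11⟩, ⟨_, by norm_num, h10⟩, ⟨_, by norm_num, h11⟩]
    · rw [h2] at hp' h h9
      obtain rfl := (Nat.prime_dvd_prime_iff_eq hp Nat.prime_three).1 hp'
      obtain ⟨h12, h13⟩ := h9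
      obtain rfl : f = 300 := by omega
      obtain rfl : g = 819 := by omega
      have := np_small [2, 5, 7, 13] hr h (by decide +kernel) (by decide +kernel)
      simp only [List.mem_cons, List.not_mem_nil, or_false] at this
      rcases this with rfl | rfl | rfl | rfl
      exacts [⟨_, by norm_num, h10⟩, ⟨_, by norm_num, h10⟩, ⟨_, by norm_num, h11⟩,
        ⟨_, by norm_num, h11⟩]

theorem ne_two_of_cyc {q r : ℕ} (h : r ∣ q ^ 2 + q + 1) : r ≠ 2 := fun e =>
  absurd (odd_cyc q) (Nat.not_odd_iff_even.2 (even_iff_two_dvd.2 (e ▸ h)))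

theorem odd_of_not_dvd {q : ℕ} (h : Odd q) : ¬ 2 ∣ q := fun e =>
  Nat.not_even_iff_odd.2 h (even_iff_two_dvd.2 e)

/-- `Ω₁₀⁺(q)`: the characteristic and a divisor of `q² + q + 1`. -/
theorem Hy.plus_five (H : Hy) (T : Ty P false 5 0)
    (hn : LinearEquiv.neg F ∈ P.E → Even (Nat.card F) ∨ Nat.card F ^ 5 % 4 = 1) {p r : ℕ}
    (hp : p.Prime) (hr : r.Prime) (hpr : p ≠ r) (hp' : p ∣ Nat.card F)
    (h : r ∣ Nat.card F ^ 2 + Nat.card F + 1) : Dv P (p * r) := by
  have hq := two_le_card F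
  by_cases h2 : Nat.card F = 2
  · rw [h2] at hp' h
    obtain rfl := (Nat.prime_dvd_prime_iff_eq hp Nat.prime_two).1 hp'
    obtain rfl := (Nat.prime_dvd_prime_iff_eq hr (by norm_num : Nat.Prime 7)).1 h
    exact H.o10 F V P T h2 (H.cusp6 h2)
  obtain ⟨t, ht, ht'⟩ := H.cusp2 (F := F) le_rfl h2
  obtain ⟨f, g, d, -, h5, h6, h7, -⟩ := H.ap F V P false 5 0 2 t T (by omega) (by omega) ht
  obtain rfl := fg30 hq h5
  have h8 : Nat.card F * (Nat.card F ^ 2 + Nat.card F + 1) ∣ d := by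
    refine ⟨ns (Nat.card F) 5 0 * ((Nat.card F ^ 2 + 1) * (Nat.card F ^ 3 + 1)),
      cancel_m hq two_pos ?_⟩
    rw [h6]
    simp only [Nk, Finset.prod_range_succ, Finset.prod_range_zero, ns]
    norm_num
    rw [four_split]
    ring
  refine H.fin T ⟨by omega, Or.inr (by omega)⟩ h7 (ht'.imp_right fun h3 h4 => ?_) hp hr hpr
    ((hp'.mul_right _).trans h8) ((h.mul_left _).trans h8) fun h3 => ?_
  · have := hn h4
    rw [h3.2] at this
    revert this; decide
  · obtain rfl : p = 2 := h3.resolve_right (ne_two_of_cyc h)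
    exact two_cc_dvd (fun ho => (odd_of_not_dvd ho hp').elim) (fun _ h => absurd h (by simp))
      fun _ _ => ((four_dvd_card hp' h2).mul_right _).trans h8

/-- The orthogonal groups of plus type. -/
theorem Hy.goal_plus (H : Hy) (T : Ty P false w 0) (h4 : 4 ≤ w)
    (hn : LinearEquiv.neg F ∈ P.E → Even (Nat.card F) ∨ Nat.card F ^ w % 4 = 1) : Goal w 0 P := by
  have hq := two_le_card F
  have hb : Big false w 0 := ⟨by omega, Or.inr (by omega)⟩
  refine goal_of (fun r s hr hs hrs hr' hs' h1 h2 => ?_) fun p r hp hr hpr hp' hr' h => ?_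
  · rcases Nat.even_or_odd w with ho | ho
    · have key : ∀ r, r.Prime → Np (Nat.card F) w 0 r → Cov (Nat.card F) w 0 w r := fun r hr h =>
        (cov_top hr (by omega) (by omega) (by omega) h).resolve_right fun h =>
          Nat.not_odd_iff_even.2 ho h.1
      exact H.a1 T hb (by omega) le_rfl (by omega) (H.cusp1 (Or.inl (by omega))) (Or.inl rfl) hr hs
        hrs hr' hs' (key r hr h1) (key s hs h2)
    · have key : ∀ r, r.Prime → Np (Nat.card F) w 0 r → Cov (Nat.card F) w 0 (w - 1) r :=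
        fun r hr h => by
          rcases cov_one hr (by omega) (by omega) h with h | h | h
          · exact h
          · exact absurd ho (Nat.not_odd_iff_even.2 h.1)
          · omega
      exact H.a1 T hb (by omega) (by omega) (by omega) (H.cusp1 (Or.inl (by omega))) (Or.inl rfl)
        hr hs hrs hr' hs' (key r hr h1) (key s hs h2)
  by_cases h5 : w = 4
  · subst h5
    exact H.plus_four T hp hr hpr hp' hr' h
  by_cases h6 : Cov (Nat.card F) w 0 (w - 2) r
  · exact H.a2 T hb (by omega) (by omega) (by omega) (by omega) (H.cusp1 (Or.inl (by omega)))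
      (Or.inl rfl) hp hr hpr (Or.inl hp') (Or.inr h6)
  obtain ⟨ho, h7⟩ := (cov_two hr (by omega) h).resolve_left h6
  by_cases h8 : w = 5
  · subst h8
    exact H.plus_five T hn hp hr hpr hp' (not_cov_cyc hr hq h7 h6 (by omega) (by omega))
  · have h9 : 7 ≤ w := by obtain ⟨t, rfl⟩ := ho; omega
    exact H.a2 (k := w - 3) T hb (by omega) (by omega) (by omega) (by omega)
      (H.cusp1 (Or.inl (by omega))) (Or.inl rfl) hp hr hpr (Or.inl hp')
      (Or.inr (.m (w - 2) h7 (by omega) (by omega) (by omega)))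

/-- `Ω₈⁻(2)`. -/
theorem Hy.minus_two (H : Hy) (T : Ty P false 3 2) (h2 : Nat.card F = 2) : Goal 3 2 P := by
  have hb : Big false 3 2 := ⟨by omega, Or.inr (by omega)⟩
  have h3 := H.m2b F V P T h2 fun W _ _ _ P' T' => H.m2a F W P' T' h2 H.cusp5
  obtain ⟨f, g, h9, h10, -⟩ := (H.re F V P false 3 2 T (by omega)).2 (by omega)
  rw [h2] at h9
  obtain rfl : f = 84 := by have := h9.1; omega
  have h4 : ∀ j, j = 2 ∨ j = 4 → ∀ r, r.Prime → r ≠ 2 → r ≠ 3 → r ∣ 2 ^ j + 1 → Dv P (3 * r) :=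
    fun j hj r hr h5 h6 h7 => H.a1 T hb (by omega) le_rfl (by omega) (H.cusp1 (Or.inl le_rfl))
      (Or.inl rfl) Nat.prime_three hr h6.symm (by rw [h2]; norm_num)
      (by rw [h2]; exact fun h => h5 ((Nat.prime_dvd_prime_iff_eq hr Nat.prime_two).1 h))
      (.m 2 (by rw [h2]; norm_num) (by omega) (by omega) (by omega))
      (.p j (by rw [h2]; exact h7) (by omega) (by omega))
  have h5 := h4 2 (Or.inl rfl) 5 (by norm_num) (by norm_num) (by norm_num) (by norm_num)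
  have h6 := h4 4 (Or.inr rfl) 17 (by norm_num) (by norm_num) (by norm_num) (by norm_num)
  have h7 : Dv P 84 := ⟨_, dvd_rfl, h10⟩
  have key : ∀ r, r.Prime → (r ∣ Nat.card F ∨ Np (Nat.card F) 3 2 r) →
      r = 2 ∨ r = 3 ∨ r = 5 ∨ r = 7 ∨ r = 17 := fun r hr h => by
    rw [h2] at h
    rcases h with h | h
    · exact Or.inl ((Nat.prime_dvd_prime_iff_eq hr Nat.prime_two).1 h)
    · have h8 := np_small [3, 5, 7, 17] hr h (by decide +kernel) (by decide +kernel)
      simpa using Or.inr (a := r = 2) h8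
  intro r s hr hs hrs h11 h12
  rcases key r hr h11 with rfl | rfl | rfl | rfl | rfl <;>
    rcases key s hs h12 with rfl | rfl | rfl | rfl | rfl <;>
    first
      | exact (hrs rfl).elim
      | (refine h3.of_dvd ?_; decide)
      | (refine h7.of_dvd ?_; decide)
      | (refine h5.of_dvd ?_; decide)
      | (refine h6.of_dvd ?_; decide)

/-- `Ω₈⁻(q)`, a prime dividing only `q² + 1`. -/
theorem Hy.minus_aux (H : Hy) (T : Ty P false 3 2) (h2 : Nat.card F ≠ 2)
    (hn : Odd (Nat.card F) → LinearEquiv.neg F ∉ P.E) {r s : ℕ} (hr : r.Prime) (hs : s.Prime)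
    (hrs : r ≠ s) (h3 : r ∣ Nat.card F ^ 2 + 1) (h4 : ¬ Cov (Nat.card F) 3 2 2 r)
    (h5 : s ∣ Nat.card F ∨ Np (Nat.card F) 3 2 s) : Dv P (r * s) := by
  have hq := two_le_card F
  have hb : Big false 3 2 := ⟨by omega, Or.inr (by omega)⟩
  have hr' : ¬ r ∣ Nat.card F := fun h =>
    hr.one_lt.ne' (Nat.dvd_one.1 ((Nat.dvd_add_right (dvd_pow h two_ne_zero)).1 h3))
  have hr2 : r ≠ 2 := by
    rintro rfl
    exact h4 (.p 3 (two_dvd_p (Nat.not_even_iff_odd.1 fun e => hr' e.two_dvd) 3) le_rfl (by omega))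
  by_cases h6 : ¬ s ∣ Nat.card F ∧ Cov (Nat.card F) 3 2 3 s
  · exact H.a1 T hb (by omega) le_rfl (by omega) (H.cusp1 (Or.inl le_rfl)) (Or.inl rfl) hr hs hrs
      hr' h6.1 (.p 2 h3 le_rfl (by omega)) h6.2
  have h7 : s ∣ Nat.card F ∨ s ∣ Nat.card F ^ 2 + Nat.card F + 1 := by
    by_cases h8 : s ∣ Nat.card F
    · exact Or.inl h8
    · have h9 : ¬ Cov (Nat.card F) 3 2 3 s := fun h => h6 ⟨h8, h⟩
      have h10 := (cov_top hs le_rfl (by omega) (by omega) (h5.resolve_left h8)).resolve_left h9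
      exact Or.inr ((cube_split hs (by omega) h10.2).resolve_left fun h =>
        h9 (.m 1 h (by omega) (by omega) (by omega)))
  by_cases h8 : Nat.card F = 3
  · have h9 := H.m3 F V P T h8 (hn (by rw [h8]; decide))
    rw [h8] at h3 h7
    refine h9.dv hr hs hrs ?_ (h7.elim (·.trans (by norm_num)) (·.trans (by norm_num)))
    have : r ∣ 2 * 5 := h3
    exact (((Nat.Prime.dvd_mul hr).1 this).resolve_left fun h =>
      hr2 ((Nat.prime_dvd_prime_iff_eq hr Nat.prime_two).1 h)).trans (by norm_num)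
  obtain ⟨f, g, d, -, h9, h10, h11, -⟩ := H.ap F V P false 3 2 1 _ T (by omega) le_rfl
    (H.cusp4 (by omega))
  obtain rfl := fg22 hq h9
  have h12 : Nat.card F ^ 2 * (Nat.card F ^ 2 + 1) * (Nat.card F ^ 2 + Nat.card F + 1) ∣ d := by
    refine ⟨Nat.card F ^ 4 + 1, cancel_m hq one_pos ?_⟩
    rw [h10]
    simp only [Nk, Finset.prod_range_succ, Finset.prod_range_zero, ns]
    zify [cast_m (q := Nat.card F) (by omega)]
    ring
  have h13 : Nat.card F ^ 2 ∣ d := ((dvd_mul_right _ _).mul_right _).trans h12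
  refine H.fin T hb h11 ?_ hr hs hrs (((h3.mul_left _).mul_right _).trans h12)
    (h7.elim (fun h => (dvd_pow h two_ne_zero).trans h13) fun h => (h.mul_left _).trans h12)
    fun h => ?_
  · by_cases ho : Odd (Nat.card F)
    · exact Or.inr (hn ho)
    · exact Or.inl (if_neg ho)
  · obtain rfl : s = 2 := h.resolve_left hr2
    have h14 := h7.resolve_right fun h => ne_two_of_cyc h rfl
    exact two_cc_dvd (fun ho => (odd_of_not_dvd ho h14).elim) (fun _ h => absurd h (by simp))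
      fun _ _ => (pow_dvd_pow_of_dvd h14 2).trans h13

/-- The orthogonal groups of minus type. -/
theorem Hy.goal_minus (H : Hy) (T : Ty P false w 2) (h3 : 3 ≤ w)
    (hn : LinearEquiv.neg F ∈ P.E → Even (Nat.card F) ∨ Nat.card F ^ (w + 1) % 4 = 3) :
    Goal w 2 P := by
  have hq := two_le_card F
  have hb : Big false w 2 := ⟨by omega, Or.inr (by omega)⟩
  rcases Nat.even_or_odd w with ho | ho
  · exact H.e12_even T (Or.inr rfl) (by obtain ⟨t, rfl⟩ := ho; omega) ho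
  have key : ∀ r, r.Prime → Np (Nat.card F) w 2 r →
      Cov (Nat.card F) w 2 (w - 1) r ∨ (w = 3 ∧ r ∣ Nat.card F ^ 2 + 1) := fun r hr h => by
    rcases cov_one hr le_rfl h3 h with h | h | h
    · exact Or.inl h
    · exact absurd ho (Nat.not_odd_iff_even.2 h.1)
    · exact Or.inr ⟨h.1, h.2.2⟩
  by_cases h4 : w = 3
  · subst h4
    by_cases h2 : Nat.card F = 2
    · exact H.minus_two T h2
    have hn' : Odd (Nat.card F) → LinearEquiv.neg F ∉ P.E := fun h h' => by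
      rcases hn h' with h5 | h5
      · exact Nat.not_even_iff_odd.2 h h5
      · obtain ⟨t, ht⟩ := h
        rw [ht, show (2 * t + 1) ^ (3 + 1) = 4 * (4 * t ^ 4 + 8 * t ^ 3 + 6 * t ^ 2 + 2 * t) + 1 by
          ring] at h5
        omega
    obtain ⟨t, ht, ht'⟩ := H.cusp2 (F := F) le_rfl h2
    intro r s hr hs hrs h5 h6
    by_cases h7 : r ∣ Nat.card F ∨ Cov (Nat.card F) 3 2 2 r
    · by_cases h8 : s ∣ Nat.card F ∨ Cov (Nat.card F) 3 2 2 s
      · exact H.a2 T hb le_rfl (by omega) (by omega) (by omega) ht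
          (ht'.imp_right fun h => hn' (by rw [h.2]; decide)) hr hs hrs h7 h8
      · rw [not_or] at h8
        exact (H.minus_aux T h2 hn' hs hr hrs.symm
          ((key s hs (h6.resolve_left h8.1)).resolve_left h8.2).2 h8.2 h5).swap
    · rw [not_or] at h7
      exact H.minus_aux T h2 hn' hr hs hrs
        ((key r hr (h5.resolve_left h7.1)).resolve_left h7.2).2 h7.2 h6
  · have h5 : 5 ≤ w := by obtain ⟨t, rfl⟩ := ho; omega
    exact fun r s hr hs hrs h1 h2 => H.a2 T hb (by omega) (by omega) (by omega) (by omega)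
      (H.cusp1 (k := w - 1) (Or.inl (by omega))) (Or.inl rfl) hr hs hrs
      (h1.imp_right fun h => (key r hr h).resolve_right fun h => h4 h.1)
      (h2.imp_right fun h => (key s hs h).resolve_right fun h => h4 h.1)

/-! ### The final step -/

theorem dvd_card_of_mem {G : Type*} [Group G] [Finite G] {r : ℕ} (h : r ∈ degreePrimes G) :
    r.Prime ∧ r ∣ Nat.card G := by
  obtain ⟨hr, d, ⟨χ, rfl⟩, h⟩ := h
  obtain ⟨n, hn⟩ := H11.exists_nat_degree (H11.isCharacter_of_irr χ.2)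
  refine ⟨hr, h.trans ?_⟩
  rw [charDegree, hn]
  simpa using H12.irr_degree_dvd_card χ.2 hn

theorem adj_of_goal {G : Type*} [Group G] [Finite G] (φ : G ≃* QE P) (h : Goal w e P)
    (h1 : ∀ r, r.Prime → r ∣ Nat.card G → r ∣ Nat.card F ∨ Np (Nat.card F) w e r) {r s : ℕ}
    (hr : r ∈ degreePrimes G) (hs : s ∈ degreePrimes G) (hrs : r ≠ s) :
    (degreeGraph G).Adj r s := by
  obtain ⟨h2, h3⟩ := dvd_card_of_mem hr
  obtain ⟨h4, h5⟩ := dvd_card_of_mem hs
  obtain ⟨n, h6, χ, hχ, h7⟩ := h r s h2 h4 hrs (h1 r h2 h3) (h1 s h4 h5)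
  refine ⟨hrs, h2, h4, n, ⟨⟨_, H11.isIrrCharacter_comp_mulEquiv hχ φ⟩, ?_⟩, h6⟩
  simp [charDegree, h7]

theorem np_of_prod {q r m : ℕ} (hr : r.Prime) (h1 : m ≤ w) (h2 : m < w + e)
    (h : r ∣ ∏ i ∈ Finset.range m, (q ^ (2 * (i + 1)) - 1)) : Np q w e r := by
  obtain ⟨i, hi, h⟩ := (Prime.dvd_finset_prod_iff hr.prime _).1 h
  have := Finset.mem_range.1 hi
  rcases m_two hr h with h | h
  · exact Or.inl ⟨i + 1, by omega, by omega, h⟩
  · exact Or.inr ⟨i + 1, by omega, by omega, h⟩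

theorem main (H : Hy) (hB : BrStmt) {G : Type*} [Group G] [Finite G]
    (h : IsPSp G ∨ IsPOmegaOdd G ∨ IsPOmegaPlus G ∨ IsPOmegaMinus G) {r s : ℕ}
    (hr : r ∈ degreePrimes G) (hs : s ∈ degreePrimes G) (hrs : r ≠ s) :
    (degreeGraph G).Adj r s := by
  rcases h with ⟨F, _, _, m, h1, h2, ⟨φ⟩⟩ | ⟨F, _, _, m, h1, h2, ⟨φ⟩⟩ | ⟨F, _, _, m, h1, ⟨φ⟩⟩ |
    ⟨F, _, _, m, a, b, h1, h2, ⟨φ⟩⟩
  · have h3 : ∀ r, r.Prime → r ∣ Nat.card G → r ∣ Nat.card F ∨ Np (Nat.card F) m 1 r := by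
      intro r hr h
      rw [Nat.card_congr φ.toEquiv] at h
      have h4 := h.trans (Subgroup.card_quotient_dvd_card _)
      rw [S0245.result rfl, ← Nat.card_eq_fintype_card] at h4
      exact ((Nat.Prime.dvd_mul hr).1 h4).imp hr.dvd_of_dvd_pow (np_of_prod hr le_rfl (by omega))
    by_cases h4 : m = 2 ∧ Odd (Fintype.card F)
    · obtain ⟨rfl, h4⟩ := h4
      obtain ⟨V, _, _, _, P, T, ⟨ψ⟩, -⟩ := (hB F 2).2.1 le_rfl h4
      obtain ⟨θ⟩ := S0301.result h4
      exact adj_of_goal (φ.trans (θ.symm.trans ψ)) (H.goal_odd T le_rfl) h3 hr hs hrs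
    · obtain ⟨V, _, _, _, P, T, ⟨ψ⟩, -⟩ := (hB F m).1
      refine adj_of_goal (φ.trans ψ) (H.goal_sp T h1 fun e => ?_) h3 hr hs hrs
      have := h2 e
      rw [Nat.card_eq_fintype_card]
      exact ⟨Nat.not_odd_iff_even.1 fun h => h4 ⟨e, h⟩, by omega⟩
  · obtain ⟨V, _, _, _, P, T, ⟨ψ⟩, -⟩ := (hB F m).2.1 (by omega) h2
    refine adj_of_goal (φ.trans ψ) (H.goal_odd T (by omega)) (fun r hr h => ?_) hr hs hrs
    rw [Nat.card_congr φ.toEquiv] at h
    have h4 := h.mul_left 2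
    rw [S0292.result rfl h2 m h1, ← Nat.card_eq_fintype_card] at h4
    exact ((Nat.Prime.dvd_mul hr).1 h4).imp hr.dvd_of_dvd_pow (np_of_prod hr le_rfl (by omega))
  · obtain ⟨V, _, _, _, P, T, ⟨ψ⟩, hn⟩ := (hB F m).2.2.1 (by omega)
    rw [← Nat.card_eq_fintype_card] at hn
    refine adj_of_goal (φ.trans ψ) (H.goal_plus T h1 hn) (fun r hr h => ?_) hr hs hrs
    rw [Nat.card_congr φ.toEquiv] at h
    have h4 := h.mul_left (Nat.gcd 4 (Fintype.card F ^ m - 1))
    rw [S0293.result rfl m h1, ← Nat.card_eq_fintype_card] at h4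
    rcases (Nat.Prime.dvd_mul hr).1 h4 with h5 | h5
    · exact ((Nat.Prime.dvd_mul hr).1 h5).imp hr.dvd_of_dvd_pow fun h6 =>
        Or.inl ⟨m, by omega, le_rfl, h6⟩
    · exact Or.inr (np_of_prod hr (by omega) (by omega) h5)
  · obtain ⟨V, _, _, _, P, T, ⟨ψ⟩, hn⟩ := (hB F (m - 1)).2.2.2 (by omega) a b h2
    rw [← Nat.card_eq_fintype_card] at hn
    refine adj_of_goal (φ.trans ψ) (H.goal_minus T (by omega) hn) (fun r hr h => ?_) hr hs hrs
    rw [Nat.card_congr φ.toEquiv] at h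
    have h4 := h.mul_left (Nat.gcd 4 (Fintype.card F ^ m + 1))
    rw [S0294.result rfl m h1 a b h2, ← Nat.card_eq_fintype_card] at h4
    rcases (Nat.Prime.dvd_mul hr).1 h4 with h5 | h5
    · exact ((Nat.Prime.dvd_mul hr).1 h5).imp hr.dvd_of_dvd_pow fun h6 =>
        Or.inr ⟨m, by omega, by omega, h6⟩
    · exact Or.inr (np_of_prod hr le_rfl (by omega) h5)

end Cfsg.Agent.H53.Dg
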