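import Cfsg.Agent.H53.DgAsm
import Cfsg.Agent.H84.DgAdams
import Cfsg.Agent.H19.DgCu
import Cfsg.Agent.H94.DgVl
import Cfsg.Agent.H22.DgClif
import Cfsg.Agent.H87.DgNg
import Cfsg.Agent.H47.DgSrg
import Cfsg.Agent.H60.DgVan
import Cfsg.Agent.H44.DgOpp
import Cfsg.Agent.H37.DgNorm
import Cfsg.Agent.H64.DgPerp
import Cfsg.Agent.H31.DgLevi
import Cfsg.Agent.H70.DgHc
import Cfsg.Agent.H32.DgSing
import Cfsg.Agent.H33.DgCount
import Cfsg.Agent.H13.DgRk3
import Cfsg.Agent.H39.DgR
import Cfsg.Agent.H16.DgZen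
import Cfsg.Agent.H36.DgSt
import Cfsg.Agent.H14.DgA
import Cfsg.Agent.H57.DgV2
import Cfsg.Agent.H55.DgO10
import Cfsg.Agent.H91.DgM2a
import Cfsg.Agent.H30.DgM2b
import Cfsg.Agent.H75.DgM3
import Cfsg.Agent.H29.DgBr

/-! Project DG: assembling the pieces. -/

set_option autoImplicit false

namespace Cfsg.Agent.H53.Dg

theorem hy (s1 : S1Stmt) (sp62 : Sp62Stmt) : Hy := by
  have adams := H84.DgAdams.adams
  have zero := H94.DgVl.zero
  have sub := H94.DgVl.sub
  have vl := H94.DgVl.vl
  have clif := H22.DgClif.clif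
  have ng := H87.DgNg.ng
  have srg := H47.DgS.srg
  have van := H60.DgVan.van
  have opp := H44.DgOpp.opp
  have norm := H37.Dg.norm ng van opp
  have nofix := H37.Dg.nofix van
  have perp := H64.DgPerp.perp van
  have levi := H31.DgL.levi
  have hc1 := H70.DgHc.hc1
  have hc2 := H70.DgHc.hc2 norm
  have sing := H32.DgSing.sing
  have witt := H32.DgSing.witt
  have count := H33.DgCount.count sing witt levi
  have cnt3 := H33.DgCount.cnt3 sing witt levi
  have rk3 := H13.DgRk3.rk3'
  have rr := H39.DgR.rr srg rk3 cnt3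
  have zen := H16.DgZ.zen
  have desc := H16.DgZ.desc clif zen
  have sd := H14.DgA.sd hc1 hc2 witt count
  have v2 := H57.DgV.v2 levi
  exact
    { cu := H19.DgCu.cu adams zero
      a := H14.DgA.aa levi hc1 hc2 witt count
      ap := H14.DgA.ap levi hc1 hc2 perp rr count
      re := H16.DgZ.re rr clif zen
      st := H36.DgS.st clif zen
      desc := desc
      zen := zen
      sp4 := H57.DgV.sp4 levi sd nofix sub vl witt desc
      sp82 := H57.DgV.sp82 levi sd nofix sub vl witt desc
      o10 := H55.DgO10.o10 levi sd hc1 hc2 nofix sub vl v2 witt opp clif zen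
      o5 := H57.DgV.o5 levi sd nofix sub vl witt desc s1
      sp62 := sp62
      m2a := H91.DgM2a.m2a levi norm nofix sub vl opp witt count zen
      m2b := H30.DgM2b.m2b levi norm zero opp sing rk3 zen
      m3 := H75.DgM.m3 H75.DgM.sim levi norm perp rr rk3 count clif zen }

end Cfsg.Agent.H53.Dg
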