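import Cfsg.Agent.H53.ElNb
import Mathlib.GroupTheory.Perm.Cycle.Type

/-! The centraliser of an inverting involution: first facts. -/

set_option autoImplicit false
open Subgroup

namespace Cfsg.Agent.H53.ElN2a

open Cfsg.Agent.H11.EL ElNb

universe u
variable {G : Type u} [Group G] [Finite G] {D : Set (Subgroup G)} {A B : Subgroup G} {y : G}

theorem ex_dvd (hA : Nat.card A = 11) {i j : ℤ} (hi : Ex y A i) (hj : Ex y A j) :
    (11 : ℤ) ∣ i - j := by
  obtain ⟨a, ha, h1⟩ : ∃ a ∈ A, a ≠ 1 := by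
    by_contra! h
    have : A = ⊥ := (eq_bot_iff_forall A).2 h
    rw [this] at hA; simp at hA
  have h2 : orderOf a = 11 := by rw [← Nat.card_zpowers, zp hA ha h1, hA]
  have h3 : a ^ (i - j) = 1 := by rw [zpow_sub, ← hi a ha, ← hj a ha, mul_inv_cancel]
  have := orderOf_dvd_iff_zpow_eq_one.2 h3
  rwa [h2] at this

theorem not_ct (hA : Nat.card A = 11) (hy : Ex y A (-1)) : y ∉ Ct A := fun h => by
  have := ex_dvd hA (i := 1) (fun a ha => by rw [← h a ha]; simp) hy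
  omega

omit [Finite G] in
theorem cj_fx (h : Cls D) {g : G} (hg : g ∈ C1 y) {E : Subgroup G} (hE : E ∈ Fx D y) :
    cj g E ∈ Fx D y :=
  ⟨h.conj E hE.1 g, by rw [← cj_eq_iff, ← cj_mul, hg y rfl, cj_mul, cj_eq_iff.2 hE.2]⟩

theorem n2a (b : Base.{u}) : N2aStmt.{u} := fun {G} _ _ D A B y h => by
  classical
  have hj : NJ D := h.ne.toNJ
  have hA := hj.card A h.hA
  obtain ⟨e, he1, he2, he⟩ : ∃ e : ℕ, Odd e ∧ 5 ∣ e ∧
      Nat.card (C1 y ⊓ (Nm A ⊓ Nm B) : Subgroup G) = 2 * e := by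
    obtain ⟨f, s, lc, lt⟩ := lct b hj h.hA h.hB h.AB
    have h1 := card_dvd_of_le (inf_le_right : C1 y ⊓ (Nm A ⊓ Nm B) ≤ _)
    rw [lt.e2c fun e => e y h.yN h.yB h.yA] at h1
    have : Fact (Nat.Prime 2) := ⟨by norm_num⟩
    have h2 : orderOf y = 2 := orderOf_eq_prime (by rw [sq, h.yy]) fun e =>
      not_ct hA h.yA (e ▸ one_mem _)
    have h3 := orderOf_dvd_natCard (C1 y ⊓ (Nm A ⊓ Nm B)) (x := y)
      ⟨fun x hx => by rw [Set.mem_singleton_iff.1 hx], h.yN, h.yB⟩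
    have h4 := orderOf_dvd_natCard (C1 y ⊓ (Nm A ⊓ Nm B)) (x := f)
      ⟨fun x hx => by rw [Set.mem_singleton_iff.1 hx]; exact lc.com y h.yN h.yB, lc.fA, lc.fB⟩
    rw [h2] at h3
    obtain ⟨e, he⟩ := h3
    rw [lc.fo, he] at h4
    rw [he, show 10 = 2 * 5 by rfl, mul_assoc] at h1
    exact ⟨e, Odd.of_dvd_nat ((by decide : Odd 5).mul h.odd) (Nat.dvd_of_mul_dvd_mul_left two_pos h1),
      by omega, he⟩
  refine ⟨fun x hx => ?_, ?_, ⟨e, he1, he2, he⟩, fun h2 h8 => ?_⟩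
  · by_cases h1 : cj x A = A
    · obtain ⟨i, hi⟩ := exists_ex hA (cj_eq_iff.1 h1)
      have h2 := ex_dvd hA (y := y) (i := i * i) (fun a ha => by
        rw [zpow_mul, ← hi _ (zpow_mem ha i), ← hi a ha, ← hx]; group) h.yA
      have h3 : ∀ z : ZMod 11, z * z + 1 ≠ 0 := by decide
      exact h3 i (by exact_mod_cast (ZMod.intCast_zmod_eq_zero_iff_dvd (i * i + 1) 11).2 (by simpa using h2))
    · obtain ⟨f, s, lc, -⟩ := lct b hj h.hA (hj.conj A h.hA x) (Ne.symm h1)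
      exact not_ct hA h.yA (ct_mono le_sup_left (hx ▸ lc.sq x rfl (by
        rw [← cj_mul, hx, cj_eq_iff.2 h.yN])))
  · have : Fact (Nat.Prime 2) := ⟨by norm_num⟩
    have := Fintype.ofFinite (Pt hj.toCls)
    have h1 := Equiv.Perm.card_fixedPoints_modEq (p := 2) (n := 1)
      (f := (fun a : Pt hj.toCls => y • a : Function.End _)) (by
        funext a
        show y • y • a = a
        rw [← mul_smul, h.yy, one_smul])
    rw [← Nat.card_eq_fintype_card, ← Nat.card_eq_fintype_card, pt_card] at h1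
    have h2 : Nat.card (Function.fixedPoints fun a : Pt hj.toCls => y • a) = (Fx D y).ncard :=
      Nat.card_congr ⟨fun a => ⟨a.1.1, a.1.2, (pt_fix _ y a.1).1 a.2⟩,
        fun a => ⟨⟨a.1, a.2.1⟩, (pt_fix hj.toCls y ⟨a.1, a.2.1⟩).2 a.2.2⟩, fun _ => rfl, fun _ => rfl⟩
    have h3 := h.ne.even
    rw [Nat.even_iff] at h3 ⊢
    rw [← h2]
    exact Eq.trans h1.symm h3
  · have hAf : A ∈ Fx D y := ⟨h.hA, h.yN⟩
    have hBf : B ∈ Fx D y := ⟨h.hB, h.yB⟩
    have h3 : ({A, B} : Set (Subgroup G)) = Fx D y := Set.eq_of_subset_of_ncard_le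
      (Set.pair_subset hAf hBf) (by rwa [Set.ncard_pair h.AB])
    have h4 : ∀ g ∈ C1 y, ∀ E ∈ Fx D y, cj g E = A ∨ cj g E = B := fun g hg E hE => by
      have := cj_fx hj.toCls hg hE
      rwa [← h3] at this
    have h5 : ∀ g ∈ C1 y, cj g A = A → g ∈ C1 y ⊓ (Nm A ⊓ Nm B) := fun g hg e =>
      ⟨hg, cj_eq_iff.1 e, cj_eq_iff.1 ((h4 g hg B hBf).resolve_left fun e' =>
        h.AB (cj_inj g (e.trans e'.symm)))⟩
    have h6 : ((C1 y ⊓ (Nm A ⊓ Nm B)).subgroupOf (C1 y)).index ∣ 2 := by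
      rw [index_dvd_two_iff]
      by_cases h7 : ∃ g : C1 y, cj (g : G) A = B
      · obtain ⟨g, hg⟩ := h7
        refine ⟨g, fun x => (h4 x x.2 A hAf).symm.imp (fun e => h5 _ (x * g).2 ?_) (h5 x x.2)⟩
        show cj ((x : G) * g) A = A
        rw [cj_mul, hg]
        exact (h4 x x.2 B hBf).resolve_right fun e' => h.AB (cj_inj (x : G) (e.trans e'.symm))
      · exact ⟨1, fun x => Or.inr (h5 x x.2 ((h4 x x.2 A hAf).resolve_right fun e => h7 ⟨x, e⟩))⟩
    rw [← ((C1 y ⊓ (Nm A ⊓ Nm B)).subgroupOf (C1 y)).card_mul_index,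
      Nat.card_congr (subgroupOfEquivOfLe inf_le_left).toEquiv, he] at h8
    have h9 := h8.trans (mul_dvd_mul_left _ h6)
    obtain ⟨m, rfl⟩ := he1
    omega

end Cfsg.Agent.H53.ElN2a
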