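import Cfsg.Agent.H11.ElDefs

/-! Basic geometry of the class in the case without `J₁`. -/

set_option autoImplicit false
open Subgroup

namespace Cfsg.Agent.H53.ElNb

open Cfsg.Agent.H11.EL

universe u
variable {G : Type u} [Group G] [Finite G] {D : Set (Subgroup G)}

theorem zp {A : Subgroup G} (hA : Nat.card A = 11) {a : G} (ha : a ∈ A) (h1 : a ≠ 1) :
    zpowers a = A := by
  have : Fact (Nat.Prime 11) := ⟨by norm_num⟩
  have h2 : orderOf a ∣ 11 := hA ▸ orderOf_dvd_natCard A ha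
  refine eq_of_le_of_card_ge (zpowers_le.2 ha) ?_
  rw [hA, Nat.card_zpowers]
  rcases (Nat.dvd_prime (by norm_num)).1 h2 with e | e
  · exact absurd (orderOf_eq_one_iff.1 e) h1
  · exact e.ge

theorem exists_ex {A : Subgroup G} (hA : Nat.card A = 11) {g : G} (hg : g ∈ Nm A) :
    ∃ i : ℤ, Ex g A i := by
  obtain ⟨a, ha, h1⟩ : ∃ a ∈ A, a ≠ 1 := by
    by_contra! h
    have : A = ⊥ := (eq_bot_iff_forall A).2 h
    rw [this] at hA; simp at hA
  have h2 : g * a * g⁻¹ ∈ zpowers a := by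
    rw [zp hA ha h1]; exact (mem_normalizer_iff.1 hg a).1 ha
  obtain ⟨i, hi⟩ := mem_zpowers_iff.1 h2
  refine ⟨i, fun x hx => ?_⟩
  rw [← zp hA ha h1] at hx
  obtain ⟨n, rfl⟩ := mem_zpowers_iff.1 hx
  rw [← conj_zpow, ← hi, ← zpow_mul, ← zpow_mul, mul_comm]

omit [Finite G] in
theorem ct_nm {A : Subgroup G} {k : G} (h : k ∈ Ct A) : k ∈ Nm A := centralizer_le_normalizer _ h

omit [Finite G] in
theorem ct_mono {A B : Subgroup G} (h : A ≤ B) {k : G} (hk : k ∈ Ct B) : k ∈ Ct A :=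
  centralizer_le h hk

omit [Finite G] in
theorem cj_inj (g : G) {A B : Subgroup G} (h : cj g A = cj g B) : A = B :=
  map_injective (MulAut.conj g).injective h

omit [Finite G] in
theorem cj_le {g : G} {A L : Subgroup G} (hg : g ∈ Nm L) (h : A ≤ L) : cj g A ≤ L := by
  rw [← cj_eq_iff.2 hg]; exact map_mono h

omit [Finite G] in
theorem nc (h : NJ D) : ¬ IsMulCommutative G := fun hc => by
  obtain ⟨A, hA, B, hB, hAB⟩ := h.two
  obtain ⟨g, hg⟩ := h.tr A hA B hB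
  refine hAB (hg ▸ ?_)
  ext x
  rw [mem_cj, hc.is_comm.comm g⁻¹ x, inv_mul_cancel_right]

omit [Finite G] in
theorem c1_ne (h : NJ D) {k : G} (hk : k ≠ 1) : C1 k ≠ ⊤ := fun e => by
  have := h.simple
  rcases (inferInstance : (center G).Normal).eq_bot_or_eq_top with e1 | e1
  · refine hk (mem_bot.1 (e1 ▸ mem_center_iff.2 fun g => ?_))
    exact (mem_centralizer_iff.1 (e ▸ mem_top g : g ∈ C1 k) k rfl).symm
  · exact nc h ⟨⟨fun a b => mem_center_iff.1 (e1 ▸ mem_top b : b ∈ center G) a⟩⟩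

omit [Finite G] in
theorem le_c1 {A : Subgroup G} {k : G} (hk : k ∈ Ct A) : A ≤ C1 k := fun x hx =>
  mem_centralizer_iff.2 fun y hy => by rw [Set.mem_singleton_iff.1 hy]; exact (hk x hx).symm

section
variable (b : Base.{u}) (h : NJ D)
include b h

theorem la {A B : Subgroup G} (hA : A ∈ D) (hB : B ∈ D) (hAB : A ≠ B) : LA (A ⊔ B) :=
  b.la _ (h.lp A hA B hB hAB).iso

theorem lct {A B : Subgroup G} (hA : A ∈ D) (hB : B ∈ D) (hAB : A ≠ B) :
    ∃ f s, LC A B f s ∧ LT A B f := by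
  have hp := h.lp A hA B hB hAB
  obtain ⟨f, s, h1⟩ := b.lc1 A B hp
  exact ⟨f, s, b.lc A B f s hp h1, b.lt A B f s hp (b.lc A B f s hp h1)⟩

theorem fix : ∀ A ∈ D, ∀ B ∈ D, A ≠ B → ∀ k ∈ Ct (A ⊔ B), k ≠ 1 → ∀ E ∈ D, k ∈ Nm E →
    E ≤ A ⊔ B := fun A hA B hB hAB k hk h1 E hE hkE =>
  h.ind _ (c1_ne h h1) A hA B hB hAB (le_c1 (ct_mono le_sup_left hk))
    (le_c1 (ct_mono le_sup_right hk)) E hE (le_c1 (ct_mono le_sup_right
      ((b.mb D h.toCls).cen A hA E hE k (ct_mono le_sup_left hk) hkE)))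

theorem line : ∀ A ∈ D, ∀ B ∈ D, ∀ A' ∈ D, ∀ B' ∈ D, A' ≠ B' → A' ≤ A ⊔ B → B' ≤ A ⊔ B →
    A' ⊔ B' = A ⊔ B := fun A hA B hB A' hA' B' hB' hne h1 h2 => by
  by_cases hAB : A = B
  · subst hAB
    rw [sup_idem] at h1 h2
    have e : ∀ E ∈ D, E ≤ A → E = A := fun E hE hle =>
      eq_of_le_of_card_ge hle (by rw [h.card E hE, h.card A hA])
    exact absurd ((e A' hA' h1).trans (e B' hB' h2).symm) hne
  · exact (la b h hA hB hAB).sup A' ⟨h1, h.card A' hA'⟩ B' ⟨h2, h.card B' hB'⟩ hne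

theorem ti' : ∀ A ∈ D, ∀ B ∈ D, A ≠ B → ∀ A' ∈ D, ∀ B' ∈ D, A' ≠ B' → ∀ k ∈ Ct (A ⊔ B), k ≠ 1 →
    k ∈ Ct (A' ⊔ B') → A ⊔ B = A' ⊔ B' := fun A hA B hB hAB A' hA' B' hB' hne k hk h1 hk' =>
  (line b h A hA B hB A' hA' B' hB' hne
    (fix b h A hA B hB hAB k hk h1 A' hA' (ct_nm (ct_mono le_sup_left hk')))
    (fix b h A hA B hB hAB k hk h1 B' hB' (ct_nm (ct_mono le_sup_right hk')))).symm

theorem ti : ∀ A ∈ D, ∀ B ∈ D, A ≠ B → ∀ k ∈ Ct (A ⊔ B), k ≠ 1 → ∀ g : G,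
    g * k * g⁻¹ ∈ Ct (A ⊔ B) → g ∈ Nm (A ⊔ B) := fun A hA B hB hAB k hk h1 g hg => by
  rw [← cj_eq_iff, cj_sup]
  refine (ti' b h A hA B hB hAB _ (h.conj A hA g) _ (h.conj B hB g)
    (fun e => hAB (cj_inj g e)) _ hg (by simpa using h1) ?_).symm
  rw [← cj_sup]
  intro x hx
  have := hk _ (mem_cj.1 hx)
  calc _ = g * (g⁻¹ * x * g * k) * g⁻¹ := by group
    _ = _ := by rw [this]; group

theorem two' : ∀ A ∈ D, ∀ g ∈ Nm A, Big g A → ∀ B ∈ D, ∀ B' ∈ D, B ≠ A → B' ≠ A → g ∈ Nm B →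
    g ∈ Nm B' → B = B' := fun A hA g hg ⟨i, hi, hn⟩ B hB B' hB' h1 h2 hgB hgB' => by
  by_contra hne
  obtain ⟨j, hj⟩ := exists_ex (h.card B hB) hgB
  obtain ⟨j', hj'⟩ := exists_ex (h.card B' hB') hgB'
  obtain ⟨_, _, c1, -⟩ := lct b h hA hB h1.symm
  obtain ⟨_, _, c2, -⟩ := lct b h hA hB' h2.symm
  obtain ⟨_, _, c3, -⟩ := lct b h hB hB' hne
  have e1 := c1.mm g hg hgB i j hi hj
  have e2 := c2.mm g hg hgB' i j' hi hj'
  have e3 := c3.mm g hgB hgB' j j' hj hj'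
  refine hn ?_
  have : i ^ 2 - 1 = (i * j - 1) * (i * j') + (i * j' - 1) - i ^ 2 * (j * j' - 1) := by ring
  rw [this]
  exact ((e1.mul_right _).add e2).sub (e3.mul_left _)

omit b [Finite G] in
theorem out : ∀ A ∈ D, ∀ B ∈ D, ∃ E ∈ D, ¬ E ≤ A ⊔ B := fun A hA B hB => by
  by_contra! hc
  have := h.simple
  have hn : (sSup D).Normal := ⟨fun x hx g => by
    have : cj g (sSup D) ≤ sSup D := by
      rw [map_le_iff_le_comap]
      exact sSup_le fun E hE => map_le_iff_le_comap.1 (le_sSup (h.conj E hE g))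
    exact this ⟨x, hx, rfl⟩⟩
  rcases hn.eq_bot_or_eq_top with e | e
  · have h1 : A = ⊥ := le_bot_iff.1 (e ▸ le_sSup hA)
    have := h.card A hA
    rw [h1] at this; simp at this
  · exact h.big A hA B hB (top_le_iff.1 (e ▸ sSup_le hc))

omit b [Finite G] in
theorem faith (g : G) (hg : ∀ A ∈ D, g ∈ Nm A) : g = 1 := by
  have := h.simple
  rcases (inferInstance : (MulAction.toPermHom G (Pt h.toCls)).ker.Normal).eq_bot_or_eq_top
    with e | e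
  · exact mem_bot.1 (e ▸ Equiv.ext fun A => (pt_fix h.toCls g A).2 (hg A.1 A.2))
  · obtain ⟨A, hA, B, hB, hAB⟩ := h.two
    obtain ⟨x, hx⟩ := h.tr A hA B hB
    have h1 : x ∈ (MulAction.toPermHom G (Pt h.toCls)).ker := e ▸ mem_top x
    let a : Pt h.toCls := ⟨A, hA⟩
    have h2 : x • a = a := Equiv.congr_fun h1 a
    exact absurd ((congrArg Subtype.val h2).symm.trans hx) hAB

theorem five : ∀ A ∈ D, ∀ B ∈ D, ∀ B' ∈ D, B ≠ A → ¬ B' ≤ A ⊔ B → ∀ g ∈ Nm A, g ∈ Nm B →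
    Big g A → g ∉ Nm (A ⊔ B') := fun A hA B hB B' hB' h1 h2 g hg hgB hbig hL => by
  have hne : B' ≠ A := fun e => h2 (e ▸ le_sup_left)
  have hgA := cj_eq_iff.2 hg
  obtain ⟨a, ⟨ha, e⟩, -⟩ := (la b h hA hB' hne.symm).reg A ⟨le_sup_left, h.card A hA⟩ B'
    ⟨le_sup_right, h.card B' hB'⟩ (cj g B') ⟨cj_le hL le_sup_right, (card_cj _ _).trans (h.card _ hB')⟩
    hne fun e => hne (cj_inj g (e.trans hgA.symm))
  obtain ⟨i, hi, hn⟩ := hbig
  obtain ⟨m, hm⟩ : ∃ m : ℤ, (11 : ℤ) ∣ m * i + 1 - m := by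
    have hc : IsCoprime (11 : ℤ) (i - 1) := (Prime.coprime_iff_not_dvd (by norm_num)).2 fun hd =>
      hn (by rw [show i ^ 2 - 1 = (i - 1) * (i + 1) by ring]; exact hd.mul_right _)
    obtain ⟨x, y, hxy⟩ := hc
    exact ⟨-y, x, by linear_combination -hxy⟩
  have ha11 : a ^ (11 : ℤ) = 1 := by
    have := orderOf_dvd_natCard A ha
    rw [h.card A hA] at this
    exact_mod_cast orderOf_dvd_iff_pow_eq_one.1 this
  have hm' : (a ^ m) ^ i * a = a ^ m := by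
    obtain ⟨c, hc⟩ := hm
    rw [← zpow_mul, ← zpow_add_one, show m * i + 1 = 11 * c + m by linarith, zpow_add, zpow_mul,
      ha11, one_zpow, one_mul]
  have hb : a ^ m ∈ A := zpow_mem ha m
  have hbA : cj (a ^ m) A = A := cj_eq_iff.2 (le_normalizer hb)
  have h3 : g ∈ Nm (cj (a ^ m) B') := by
    rw [← cj_eq_iff, ← cj_mul, show g * a ^ m = g * a ^ m * g⁻¹ * g by group, hi _ hb, cj_mul, ← e,
      ← cj_mul, hm']
  have h4 := two' b h A hA g hg ⟨i, hi, hn⟩ B hB _ (h.conj B' hB' (a ^ m)) h1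
    (fun e => hne (cj_inj _ (e.trans hbA.symm))) hgB h3
  have h5 : B ≤ A ⊔ B' := h4 ▸ cj_le (le_normalizer (mem_sup_left hb)) le_sup_right
  exact h2 (line b h A hA B' hB' A hA B hB h1.symm le_sup_left h5 ▸ le_sup_right)

theorem mix : ∀ A ∈ D, ∀ B ∈ D, ∀ B' ∈ D, B ≠ A → ¬ B' ≤ A ⊔ B → ∀ k ∈ Ct (A ⊔ B), k ≠ 1 →
    k ∈ Nm (A ⊔ B') → orderOf k = 11 ∧ (∃ a ∈ A, a ≠ 1 ∧ k * a ≠ 1 ∧ k * a ∈ Ct (A ⊔ B')) ∧
      ∀ c ∈ Ct (A ⊔ B), Commute c k → c ∈ zpowers k := fun A hA B hB B' hB' h1 h2 k hk hk1 hL => by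
  have : Fact (Nat.Prime 11) := ⟨by norm_num⟩
  have hne : B' ≠ A := fun e => h2 (e ▸ le_sup_left)
  have htr : ∀ x ∈ Ct (A ⊔ B), x ∈ Ct (A ⊔ B') → x = 1 := fun x hx hx' => by_contra fun hx1 =>
    h2 (ti' b h A hA B hB h1.symm A hA B' hB' hne.symm x hx hx1 hx' ▸ le_sup_right)
  obtain ⟨_, _, -, lt⟩ := lct b h hA hB' hne.symm
  obtain ⟨k', hk', a, ha, rfl⟩ := lt.CM k (ct_mono le_sup_left hk) hL
  have ha1 : a ≠ 1 := fun e => hk1 (htr _ hk (by rwa [e, mul_one]))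
  have hk'1 : k' ≠ 1 := fun e => hk1 ((la b h hA hB h1.symm).ctr _
    (by rw [e, one_mul]; exact mem_sup_left ha) hk)
  have hc : Commute k' a := (hk' a (mem_sup_left ha : a ∈ A ⊔ B')).symm
  have ha11 : a ^ 11 = 1 := by
    have := orderOf_dvd_natCard A ha
    rw [h.card A hA] at this
    exact orderOf_dvd_iff_pow_eq_one.1 this
  refine ⟨orderOf_eq_prime (htr _ (pow_mem hk 11) ?_) hk1,
    ⟨a⁻¹, inv_mem ha, inv_ne_one.2 ha1, by rwa [mul_inv_cancel_right],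
      by rwa [mul_inv_cancel_right]⟩, fun c hcL hck => ?_⟩
  · rw [hc.mul_pow, ha11, mul_one]; exact pow_mem hk' 11
  · have h3 : Commute c a := (hcL a (mem_sup_left ha : a ∈ A ⊔ B)).symm
    have h4 : Commute c k' := by simpa using hck.mul_right h3.inv_right
    have h5 := ti b h A hA B' hB' hne.symm k' hk' hk'1 c (by rwa [h4.eq, mul_inv_cancel_right])
    obtain ⟨c', hc', x, hx, rfl⟩ := lt.CM c (ct_mono le_sup_left hcL) h5
    rw [← zp (h.card A hA) ha ha1] at hx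
    obtain ⟨n, rfl⟩ := mem_zpowers_iff.1 hx
    have h6 := htr _ (mul_mem hcL (inv_mem (zpow_mem hk n))) (by
      rw [hc.mul_zpow, mul_inv_rev, mul_assoc, mul_inv_cancel_left]
      exact mul_mem hc' (inv_mem (zpow_mem hk' n)))
    exact mem_zpowers_iff.2 ⟨n, (mul_inv_eq_one.1 h6).symm⟩

end

theorem nb (b : Base.{u}) : NBStmt.{u} := fun D h =>
  { h, b.mb D h.toCls with
    fix := fix b h
    ti := ti b h
    ti' := ti' b h
    line := line b h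
    two' := two' b h
    out := out h
    five := five b h
    mix := mix b h
    nc := nc h
    faith := faith h }

end Cfsg.Agent.H53.ElNb
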