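import Cfsg.Agent.H89.L27Defs

/-! Eigenspaces of an involution inverting an isometry of order three in characteristic three. -/

set_option autoImplicit false

namespace Cfsg.Agent.H53.L27Fa

open Module Cfsg.Agent.H89.L27

theorem key {F W : Type} [Field F] [AddCommGroup W] [Module F W] [FiniteDimensional F W]
    (B : LinearMap.BilinForm F W) (P Q : Submodule F W) (φ : Module.End F W)
    (h1 : ∀ v ∈ P, φ v ∈ Q) (h2 : ∀ v ∈ P, ∀ w ∈ Q, B (φ v) w = -B v (φ w))
    (h3 : ∀ v ∈ Q, (∀ w ∈ Q, B v w = 0) → v = 0) :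
    finrank F P + finrank F (Q ⊓ LinearMap.ker φ : Submodule F W) ≤
      finrank F (P ⊓ LinearMap.ker φ : Submodule F W) + finrank F Q := by
  let R := LinearMap.range (φ.domRestrict Q)
  let T : P →ₗ[F] Module.Dual F R := B.domRestrict₁₂ P R
  have e1 := LinearMap.finrank_range_add_finrank_ker T
  have e2 := LinearMap.finrank_range_add_finrank_ker (φ.domRestrict Q)
  have e3 : finrank F (LinearMap.range T) ≤ finrank F R :=
    (Submodule.finrank_le _).trans_eq Subspace.dual_finrank_eq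
  have e4 : finrank F (LinearMap.ker (φ.domRestrict Q)) =
      finrank F (Q ⊓ LinearMap.ker φ : Submodule F W) := by
    rw [← Submodule.map_comap_subtype, Submodule.finrank_map_subtype_eq, LinearMap.ker_domRestrict]
  have e5 : finrank F (LinearMap.ker T) ≤ finrank F (P ⊓ LinearMap.ker φ : Submodule F W) := by
    rw [← Submodule.map_comap_subtype, Submodule.finrank_map_subtype_eq]
    refine Submodule.finrank_mono fun v hv => h3 _ (h1 v v.2) fun w hw => ?_
    have : B v (φ w) = 0 := LinearMap.congr_fun (LinearMap.mem_ker.1 hv) ⟨φ w, ⟨w, hw⟩, rfl⟩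
    show B (φ v) w = 0
    rw [h2 v v.2 w hw, this, neg_zero]
  have : finrank F R = finrank F (LinearMap.range (φ.domRestrict Q)) := rfl
  omega

theorem fa : FaStmt := by
  intro F W _ _ _ _ _ B U a y _ hN ha hy haU hyU a3 y2 hr
  have h3 : (3 : F) = 0 := by exact_mod_cast CharP.cast_eq_zero F 3
  have mP : ∀ v, v ∈ U ⊓ LinearMap.ker (y - 1) ↔ v ∈ U ∧ y v = v := fun v => by
    simp [sub_eq_zero]
  have mQ : ∀ v, v ∈ U ⊓ LinearMap.ker (y + 1) ↔ v ∈ U ∧ y v = -v := fun v => by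
    simp [add_eq_zero_iff_eq_neg]
  have hya : ∀ w ∈ U, y (a (y w)) = a (a w) := fun w hw => by
    have := hr _ (haU _ (haU w hw))
    rwa [a3 w hw] at this
  have hφ : ∀ v, (a - a * a) v = a v - a (a v) := fun v => rfl
  have hφU : ∀ v ∈ U, (a - a * a) v ∈ U := fun v hv => sub_mem (haU v hv) (haU _ (haU v hv))
  have hB : ∀ v, ∀ w ∈ U, B ((a - a * a) v) w = -B v ((a - a * a) w) := fun v w hw => by
    rw [hφ, hφ, map_sub, map_sub, LinearMap.sub_apply, ← ha v (a (a w)), ← ha v (a w),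
      ← ha (a v) (a (a w)), a3 w hw, neg_sub]
  have hk : ∀ s : Module.End F W, U ⊓ LinearMap.ker (a - 1) ⊓ LinearMap.ker s =
      U ⊓ LinearMap.ker s ⊓ LinearMap.ker (a - a * a) := fun s => by
    ext v
    simp only [Submodule.mem_inf, LinearMap.mem_ker, hφ, LinearMap.sub_apply, Module.End.one_apply,
      sub_eq_zero]
    refine ⟨fun ⟨⟨h1, h2⟩, h4⟩ => ⟨⟨h1, h4⟩, by rw [h2, h2]⟩, fun ⟨⟨h1, h2⟩, h4⟩ => ⟨⟨h1, ?_⟩, h2⟩⟩
    have h5 := a3 v h1
    rwa [← h4, ← h4] at h5
  have hy' : ∀ v, ∀ w ∈ U, B v (y w) = B (y v) w := fun v w hw => by rw [← hy v (y w), y2 w hw]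
  have k1 := key B (U ⊓ LinearMap.ker (y - 1)) (U ⊓ LinearMap.ker (y + 1)) (a - a * a)
    (fun v hv => by
      obtain ⟨h1, h2⟩ := (mP v).1 hv
      have h4 := hya v h1
      rw [h2] at h4
      refine (mQ _).2 ⟨hφU v h1, ?_⟩
      rw [hφ, map_sub, ← h4, y2 _ (haU v h1), neg_sub])
    (fun v _ w hw => hB v w hw.1) (fun v hv h => by
      obtain ⟨h1, h2⟩ := (mQ v).1 hv
      refine hN v h1 fun w hw => ?_
      have := h (w - y w) ((mQ _).2 ⟨sub_mem hw (hyU w hw), by rw [map_sub, y2 w hw, neg_sub]⟩)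
      rw [map_sub, hy' v w hw, h2, map_neg, LinearMap.neg_apply] at this
      linear_combination B v w * h3 - this)
  have k2 := key B (U ⊓ LinearMap.ker (y + 1)) (U ⊓ LinearMap.ker (y - 1)) (a - a * a)
    (fun v hv => by
      obtain ⟨h1, h2⟩ := (mQ v).1 hv
      have h4 := hya v h1
      rw [h2, map_neg, map_neg] at h4
      refine (mP _).2 ⟨hφU v h1, ?_⟩
      rw [hφ, map_sub, ← h4, map_neg, y2 _ (haU v h1)]
      abel)
    (fun v _ w hw => hB v w hw.1) (fun v hv h => by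
      obtain ⟨h1, h2⟩ := (mP v).1 hv
      refine hN v h1 fun w hw => ?_
      have := h (w + y w) ((mP _).2 ⟨add_mem hw (hyU w hw), by rw [map_add, y2 w hw, add_comm]⟩)
      rw [map_add, hy' v w hw, h2] at this
      linear_combination B v w * h3 - this)
  refine ⟨by rw [hk, hk]; omega, ?_⟩
  have h4 : ∀ w : W, w + w + w = 0 := fun w => by
    rw [← two_smul F, ← one_smul F w, smul_smul, ← add_smul, mul_one,
      show (2 : F) + 1 = 3 by norm_num, h3, zero_smul]
  have e1 : U ⊓ LinearMap.ker (y - 1) ⊔ U ⊓ LinearMap.ker (y + 1) = U :=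
    le_antisymm (sup_le inf_le_left inf_le_left) fun w hw => by
      rw [show w = -(w + y w) + -(w - y w) by
        rw [← sub_eq_zero, ← h4 w]; abel]
      exact Submodule.add_mem_sup (neg_mem ((mP _).2 ⟨add_mem hw (hyU w hw),
        by rw [map_add, y2 w hw, add_comm]⟩)) (neg_mem ((mQ _).2 ⟨sub_mem hw (hyU w hw),
          by rw [map_sub, y2 w hw, neg_sub]⟩))
  have e2 : U ⊓ LinearMap.ker (y - 1) ⊓ (U ⊓ LinearMap.ker (y + 1)) = ⊥ :=
    eq_bot_iff.2 fun w hw => by
      have h5 := ((mP w).1 hw.1).2.symm.trans ((mQ w).1 hw.2).2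
      have h6 := h4 w
      rwa [add_eq_zero_iff_eq_neg.2 h5, zero_add] at h6
  rw [← Submodule.finrank_sup_add_finrank_inf_eq, e1, e2, finrank_bot, add_zero]

end Cfsg.Agent.H53.L27Fa
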