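import Cfsg.Agent.H53.L81X41D

/-! Project L81, piece X41: part of the computation. -/

set_option autoImplicit false
set_option maxRecDepth 100000

namespace Cfsg.Agent.H53.L81X41

theorem cy_3_2 : cy 3 2 10 = true := by decide +kernel

theorem cx_4 : cx 4 1 = true := by decide +kernel

theorem cx_5 : cx 5 1 = true := by decide +kernel

theorem cx_6 : cx 6 2 = true := by decide +kernel

theorem cx_8 : cx 8 13 = true := by decide +kernel

end Cfsg.Agent.H53.L81X41
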