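import Cfsg.Agent.H53.L81X41A
import Cfsg.Agent.H53.L81X41B
import Cfsg.Agent.H53.L81X41C

/-! Project L81, piece X41: the elements of order `41` conjugate to their cubes. -/

set_option autoImplicit false
set_option maxRecDepth 100000

namespace Cfsg.Agent.H53.L81X41

open Cfsg.Agent.H50.L81 Cfsg.Lie H37 H40 H34 H29 H82 H50.E83 Finset

theorem chk : allAlc [2, 3, 4, 6, 5, 4, 3, 2] 41 ok = true := by
  refine allAlc_cons.2 fun x hx => ?_
  rcases x with _ | _ | _ | _ | x
  · refine allAlc_cons.2 fun y hy => ?_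
    by_cases h1 : y < 1
    · exact cy_spec cy_0_0 (by omega) (by omega)
    by_cases h2 : y < 2
    · exact cy_spec cy_0_1 (by omega) (by omega)
    by_cases h3 : y < 4
    · exact cy_spec cy_0_2 (by omega) (by omega)
    · exact cy_spec cy_0_4 (by omega) (by omega)
  · refine allAlc_cons.2 fun y hy => ?_
    by_cases h1 : y < 1
    · exact cy_spec cy_1_0 (by omega) (by omega)
    by_cases h2 : y < 3
    · exact cy_spec cy_1_1 (by omega) (by omega)
    · exact cy_spec cy_1_3 (by omega) (by omega)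
  · refine allAlc_cons.2 fun y hy => ?_
    by_cases h1 : y < 2
    · exact cy_spec cy_2_0 (by omega) (by omega)
    · exact cy_spec cy_2_2 (by omega) (by omega)
  · refine allAlc_cons.2 fun y hy => ?_
    by_cases h1 : y < 2
    · exact cy_spec cy_3_0 (by omega) (by omega)
    · exact cy_spec cy_3_2 (by omega) (by omega)
  · by_cases h1 : x < 1
    · exact cx_spec cx_4 (by omega) (by omega)
    by_cases h2 : x < 2
    · exact cx_spec cx_5 (by omega) (by omega)
    by_cases h3 : x < 4
    · exact cx_spec cx_6 (by omega) (by omega)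
    · exact cx_spec cx_8 (by omega) (by omega)

theorem hT41 : T41 =
    (List.range chevE8.nroots).map fun r => res 41 ((List.range chevE8.rank).map (gt rcE8 r)) := by
  decide +kernel

theorem pk_eq {f : Rt → ℤ} {a : List ℕ} (hf : IsAdd C8.R f) (h : Rp C8 41 a f) :
    pk a = ∑ e ∈ range 41, 2 ^ (8 * e) * z0 41 fun r => f r - e := by
  rw [pk, sumL_eq, hT41, List.map_map]
  have h1 : ∀ (n : ℕ) (g : ℕ → ℕ), ((List.range n).map g).sum = ∑ r : Fin n, g r := fun n g => by
    rw [← Finset.sum_range]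
    rfl
  rw [h1]
  simp only [z0, mul_sum]
  rw [sum_comm]
  refine sum_congr rfl fun r _ => ?_
  have h2 : ((dotN a (res 41 ((List.range chevE8.rank).map (gt rcE8 r))) : ℕ) : ZMod 41) = f r := by
    rw [dotN_res (by decide) dvd_rfl, hf r]
    simp only [Int.cast_sum, Int.cast_mul, rc_eq C8 tabOKE8, ← h _, mul_comm]
  set n := dotN a (res 41 ((List.range chevE8.rank).map (gt rcE8 r))) with hn
  show Nat.shiftLeft 1 (8 * (n % 41)) = _
  rw [sum_eq_single (n % 41)]
  · rw [if_pos, mul_one]
    · exact Nat.one_shiftLeft _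
    · rw [Int.cast_sub, ← h2, Int.cast_natCast, ZMod.natCast_mod, sub_self]
  · intro e he hne
    rw [if_neg, mul_zero]
    intro h3
    rw [Int.cast_sub, ← h2, Int.cast_natCast, sub_eq_zero, ZMod.natCast_eq_natCast_iff',
      Nat.mod_eq_of_lt (mem_range.1 he)] at h3
    exact hne h3.symm
  · intro h3
    exact absurd (mem_range.2 (Nat.mod_lt _ (by decide))) h3

theorem dig (n : ℕ) (z : ℕ → ℕ) (hz : ∀ e, z e < 256) {k : ℕ} (hk : k < n) :
    dg (∑ e ∈ range n, 2 ^ (8 * e) * z e) k = z k := by
  change (∑ e ∈ range n, 2 ^ (8 * e) * z e) >>> (8 * k) % 256 = z k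
  rw [Nat.shiftRight_eq_div_pow]
  induction n generalizing z k with
  | zero => omega
  | succ n ih =>
    have e : ∑ e ∈ range n, 2 ^ (8 * (e + 1)) * z (e + 1) =
        256 * ∑ e ∈ range n, 2 ^ (8 * e) * z (e + 1) := by
      rw [mul_sum]
      exact sum_congr rfl fun e _ => by ring
    have h0 := hz 0
    rw [sum_range_succ', e]
    rcases k with _ | k
    · simp only [mul_zero, pow_zero, Nat.div_one, one_mul]
      omega
    · rw [show 2 ^ (8 * (k + 1)) = 256 * 2 ^ (8 * k) by ring, ← Nat.div_div_eq_div_mul,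
        ← ih (fun e => z (e + 1)) (fun e => hz _) (k := k) (by omega)]
      congr 2
      simp only [mul_zero, pow_zero, one_mul]
      omega

theorem z0_lt (g : Rt → ℤ) : z0 41 g < 256 := by
  have h : z0 41 g ≤ ∑ _r : Rt, 1 := sum_le_sum fun r _ => by split <;> omega
  rw [sum_const, card_univ, Fintype.card_fin, smul_eq_mul, mul_one] at h
  exact h.trans_lt (by decide +kernel)

theorem qT_eq {a : List ℕ} (h : a.length = 8) : qT a QT = qf a := by
  match a, h with
  | [a, b, c, d, e, f, g, h], _ =>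
    simp only [qT, QT, dotN, qf, sum_range_succ, sum_range_zero, List.getD_cons_succ,
      List.getD_cons_zero, Nat.add_eq, Nat.mul_eq]
    ring

theorem PL_pat : ∀ P ∈ PL, ∃ i < 17, ∀ e < 41, (if e = 0 then 8 else 0) + dg P e = pat41 i e := by
  decide +kernel

theorem x41 (hq : QfStmt) : X41Stmt := by
  intro f hf w _ h3
  obtain ⟨u, hu, a, h1, hl, h2⟩ := hf.alc tabOKE8 (s := 41) (by decide) (by decide) _ thE8 chk
  have h41 : (41 : ZMod 41) = 0 := rfl
  have d : ∀ e < 41, dg (pk a) e = z0 41 fun r => f r - e := fun e he => by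
    rw [pk_eq (hf.comp hu) h2, dig 41 _ (fun _ => z0_lt _) he]
    exact (z0_congr (f := fun r => f r - e) u fun _ => Iff.rfl).symm
  have s0 : ∑ r, (f r : ZMod 41) ^ 2 = 0 := by
    have e := Equiv.sum_comp w fun r => (f r : ZMod 41) ^ 2
    simp only [h3, mul_pow, ← mul_sum] at e
    linear_combination 36 * e - (7 * ∑ r, (f r : ZMod 41) ^ 2) * h41
  have q0 : qT a QT % 41 = 0 := by
    have e := congrArg (Int.cast : ℤ → ZMod 41) (hq a)
    have e2 : ∀ r, (vN C8 a r : ZMod 41) = f (u r) := fun r => by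
      rw [show f (u r) = _ from hf.comp hu r]
      simp only [vN, Int.cast_sum, Int.cast_mul, Int.cast_natCast, h2 _]
    simp only [Int.cast_sum, Int.cast_pow, e2, Int.cast_mul, Int.cast_natCast, Int.cast_ofNat] at e
    rw [Equiv.sum_comp u fun r => (f r : ZMod 41) ^ 2, s0] at e
    rw [qT_eq hl, ← Nat.dvd_iff_mod_eq_zero, ← ZMod.natCast_eq_zero_iff]
    linear_combination (-13) * e - (19 * (qf a : ZMod 41)) * h41
  have iv : allN (fun e => Nat.beq (dg (pk a) (Nat.mod (Nat.mul 3 e) 41)) (dg (pk a) e)) 41 = true :=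
    allN_iff.2 fun e he => by
      change Nat.beq (dg (pk a) (3 * e % 41)) _ = true
      rw [d e he, d _ (Nat.mod_lt _ (by decide)), Nat.beq_eq]
      refine z0_congr w fun r => ?_
      simp only [Int.cast_sub, Int.cast_natCast, h3, ZMod.natCast_mod, Nat.cast_mul, Nat.cast_ofNat]
      exact ⟨fun h => by linear_combination 14 * h - ((f r : ZMod 41) - e) * h41,
        fun h => by linear_combination 3 * h⟩
  rw [ok, show Nat.mod (qT a QT) 41 = 0 from q0, fN_eq, okP, iv] at h1
  have hm : pk a ∈ PL := by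
    by_contra hn
    have : allL (fun x => Bool.rec true false (Nat.beq x (pk a))) PL = true :=
      allL_iff.2 fun x hx => by
        rw [show Nat.beq x (pk a) = false from Bool.eq_false_iff.2 fun e =>
          hn (Nat.eq_of_beq_eq_true e ▸ hx)]
    rw [this] at h1
    cases h1
  obtain ⟨i, hi, h⟩ := PL_pat _ hm
  exact ⟨i, hi, fun e he => by rw [← h e he, d e he]; rfl⟩

end Cfsg.Agent.H53.L81X41
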