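import Cfsg.Agent.H53.L81X41D

/-! Project L81, piece X41: part of the computation. -/

set_option autoImplicit false
set_option maxRecDepth 100000

namespace Cfsg.Agent.H53.L81X41

theorem cy_0_0 : cy 0 0 1 = true := by decide +kernel

theorem cy_0_1 : cy 0 1 1 = true := by decide +kernel

theorem cy_0_2 : cy 0 2 2 = true := by decide +kernel

theorem cy_0_4 : cy 0 4 10 = true := by decide +kernel

theorem cy_1_0 : cy 1 0 1 = true := by decide +kernel

end Cfsg.Agent.H53.L81X41
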