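import Cfsg.Agent.H11.CyLp

/-! Project CY, chapter LP, piece MM: exponents on the two groups of a line `L₂(p)`. -/

set_option autoImplicit false

namespace Cfsg.Agent.H53.LpMm

open Subgroup MulAction Cfsg.Agent.H11.Cy Cfsg.Agent.H11.Cy.Lp
open Cfsg.Agent.H11.EL (Ex)

abbrev SL (F : Type) [Field F] := Matrix.SpecialLinearGroup (Fin 2) F
abbrev Mt (F : Type) := Matrix (Fin 2) (Fin 2) F

theorem unip {F : Type} [Field F] {p : ℕ} [Fact p.Prime] [CharP F p] (a : SL F) (h : a ^ p = 1) :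
    ∃ r s t : F, r * r + s * t = 0 ∧ ∀ m : ℤ, ((a ^ m : SL F) : Mt F) =
      !![1 + m * r, m * s; m * t, 1 - m * r] := by
  have h1 : ((a : Mt F) - 1) ^ p = 0 := by
    rw [sub_pow_char_of_commute p (Commute.one_right _), one_pow, ← Matrix.SpecialLinearGroup.coe_pow,
      h]
    simp
  have htr : Matrix.trace ((a : Mt F) - 1) = 0 :=
    (Matrix.isNilpotent_trace_of_isNilpotent ⟨p, h1⟩).eq_zero
  have hd := a.det_coe
  rw [Matrix.det_fin_two] at hd
  rw [Matrix.trace_fin_two] at htr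
  simp only [Matrix.sub_apply, Matrix.one_apply_eq] at htr
  obtain ⟨r, hr⟩ : ∃ r, r = (a : Mt F) 0 0 - 1 := ⟨_, rfl⟩
  obtain ⟨s, hs⟩ : ∃ s, s = (a : Mt F) 0 1 := ⟨_, rfl⟩
  obtain ⟨t, ht⟩ : ∃ t, t = (a : Mt F) 1 0 := ⟨_, rfl⟩
  have e0 : (a : Mt F) 0 0 = 1 + r := by rw [hr]; ring
  have e1 : (a : Mt F) 1 1 = 1 - r := by rw [hr]; linear_combination htr
  have hz : r * r + s * t = 0 := by
    rw [e0, e1, ← hs, ← ht] at hd
    linear_combination -hd
  have ea : (a : Mt F) = !![1 + r, s; t, 1 - r] := by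
    rw [Matrix.eta_fin_two (a : Mt F), e0, e1, ← hs, ← ht]
  have ei : ((a⁻¹ : SL F) : Mt F) = !![1 - r, -s; -t, 1 + r] := by
    rw [Matrix.SpecialLinearGroup.coe_inv, ea, Matrix.adjugate_fin_two_of]
  refine ⟨r, s, t, hz, fun m => ?_⟩
  induction m using Int.induction_on with
  | zero => simp [Matrix.one_fin_two]
  | succ n ih =>
    rw [zpow_add_one, Matrix.SpecialLinearGroup.coe_mul, ih, ea, Matrix.mul_fin_two]
    push_cast
    ext i j
    fin_cases i <;> fin_cases j <;> simp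
    · linear_combination (n : F) * hz
    · ring
    · ring
    · linear_combination (n : F) * hz
  | pred n ih =>
    rw [zpow_sub_one, Matrix.SpecialLinearGroup.coe_mul, ih, ei, Matrix.mul_fin_two]
    push_cast
    ext i j
    fin_cases i <;> fin_cases j <;> simp
    · linear_combination (n : F) * hz
    · ring
    · ring
    · linear_combination (n : F) * hz

theorem cube {F : Type} [Field F] (X : SL F) :
    ((X ^ 3 : SL F) : Mt F) = (((X : Mt F) 0 0 + (X : Mt F) 1 1) ^ 2 - 1) • (X : Mt F) -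
      ((X : Mt F) 0 0 + (X : Mt F) 1 1) • (1 : Mt F) := by
  have hd := X.det_coe
  rw [Matrix.det_fin_two] at hd
  rw [Matrix.SpecialLinearGroup.coe_pow, pow_three]
  ext i j
  fin_cases i <;> fin_cases j <;> simp [Matrix.mul_apply, Fin.sum_univ_two]
  · linear_combination (-(2 * (X : Mt F) 0 0 + (X : Mt F) 1 1)) * hd
  · linear_combination (-(X : Mt F) 0 1) * hd
  · linear_combination (-(X : Mt F) 1 0) * hd
  · linear_combination (-((X : Mt F) 0 0 + 2 * (X : Mt F) 1 1)) * hd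

theorem key {F : Type} [Field F] {p : ℕ} [Fact p.Prime] [CharP F p]
    (hs : ∀ z : F, ∃ n : ℤ, (n : F) = z) (a b : SL F) (ha : a ^ p = 1) (hb : b ^ p = 1)
    (hc : a * b ≠ b * a) :
    ∃ n : ℤ, (a * b ^ n) ^ 3 ∈ center (SL F) ∧ ∀ i j : ℤ, (a ^ i * (b ^ n) ^ j) ^ 3 ∈ center (SL F) →
      a ^ i * (b ^ n) ^ j ∉ center (SL F) → (2 - (i : F) * j) ^ 2 = 1 := by
  obtain ⟨r, s, t, hz, hm⟩ := unip a ha
  obtain ⟨u, v, w, hy, hn⟩ := unip b hb
  have c0 : 2 * r * u + s * w + t * v ≠ 0 := by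
    intro c
    apply hc
    have e1 : s * w - t * v = 0 := by
      apply pow_eq_zero_iff (two_ne_zero) |>.1
      linear_combination (s * w + t * v - 2 * r * u) * c + 4 * u * u * hz - 4 * s * t * hy
    have e2 : r * v - s * u = 0 := by
      apply pow_eq_zero_iff (two_ne_zero) |>.1
      linear_combination (-(s * v)) * c + v * v * hz + s * s * hy
    have e3 : t * u - r * w = 0 := by
      apply pow_eq_zero_iff (two_ne_zero) |>.1
      linear_combination (-(t * w)) * c + w * w * hz + t * t * hy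
    have a1 := hm 1
    have b1 := hn 1
    rw [zpow_one] at a1 b1
    apply Subtype.ext
    rw [Matrix.SpecialLinearGroup.coe_mul, Matrix.SpecialLinearGroup.coe_mul, a1, b1,
      Matrix.mul_fin_two, Matrix.mul_fin_two]
    ext i j
    fin_cases i <;> fin_cases j <;> simp
    · linear_combination e1
    · linear_combination 2 * e2
    · linear_combination 2 * e3
    · linear_combination -e1
  obtain ⟨n, hn0⟩ := hs (-(2 * r * u + s * w + t * v)⁻¹)
  have hn1 : (n : F) * (2 * r * u + s * w + t * v) = -1 := by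
    rw [hn0, neg_mul, inv_mul_cancel₀ c0]
  have tr : ∀ i j : ℤ, ((a ^ i * (b ^ n) ^ j : SL F) : Mt F) 0 0 +
      ((a ^ i * (b ^ n) ^ j : SL F) : Mt F) 1 1 = 2 - (i : F) * j := by
    intro i j
    rw [← zpow_mul, Matrix.SpecialLinearGroup.coe_mul, hm, hn, Matrix.mul_fin_two]
    simp
    linear_combination (i : F) * j * hn1
  refine ⟨n, ?_, fun i j h3 h1 => ?_⟩
  · have e := tr 1 1
    rw [zpow_one, zpow_one] at e
    rw [Subgroup.mem_center_iff]
    intro Y
    apply Subtype.ext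
    rw [Matrix.SpecialLinearGroup.coe_mul, Matrix.SpecialLinearGroup.coe_mul, cube, e]
    norm_num
  · by_contra hne
    apply h1
    rw [Subgroup.mem_center_iff] at h3 ⊢
    intro Y
    have e := congrArg Subtype.val (h3 Y)
    apply Subtype.ext
    rw [Matrix.SpecialLinearGroup.coe_mul, Matrix.SpecialLinearGroup.coe_mul, cube, tr] at e
    rw [Matrix.SpecialLinearGroup.coe_mul Y, Matrix.SpecialLinearGroup.coe_mul _ Y]
    simp only [mul_sub, sub_mul, Matrix.mul_smul, Matrix.smul_mul, mul_one, one_mul,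
      sub_left_inj] at e
    exact smul_right_injective _ (sub_ne_zero.2 hne) e

theorem mm : MMStmt := by
  intro G _ _ Ω _ _ p A h l0 _ x y hxy g hg i j hi hj hij
  haveI : Fact p.Prime := ⟨h.pp⟩
  have p5 : 5 ≤ p := l0.ty.1
  obtain ⟨⟨F, _, _, hF, ⟨e⟩⟩, -⟩ := l0.ty.2 x y hxy
  let φ := ZMod.ringEquivOfPrime F h.pp hF
  haveI : CharP F p := charP_of_injective_ringHom (f := φ.toRingHom) φ.injective p
  have hs : ∀ z : F, ∃ n : ℤ, (n : F) = z := fun z => by
    obtain ⟨n, hn⟩ := ZMod.intCast_surjective (φ.symm z)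
    exact ⟨n, by rw [← map_intCast φ, hn, RingEquiv.apply_symm_apply]⟩
  let π : SL F →* Matrix.ProjectiveSpecialLinearGroup (Fin 2) F := QuotientGroup.mk' _
  let ψ : SL F →* G := (Fl A x y).subtype.comp (e.symm.toMonoidHom.comp π)
  have hψ : ∀ X, ψ X = 1 ↔ X ∈ center (SL F) := fun X => by
    simp only [ψ, π, MonoidHom.comp_apply, Subgroup.coe_subtype, OneMemClass.coe_eq_one,
      MulEquiv.coe_toMonoidHom, EmbeddingLike.map_eq_one_iff, QuotientGroup.mk'_apply,
      QuotientGroup.eq_one_iff]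
  have lift : ∀ z, A z ≤ Fl A x y → ∃ X : SL F, X ^ p = 1 ∧ ψ X ∈ A z ∧ ψ X ≠ 1 := by
    intro z hz
    haveI : Nontrivial (A z) := Finite.one_lt_card_iff_nontrivial.1 (by rw [h.card]; omega)
    obtain ⟨c, hc⟩ := exists_ne (1 : A z)
    obtain ⟨X, hX⟩ := QuotientGroup.mk'_surjective _ (e ⟨c, hz c.2⟩)
    have hX' : ψ X = c := by
      simp only [ψ, π, MonoidHom.comp_apply, hX, Subgroup.coe_subtype, MulEquiv.coe_toMonoidHom,
        MulEquiv.symm_apply_apply]
    have cp : c ^ p = 1 := by rw [← h.card z]; exact pow_card_eq_one'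
    have c1 : X ^ p ∈ center (SL F) := by
      rw [← hψ, map_pow, hX', ← Subgroup.coe_pow, cp, Subgroup.coe_one]
    obtain ⟨r, hr, hr'⟩ := Matrix.SpecialLinearGroup.mem_center_iff.1 c1
    refine ⟨X ^ 2, ?_, ?_, ?_⟩
    · rw [← pow_mul, mul_comm, pow_mul]
      apply Subtype.ext
      rw [Matrix.SpecialLinearGroup.coe_pow, ← hr', ← map_pow]
      rw [Fintype.card_fin] at hr
      rw [hr, map_one, Matrix.SpecialLinearGroup.coe_one]
    · rw [map_pow, hX']
      exact pow_mem c.2 _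
    · rw [map_pow, hX', ← Subgroup.coe_pow]
      intro c2
      have c3 : c ^ 2 = 1 := Subtype.ext c2
      have o1 : orderOf c = p := orderOf_eq_prime cp hc
      have := Nat.le_of_dvd two_pos (o1 ▸ orderOf_dvd_of_pow_eq_one c3)
      omega
  obtain ⟨a, ap, aA, a1⟩ := lift x le_sup_left
  obtain ⟨b, bp, bA, b1⟩ := lift y le_sup_right
  have nc : ∀ c ∈ A y, ψ a * c = c * ψ a → c = 1 := by
    intro c hc hcom
    have e1 := h.eqv c x _ aA
    rw [← hcom, mul_inv_cancel_right] at e1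
    rcases h.semi x (c • x) _ aA (h.fix _ _ e1) with q | q
    · exact absurd q a1
    · exact (h.semi y x c hc q).resolve_right hxy
  obtain ⟨n, k1, k2⟩ := key hs a b ap bp fun q => b1 (nc _ bA (by rw [← map_mul, q, map_mul]))
  have cj : ψ (a ^ i * (b ^ n) ^ j) = g * ψ (a * b ^ n) * g⁻¹ := by
    rw [map_mul, map_mul, map_zpow, map_zpow, ← hi _ aA, ← hj (ψ (b ^ n))
      (by rw [map_zpow]; exact zpow_mem bA n)]
    group
  have k3 := k2 i j (by
    rw [← hψ, map_pow, cj, conj_pow, ← map_pow, (hψ _).2 k1]; group) (by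
    rw [← hψ, cj]
    intro q
    have q1 : ψ a * ψ b ^ n = 1 := by
      rw [← map_zpow, ← map_mul]
      calc ψ (a * b ^ n) = g⁻¹ * (g * ψ (a * b ^ n) * g⁻¹) * g := by group
        _ = 1 := by rw [q]; group
    apply b1
    apply nc _ bA
    rw [eq_inv_of_mul_eq_one_left q1]
    group)
  rw [← CharP.intCast_eq_zero_iff F p] at hij ⊢
  push_cast at hij ⊢
  by_contra q
  have q3 : (i : F) * j - 3 = 0 := by
    apply mul_left_cancel₀ q
    linear_combination k3
  have q8 : ((8 : ℕ) : F) = 0 := by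
    push_cast
    linear_combination hij - ((i : F) * j + 3) * q3
  rw [CharP.cast_eq_zero_iff F p] at q8
  have := Nat.le_of_dvd two_pos (h.pp.dvd_of_dvd_pow (show p ∣ 2 ^ 3 from q8))
  omega

end Cfsg.Agent.H53.LpMm
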