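import Cfsg.Agent.H54.O84Defs

/-! Transitivity on non-singular points in the unitary model. -/

set_option autoImplicit false

namespace Cfsg.Agent.H53.O84X4

open Cfsg.Agent.H54.O84

universe u

theorem x4 : X4Stmt.{u} := by
  intro F _ _ o hF ho Z hZ
  have h4 : ∀ c : F, c ^ 4 = c := fun c => hF ▸ FiniteField.pow_card c
  have h2 : (2 : F) = 0 := by linear_combination h4 (-1)
  let N : L F o → F := fun z => QuadraticAlgebra.norm z
  let e : F → L F o := fun c => ⟨c ^ 2, 0⟩
  have he : ∀ c, N (e c) = c := fun c => by
    simp only [N, e, QuadraticAlgebra.norm_def]; linear_combination h4 c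
  have h0 : N 0 = 0 := by simp [N]
  let P : UV F o → Prop := fun y =>
    ∃ g ∈ Z, ∃ s : F, s ≠ 0 ∧ g.1 y = s • (Pi.single 0 1 : UV F o)
  have mv : ∀ (i j : Fin 4) (y y' : UV F o), i ≠ j → (∀ k, k ≠ i → k ≠ j → y k = y' k) →
      N (y i) + N (y j) = N (y' i) + N (y' j) → N (y i) + N (y j) ≠ 0 → P y' → P y :=
    fun i j y y' h1 h2 h3 h4 ⟨g, hg, s, hs, h5⟩ => by
      obtain ⟨g', hg', h6⟩ := hZ i j h1 y y' h2 h3 h4
      exact ⟨g * g', mul_mem hg hg', s, hs, by rw [← h5, ← h6]; rfl⟩
  have s3 : ∀ a b, N a + N b ≠ 0 → P ![a, b, 0, 0] := fun a b h =>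
    mv 0 1 _ ![e (N a + N b), 0, 0, 0] (by decide) (fun k => by fin_cases k <;> simp)
      (by simp [he, h0]) h ⟨1, one_mem _, (N a + N b) ^ 2, pow_ne_zero _ h, by
        funext k
        fin_cases k <;> ext <;> simp [e, QuadraticAlgebra.re_one, QuadraticAlgebra.im_one]⟩
  have s2 : ∀ a b c, N a + N b + N c ≠ 0 → P ![a, b, c, 0] := fun a b c h => by
    by_cases h1 : N a + N c = 0
    · by_cases h3 : N b + N c = 0
      · have ha : N a ≠ 0 := fun e => h (by linear_combination e + h3)
        have ho0 : o ≠ 0 := fun e => by simp [e] at ho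
        have ho1 : o + 1 ≠ 0 := fun e => one_ne_zero (α := F) (by linear_combination ho - o * e)
        refine mv 0 3 _ ![e (o * N a), b, c, e ((o + 1) * N a)] (by decide)
          (fun k => by fin_cases k <;> simp) (by
            simp only [Matrix.cons_val, he, h0]; linear_combination -o * N a * h2)
          (by simpa [h0] using ha) ?_
        refine mv 0 2 _ ![e ((o + 1) * N a), b, 0, e ((o + 1) * N a)] (by decide)
          (fun k => by fin_cases k <;> simp) (by
            simp only [Matrix.cons_val, he, h0]; linear_combination h1 - N a * h2) (by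
            simp only [Matrix.cons_val, he]
            exact fun e => mul_ne_zero ho1 ha (by linear_combination e - h1 + N a * h2)) ?_
        refine mv 1 3 _ ![e ((o + 1) * N a), e (o * N a), 0, 0] (by decide)
          (fun k => by fin_cases k <;> simp) (by
            simp only [Matrix.cons_val, he, h0]; linear_combination h3 - h1 + N a * h2) (by
            simp only [Matrix.cons_val, he]
            exact fun e => mul_ne_zero ho0 ha (by linear_combination e - h3 + h1 - N a * h2))
          (s3 _ _ ?_)
        rw [he, he]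
        exact fun e => ha (by linear_combination e - o * N a * h2)
      · exact mv 1 2 _ ![a, e (N b + N c), 0, 0] (by decide) (fun k => by fin_cases k <;> simp)
          (by simp [he, h0]) h3 (s3 _ _ (by rwa [he, ← add_assoc]))
    · exact mv 0 2 _ ![e (N a + N c), b, 0, 0] (by decide) (fun k => by fin_cases k <;> simp)
        (by simp [he, h0]) h1 (s3 _ _ (by rwa [he, add_right_comm]))
  have s1 : ∀ a b c d, N a + N b + N c + N d ≠ 0 → P ![a, b, c, d] := fun a b c d h => by
    by_cases h1 : N a + N d = 0
    · by_cases h3 : N b + N d = 0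
      · refine mv 2 3 _ ![a, b, e (N c + N d), 0] (by decide) (fun k => by fin_cases k <;> simp)
          (by simp [he, h0]) (fun e => h ?_) (s2 _ _ _ (by rwa [he, ← add_assoc]))
        simp only [Matrix.cons_val] at e
        linear_combination e + h1 + h3 - N d * h2
      · exact mv 1 3 _ ![a, e (N b + N d), c, 0] (by decide) (fun k => by fin_cases k <;> simp)
          (by simp [he, h0]) h3 (s2 _ _ _ (by rw [he]; exact fun e => h (by linear_combination e)))
    · exact mv 0 3 _ ![e (N a + N d), b, c, 0] (by decide) (fun k => by fin_cases k <;> simp)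
        (by simp [he, h0]) h1 (s2 _ _ _ (by rw [he]; exact fun e => h (by linear_combination e)))
  intro y hy
  rw [Qn_apply, Fin.sum_univ_four] at hy
  have := s1 _ _ _ _ hy
  rwa [show ![y 0, y 1, y 2, y 3] = y from funext fun k => by fin_cases k <;> rfl] at this

end Cfsg.Agent.H53.O84X4
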