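import Cfsg.Agent.H74.RuDefs

/-!
# Project RU, piece PAN: a `p`-element acts on the line
-/

set_option autoImplicit false

namespace Cfsg.Agent.H53.RuP

open Module Cfsg.Agent.H74.Ru Cfsg.Agent.H29 Cfsg.Agent.H31 Matrix
open scoped MatrixGroups

theorem four_le {F : Type} [Field F] [Fintype F] {q j : ℕ} (hF : Fintype.card F = q ^ 2)
    (hq : 3 ≤ q) (hj : j = 2 ∨ j = 3) : 4 ≤ Nat.card (powMonoidHom j : Fˣ →* Fˣ).range := by
  classical
  rw [IsCyclic.card_powMonoidHom_range, Nat.card_units, Nat.card_eq_fintype_card, hF]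
  rcases hq.eq_or_lt with rfl | h
  · rcases hj with rfl | rfl <;> decide
  · have h1 : 16 ≤ q ^ 2 := by nlinarith
    have h2 : (q ^ 2 - 1).gcd j ≤ 3 := (Nat.gcd_le_right _ (by omega)).trans (by omega)
    have h3 : 0 < (q ^ 2 - 1).gcd j := Nat.gcd_pos_of_pos_right _ (by omega)
    rw [Nat.le_div_iff_mul_le h3]
    omega

theorem exists_rep {F V : Type} [Field F] [AddCommGroup V] [Module F V]
    (Γ : Subgroup (V ≃ₗ[F] V)) (L : Submodule F V) (hL : ∀ g ∈ Γ, ∀ x ∈ L, g x ∈ L)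
    (ψ : L ≃ₗ[F] (Fin 2 → F)) : ∃ ρ : Γ →* GL (Fin 2) F, ∀ (g : Γ) (y : L),
      (ρ g : Matrix (Fin 2) (Fin 2) F) *ᵥ ψ y = ψ ⟨g.1 y, hL _ g.2 _ y.2⟩ := by
  let r : Γ → (Fin 2 → F) →ₗ[F] (Fin 2 → F) := fun g =>
    ψ.toLinearMap ∘ₗ (g.1.toLinearMap.restrict (hL _ g.2)) ∘ₗ ψ.symm.toLinearMap
  have hr : ∀ (g : Γ) (y : L), r g (ψ y) = ψ ⟨g.1 y, hL _ g.2 _ y.2⟩ := fun g y => by
    change ψ (g.1.toLinearMap.restrict (hL _ g.2) (ψ.symm (ψ y))) = _
    rw [ψ.symm_apply_apply]; rfl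
  let M : Γ →* Matrix (Fin 2) (Fin 2) F :=
    { toFun := fun g => LinearMap.toMatrix' (r g)
      map_one' := by
        rw [← LinearMap.toMatrix'_id]
        congr 1
        refine LinearMap.ext fun v => ?_
        obtain ⟨y, rfl⟩ := ψ.surjective v
        rw [hr]; rfl
      map_mul' := fun a b => by
        rw [← LinearMap.toMatrix'_comp]
        congr 1
        refine LinearMap.ext fun v => ?_
        obtain ⟨y, rfl⟩ := ψ.surjective v
        change r (a * b) (ψ y) = r a (r b (ψ y))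
        rw [hr, hr, hr]; rfl }
  refine ⟨M.toHomUnits, fun g y => ?_⟩
  change LinearMap.toMatrix' (r g) *ᵥ ψ y = _
  rw [← Matrix.toLin'_apply, Matrix.toLin'_toMatrix', hr]

theorem pan (pg : Pg2Stmt) : PanStmt := by
  intro F V _ _ _ _ _ q hF hq Γ L h2 hL hx
  have := finite_linearEquiv (F := F) (V := V)
  obtain ⟨k, -, hp, -⟩ := exists_pow_char hF
  have : Fact (ringChar F).Prime := ⟨hp⟩
  obtain ⟨ψ⟩ : Nonempty (L ≃ₗ[F] (Fin 2 → F)) :=
    FiniteDimensional.nonempty_linearEquiv_of_finrank_eq (by rw [h2]; simp)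
  obtain ⟨ρ, hρ⟩ := exists_rep Γ L hL ψ
  by_cases hd : ringChar F ∣ Nat.card (pmk.comp ρ).range
  · have : Finite (pmk.comp ρ).range := Finite.of_surjective _ (pmk.comp ρ).rangeRestrict_surjective
    obtain ⟨⟨_, g, rfl⟩, ho⟩ := exists_prime_orderOf_dvd_card' _ hd
    rw [← Subgroup.orderOf_coe] at ho
    obtain ⟨a, m, hm, e⟩ := Nat.exists_eq_pow_mul_and_not_dvd (orderOf_pos g).ne' _ hp.ne_one
    refine ⟨(g ^ m).1, (g ^ m).2, ⟨a, ?_⟩, ?_⟩
    · rw [← Subgroup.coe_pow, ← pow_mul, mul_comm, ← e, pow_orderOf_eq_one, Subgroup.coe_one]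
    · by_contra n
      push Not at n
      have e1 : ρ (g ^ m) = 1 := by
        refine Units.ext (Matrix.toLin'.injective (LinearMap.ext fun v => ?_))
        obtain ⟨y, rfl⟩ := ψ.surjective v
        rw [Matrix.toLin'_apply, hρ, Units.val_one, Matrix.toLin'_one, LinearMap.id_apply]
        exact congrArg ψ (Subtype.ext (n _ y.2))
      refine hm (ho ▸ orderOf_dvd_of_pow_eq_one ?_)
      change pmk (ρ g) ^ m = 1
      rw [← map_pow, ← map_pow, e1, map_one]
  exfalso
  have key := pg F (pmk.comp ρ).range hd fun x => by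
    induction x using Projectivization.ind with | h v hv =>
    obtain ⟨x, rfl⟩ := ψ.surjective v
    have x0 : (x : V) ≠ 0 := fun c => hv (by rw [show x = 0 from Subtype.ext c, map_zero])
    obtain ⟨j, hj, hc⟩ := hx x x.2 x0
    obtain ⟨y, yL, hy⟩ : ∃ y ∈ L, y ∉ F ∙ (x : V) := by
      by_contra c
      push Not at c
      have := Submodule.finrank_mono (show L ≤ F ∙ (x : V) from c)
      rw [h2, finrank_span_singleton x0] at this
      omega
    have : Finite (pmk.comp ρ).range := Finite.of_surjective _ (pmk.comp ρ).rangeRestrict_surjective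
    have ex : ∀ t : (powMonoidHom j : Fˣ →* Fˣ).range,
        ∃ h : MulAction.stabilizer (pmk.comp ρ).range (Projectivization.mk F (ψ x) hv),
          ∃ (g : Γ) (s s' : Fˣ), pmk (ρ g) = h.1.1 ∧ g.1 x = (s : F) • (x : V) ∧
            g.1 y - (s' : F) • y ∈ F ∙ (x : V) ∧ s / s' = t := by
      rintro ⟨_, c, rfl⟩
      obtain ⟨g, m, s, s', e1, e2, e3⟩ := hc c
      refine ⟨⟨⟨_, ⟨g, m⟩, rfl⟩, ?_⟩, ⟨g, m⟩, s, s', rfl, e1, e2 y yL, e3⟩
      change pmk (ρ ⟨g, m⟩) • Projectivization.mk F (ψ x) hv = Projectivization.mk F (ψ x) hv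
      rw [pmk_smul_mk]
      have e4 := hρ ⟨g, m⟩ x
      rw [show (⟨g x, hL _ m _ x.2⟩ : L) = (s : F) • x from Subtype.ext e1, map_smul] at e4
      have a0 := congrFun e4 0
      have a1 := congrFun e4 1
      simp only [Matrix.mulVec, dotProduct, Fin.sum_univ_two, Pi.smul_apply, smul_eq_mul] at a0 a1
      rw [a0, a1]; ring
    choose f g s s' e1 e2 e3 e4 using ex
    refine (four_le hF hq hj).trans (Nat.card_le_card_of_injective f fun a b c => ?_)
    obtain ⟨l, l1, l2, l3, l4⟩ := (pmk_eq_pmk_iff _ _).1 ((e1 a).trans (by rw [c, ← e1 b]))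
    have m : (ρ (g a) : Matrix (Fin 2) (Fin 2) F) = l • (ρ (g b) : Matrix (Fin 2) (Fin 2) F) := by
      ext i j
      fin_cases i <;> fin_cases j
      exacts [l1, l2, l3, l4]
    have pr : ∀ z ∈ L, (g a).1 z = l • (g b).1 z := fun z hz => by
      have := hρ (g a) ⟨z, hz⟩
      rw [m, Matrix.smul_mulVec, hρ, ← map_smul] at this
      exact (congrArg Subtype.val (ψ.injective this)).symm
    have b1 : (s a : F) = l * s b := by
      have := pr x x.2
      rw [e2, e2, smul_smul] at this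
      exact smul_left_injective F x0 this
    have b2 : (s' a : F) = l * s' b := by
      by_contra n
      have := sub_mem (Submodule.smul_mem _ l (e3 b)) (e3 a)
      rw [pr y yL, show l • ((g b).1 y - (s' b : F) • y) - (l • (g b).1 y - (s' a : F) • y) =
        ((s' a : F) - l * s' b) • y by module, Submodule.smul_mem_iff _ (sub_ne_zero.2 n)] at this
      exact hy this
    have l0 : l ≠ 0 := fun c => (s a).ne_zero (by rw [b1, c, zero_mul])
    refine Subtype.ext ?_
    rw [← e4, ← e4]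
    refine Units.ext ?_
    rw [Units.val_div_eq_div_val, Units.val_div_eq_div_val, b1, b2, mul_div_mul_left _ _ l0]
  rw [Nat.card_eq_fintype_card, hF] at key
  have : q ≤ 3 := by rcases key with a | a <;> nlinarith
  obtain rfl : q = 3 := by omega
  omega

end Cfsg.Agent.H53.RuP
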