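import Cfsg.Agent.H56.SpDefs

/-! Project CY, chapter SP, piece X7: no quaternion group on seven points. -/

set_option autoImplicit false

namespace Cfsg.Agent.H53.SpX7

open Subgroup MulAction Cfsg.Agent.H56.Sp

theorem key {G : Type} [Group G] {Ω : Type} [MulAction G Ω] [Fintype Ω] {a b : G}
    (h1 : a * a = b * b) (h4 : a ^ 4 = 1) (hb : b * a * b⁻¹ = a⁻¹) (w : Ω)
    (hw : (a * a) • w ≠ w) : 8 ≤ Fintype.card Ω := by
  have s : ∀ v : Ω, (a * a) • v ≠ v → ∀ k : ℤ, a ^ k • v = v → 4 ∣ k := by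
    intro v hv k hk
    rw [zpow_eq_zpow_emod' k h4] at hk
    have hk' : a ^ (k % (4 : ℕ)) ∈ stabilizer G v := hk
    by_contra hn
    apply hv
    have : k % (4 : ℕ) = 1 ∨ k % (4 : ℕ) = 2 ∨ k % (4 : ℕ) = 3 := by push_cast; omega
    rcases this with e | e | e <;> rw [e] at hk'
    · rw [zpow_one] at hk'
      exact mul_mem hk' hk'
    · rw [zpow_two] at hk'
      exact hk'
    · have e2 : a * a = a ^ (3 : ℤ) * a ^ (3 : ℤ) * (a ^ 4)⁻¹ := by
        rw [← pow_two]; group
      rw [h4, inv_one, mul_one] at e2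
      rw [e2]
      exact mul_mem hk' hk'
  have p : ∀ v : Ω, (a * a) • v ≠ v → ∀ i j : Fin 4, a ^ (i : ℕ) • v = a ^ (j : ℕ) • v → i = j := by
    intro v hv i j e
    have := s v hv (-(j : ℕ) + (i : ℕ)) (by
      rw [zpow_add, zpow_neg, zpow_natCast, zpow_natCast, mul_smul, e, inv_smul_smul])
    have := i.2
    have := j.2
    ext
    omega
  have q : ∀ k : ℤ, (a ^ k * b) • w ≠ w := by
    intro k hk
    apply hw
    have e : a * a = a ^ k * b * (a ^ k * b) := by
      have e1 : b * a ^ k * b⁻¹ = (a ^ k)⁻¹ := by rw [← conj_zpow, hb, inv_zpow]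
      calc a * a = a ^ k * (b * a ^ k * b⁻¹) * (b * b) := by rw [e1, h1]; group
        _ = _ := by group
    rw [e, mul_smul, hk, hk]
  have q' : ∀ i j : Fin 4, a ^ (i : ℕ) • w ≠ a ^ (j : ℕ) • b • w := by
    intro i j e
    apply q (-(i : ℕ) + (j : ℕ))
    rw [zpow_add, zpow_neg, zpow_natCast, zpow_natCast, mul_smul, mul_smul, ← e, inv_smul_smul]
  have hw' : (a * a) • b • w ≠ b • w := by
    rw [h1] at hw ⊢
    intro e
    apply hw
    rw [← mul_smul, mul_assoc, mul_smul] at e
    exact smul_left_cancel b e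
  have inj : Function.Injective
      (Sum.elim (fun i => a ^ (i : ℕ) • w) (fun i => a ^ (i : ℕ) • b • w) : Fin 4 ⊕ Fin 4 → Ω) := by
    rintro (i | i) (j | j) e
    · exact congrArg _ (p w hw i j e)
    · exact absurd e (q' i j)
    · exact absurd e.symm (q' j i)
    · exact congrArg _ (p _ hw' i j e)
  simpa using Fintype.card_le_of_injective _ inj

theorem x7 : X7Stmt := by
  rintro G _ ⟨e⟩ ⟨a, b, h1, h2, h4, hb⟩
  let φ : G →* Equiv.Perm (Fin 7) := (alternatingGroup (Fin 7)).subtype.comp e.toMonoidHom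
  have inj : Function.Injective φ := Subtype.val_injective.comp e.injective
  have h3 : φ a * φ a ≠ 1 := fun q => h2 (inj (by rw [map_mul, q, map_one]))
  obtain ⟨w, hw⟩ : ∃ w, (φ a * φ a) • w ≠ w := by
    by_contra! q
    exact h3 (Equiv.ext q)
  have := key (a := φ a) (b := φ b) (by rw [← map_mul, h1, map_mul]) (by rw [← map_pow, h4, map_one])
    (by rw [← map_inv, ← map_mul, ← map_mul, hb, map_inv]) w hw
  simp at this

end Cfsg.Agent.H53.SpX7
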