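import Cfsg.Agent.H58.SWDefs
import Cfsg.Agent.S2690

/-! Project SW, piece SETL: the matrix model of an almost simple group with linear socle. -/

set_option autoImplicit false
set_option linter.unusedSectionVars false
open Matrix Cfsg

namespace Cfsg.Agent.H53.SwSetL

open Cfsg.Agent.H58.SW

universe u

variable {F : Type} [Field F] [Fintype F] [DecidableEq F] {n : ℕ}

/-- `ψ` is standard and induces `β`. -/
def R (c : Cl F n) {P : Type} [Group P] (π : c.S →* P) (β : MulAut P) (ψ : Au n F) : Prop :=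
  c.Std ψ ∧ ∀ s s' : c.S, s'.1 = ψ s.1 → β (π s) = π s'

theorem R.mul {c : Cl F n} (kt : KT c) {P : Type} [Group P] {π : c.S →* P} {β β' : MulAut P}
    {ψ ψ' : Au n F} (h : R c π β ψ) (h' : R c π β' ψ') : R c π (β * β') (ψ * ψ') := by
  obtain ⟨t, ht⟩ := h.1
  obtain ⟨t', ht'⟩ := h'.1
  obtain ⟨t'', h1, -⟩ := kt.mul_ind t ψ t' ψ' ht ht'
  refine ⟨⟨t'', h1⟩, fun s s' e => ?_⟩
  rw [MulAut.mul_apply, h'.2 s ⟨ψ' s.1, (kt.pres ψ' h'.1 s.1).2.1.2 s.2⟩ rfl]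
  exact h.2 _ s' e

theorem R.uniq {c : Cl F n} (kt : KT c) (hU : UniqStmt) {P : Type} [Group P] {π : c.S →* P}
    (hk : ∀ s, π s = 1 → s.1 ∈ c.Z) {β : MulAut P} {ψ ψ' : Au n F} (h : R c π β ψ)
    (h' : R c π β ψ') : ψ = ψ' := by
  obtain ⟨t, ht⟩ := h.1
  obtain ⟨t', ht'⟩ := h'.1
  obtain ⟨ti, hi, -⟩ := kt.inv_ind t ψ ht
  obtain ⟨t'', h1, -⟩ := kt.mul_ind ti ψ⁻¹ t' ψ' hi ht'
  refine inv_mul_eq_one.1 (hU F n c t'' _ h1 fun s hs => ?_).1
  have m1 : ψ' s ∈ c.S := (kt.pres ψ' h'.1 s).2.1.2 hs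
  have m2 : (ψ⁻¹ * ψ') s ∈ c.S := (kt.pres _ ⟨t'', h1⟩ s).2.1.2 hs
  have e1 := h'.2 ⟨s, hs⟩ ⟨_, m1⟩ rfl
  have e2 := h.2 ⟨_, m2⟩ ⟨_, m1⟩ (by simp)
  exact hk (⟨_, m2⟩ * (⟨s, hs⟩ : c.S)⁻¹) (by
    rw [map_mul, map_inv, β.injective (e2.trans e1.symm), mul_inv_cancel])

/-- The model from a lifting property. -/
theorem model {c : Cl F n} (kt : KT c) (hU : UniqStmt) {P : Type} [Group P] (π : c.S →* P)
    (hs : Function.Surjective π) (hk : ∀ s, π s = 1 → s.1 ∈ c.Z) (hR : ∀ β, ∃ ψ, R c π β ψ)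
    {G : Type u} [Group G] (N : Subgroup G) [N.Normal]
    (hC : Subgroup.centralizer (N : Set G) = ⊥) (e : N ≃* P) : ∃ φ : G →* Au n F, Mod N c φ := by
  choose f hf using hR
  let θ : G →* MulAut P := (MulAut.congr e).toMonoidHom.comp MulAut.conjNormal
  have hθ : ∀ g x, θ g x = e (MulAut.conjNormal g (e.symm x)) := fun _ _ => rfl
  let φ : G →* Au n F := MonoidHom.mk' (fun g => f (θ g)) fun a b =>
    R.uniq kt hU hk (hf _) (by rw [map_mul]; exact (hf _).mul kt (hf _))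
  have hφ : ∀ g, R c π (θ g) (φ g) := fun g => hf _
  have key : ∀ s : c.S, φ (e.symm (π s) : N) = MulAut.conj s.1 := fun s =>
    R.uniq kt hU hk (hφ _) ⟨⟨_, (kt.conj s.1 s.2.1).1⟩, fun x x' h => by
      have : x' = s * x * s⁻¹ := Subtype.ext h
      rw [hθ, this, ← e.eq_symm_apply, map_mul, map_mul, map_inv, map_mul, map_mul, map_inv]
      rfl⟩
  refine ⟨φ, (injective_iff_map_eq_one φ).2 fun g hg => ?_, fun g => (hφ g).1, ?_⟩
  · rw [← Subgroup.mem_bot, ← hC, Subgroup.mem_centralizer_iff]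
    intro x hx
    obtain ⟨s, h⟩ := hs (e ⟨x, hx⟩)
    have := (hφ g).2 s s (by rw [hg]; rfl)
    rw [hθ, h, e.symm_apply_apply] at this
    have := congrArg Subtype.val (e.injective this)
    exact (mul_inv_eq_iff_eq_mul.1 this).symm
  · ext ψ
    constructor
    · rintro ⟨x, hx, rfl⟩
      obtain ⟨s, h⟩ := hs (e ⟨x, hx⟩)
      refine ⟨s.1, s.2, ?_⟩
      rw [← key s, h, e.symm_apply_apply]
    · rintro ⟨s, h, rfl⟩
      exact ⟨_, (e.symm (π ⟨s, h⟩)).2, key ⟨s, h⟩⟩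

/-- From `S` to the special linear group. -/
def toSL {c : Cl F n} (ka : KA c) : c.S →* SpecialLinearGroup (Fin n) F :=
  MonoidHom.mk' (fun s => ⟨s.1.1, ((ka.mem_S s.1).1 s.2).2⟩) fun _ _ => rfl

/-- From `S` to the projective special linear group. -/
def pr {c : Cl F n} (ka : KA c) : c.S →* ProjectiveSpecialLinearGroup (Fin n) F :=
  (QuotientGroup.mk' _).comp (toSL ka)

theorem st_all {c : Cl F n} (hu : c.u = false) (x : Gl n F) : x ∈ c.St := by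
  simp [Cl.St, hu]

theorem pr_surj {c : Cl F n} (ka : KA c) (hu : c.u = false) : Function.Surjective (pr ka) :=
  (QuotientGroup.mk'_surjective _).comp fun s =>
    ⟨⟨SpecialLinearGroup.toGL s, (ka.mem_S _).2 ⟨st_all hu _, s.2⟩⟩, rfl⟩

theorem pr_ker {c : Cl F n} (ka : KA c) (s : c.S) (h : pr ka s = 1) : s.1 ∈ c.Z := by
  have h1 := (SpecialLinearGroup.toGL_mem_center_iff _).2 ((QuotientGroup.eq_one_iff _).1 h)
  have e : SpecialLinearGroup.toGL (toSL ka s) = s.1 := Units.ext rfl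
  rw [e] at h1
  exact ⟨s.2.1, h1⟩

/-- The inverse transpose. -/
def invT : Au n F where
  toFun x := ⟨(x⁻¹).1ᵀ, x.1ᵀ, by rw [← transpose_mul]; simp, by rw [← transpose_mul]; simp⟩
  invFun x := ⟨(x⁻¹).1ᵀ, x.1ᵀ, by rw [← transpose_mul]; simp, by rw [← transpose_mul]; simp⟩
  left_inv _ := Units.ext rfl
  right_inv _ := Units.ext rfl
  map_mul' x y := Units.ext (by
    change ((x * y)⁻¹).1ᵀ = (x⁻¹).1ᵀ * (y⁻¹).1ᵀ
    rw [_root_.mul_inv_rev, Units.val_mul, transpose_mul])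

/-- The alternating matrix of size two. -/
def J : Gl 2 F := ⟨!![0, 1; -1, 0], !![0, -1; 1, 0], by simp [one_fin_two], by simp [one_fin_two]⟩

theorem lift_invT {c : Cl F n} (ka : KA c) (kt : KT c) (hu : c.u = false)
    {γ : MulAut (ProjectiveSpecialLinearGroup (Fin n) F)} (h : IsInverseTransposeAutPSL γ) :
    ∃ ψ, R c (pr ka) γ ψ := by
  rcases c.hn.eq_or_lt with rfl | h3
  · refine ⟨MulAut.conj J, ⟨_, (kt.conj J (st_all hu _)).1⟩, fun s s' e => h _ _ ?_⟩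
    change s'.1.1 = _
    rw [e]
    change !![0, 1; -1, 0] * s.1.1 * !![0, -1; 1, 0] = (adjugate s.1.1)ᵀ
    rw [adjugate_fin_two]
    ext i j
    fin_cases i <;> fin_cases j <;> simp [Matrix.mul_apply, Fin.sum_univ_two, vecMul, dotProduct]
  · refine ⟨invT, ⟨⟨RingEquiv.refl F, true, 1⟩, st_all hu _, fun _ => ⟨hu, h3⟩, fun x => ?_⟩,
      fun s s' e => h _ _ ?_⟩
    · change (x⁻¹).1ᵀ = _
      simp [Tau.ap]
    · change s'.1.1 = _
      rw [e, ← map_inv]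
      rfl

theorem lift {c : Cl F n} (ka : KA c) (kt : KT c) (hu : c.u = false)
    (β : MulAut (ProjectiveSpecialLinearGroup (Fin n) F)) : ∃ ψ, R c (pr ka) β ψ := by
  have := Fact.mk c.hp
  obtain ⟨f, hf, hq⟩ := ka.qp
  have hF : Fintype.card F = c.q := by simpa [hu] using c.hq
  obtain ⟨δ, φ, γ, σ, ⟨A, hδ⟩, hφ, hγ, rfl⟩ := S2690.result (hF.trans hq) hf c.hn
    (fun h => hF ▸ (c.hn2 h).2) β
  have h1 : R c (pr ka) δ (MulAut.conj A) :=
    ⟨⟨_, (kt.conj A (st_all hu _)).1⟩, fun s s' e => hδ _ _ (congrArg Units.val e)⟩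
  have h2 : R c (pr ka) φ (Units.mapEquiv (RingEquiv.mapMatrix σ).toMulEquiv) :=
    ⟨⟨⟨σ, false, 1⟩, st_all hu _, fun h => (by cases h), fun x => by simp [Tau.ap]⟩,
      fun s s' e => hφ _ _ (congrArg Units.val e)⟩
  obtain ⟨ψ, h3⟩ : ∃ ψ, R c (pr ka) γ ψ := by
    rcases hγ with rfl | hγ
    · exact ⟨_, ⟨_, (kt.conj 1 (st_all hu _)).1⟩, fun s s' e => by
        rw [show s' = s from Subtype.ext (by simpa using e)]; rfl⟩
    · exact lift_invT ka kt hu hγ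
  exact ⟨_, (h1.mul kt h2).mul kt h3⟩

theorem setL (hKA : KAStmt) (hKT : KTStmt) (hU : UniqStmt) : SetLStmt.{u} := by
  rintro G _ _ N hN hC ⟨F, _, _, n, hn, hn2, ⟨e⟩⟩
  classical
  obtain ⟨p, hp⟩ := CharP.exists F
  let c : Cl F n := ⟨false, Fintype.card F, p, CharP.char_is_prime F p, hp, by simp, hn,
    fun h => ⟨rfl, hn2 h⟩, fun h => by cases h⟩
  obtain ⟨φ, h⟩ := model (hKT F n c) hU (pr (hKA F n c)) (pr_surj _ rfl) (pr_ker _)
    (lift _ (hKT F n c) rfl) N hC e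
  exact ⟨F, inferInstance, inferInstance, inferInstance, n, c, φ, h⟩

end Cfsg.Agent.H53.SwSetL
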