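import Cfsg.Agent.H53.TCKit

/-!
The 3-closure of a solvable permutation group (project TC): the irreducible affine case.
-/

set_option autoImplicit false

namespace Cfsg.Agent.H53.TC

open MulAction Cfsg.Agent.H12.RO Cfsg.Agent.H53.MW

universe u

/-- the 2-closure inside the additive automorphisms -/
def clo (G V : Type*) [Group G] [AddCommGroup V] [DistribMulAction G V] :
    Subgroup (V ≃ₗ[ℤ] V) where
  carrier := {f | ∀ x y : V, ∃ g : G, g • x = f x ∧ g • y = f y}
  one_mem' x y := ⟨1, by simp, by simp⟩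
  mul_mem' {f f'} hf hf' x y := by
    obtain ⟨g', h1, h2⟩ := hf' x y
    obtain ⟨g, h3, h4⟩ := hf (f' x) (f' y)
    exact ⟨g * g', by rw [mul_smul, h1, h3]; rfl, by rw [mul_smul, h2, h4]; rfl⟩
  inv_mem' {f} hf x y := by
    obtain ⟨g, h1, h2⟩ := hf (f⁻¹ x) (f⁻¹ y)
    refine ⟨g⁻¹, ?_, ?_⟩
    · rw [inv_smul_eq_iff, h1]; simp
    · rw [inv_smul_eq_iff, h2]; simp

theorem solvOn_of_transl {H V : Type*} [Group H] [AddCommGroup V] [MulAction H V] {n : ℕ}
    (h : ∀ g ∈ der (⊤ : Subgroup H) n, ∀ x : V, g • x = x + g • (0 : V)) : SolvOn H V :=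
  ⟨n + 1, by
    rw [der_add]
    refine triv_der_one fun a ha b hb x => ?_
    rw [h a ha, h b hb x, h b hb (a • x), h a ha x]
    abel⟩

theorem irrStep (ac : AcStmt.{u}) (imp : ImpStmt.{u}) (add : AddStmt.{u}) (lin : LinStmt.{u})
    (n : ℕ) (tc : TC.{u} n) : IrrStep.{u} n := by
  intro G₀ H V _ _ _ _ _ _ _ _ _ hn hirr₀ haff₀
  let f := DistribMulAction.toModuleAut ℤ V (S := G₀)
  let G := f.range
  have hfin : Finite G := Finite.of_surjective _ f.rangeRestrict_surjective
  have hsol : Group.IsSolvable G := Group.isSolvable_of_surjective f.rangeRestrict_surjective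
  have hirr : Irr G V := fun U hU => hirr₀ U fun g v hv => hU (f.rangeRestrict g) v hv
  have hf : ∀ g : G, (∀ x : V, g • x = x) → g = 1 := fun g hg => Subtype.ext (LinearEquiv.ext hg)
  have haff : Aff3 G H V := fun h x y z => by
    obtain ⟨g, hg⟩ := haff₀ h x y z
    exact ⟨f.rangeRestrict g, hg⟩
  by_cases hp : Prim G V
  swap
  · obtain ⟨Ω, _, _, _, S, -⟩ := exists_aff hirr hp
    exact imp n tc (ac n tc) G H V Ω S hn.le haff
  obtain ⟨K, _, _, _, W, _, _, _, σ, U, To, E, M, π, b, e, P⟩ := pk G V hf hp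
  by_cases hK : 2 < Nat.card K
  swap
  · have h2 : Nat.card K = 2 := le_antisymm (not_lt.1 hK) Finite.one_lt_card
    have hU : Nat.card U = 1 := by simpa [h2] using P.U_dvd
    have he : e = 1 := Nat.eq_one_iff_not_exists_prime_dvd.2 fun r hr hre =>
      hr.one_lt.ne' (by simpa [hU] using P.dvd r hr hre)
    have hW : Subsingleton W := (Nat.card_eq_one_iff_unique.1 (by rw [P.card, he, one_pow])).1
    have hG : ∀ g : G, g = 1 := fun g => by
      have h1 : σ g = 1 := by
        have h3 := H61.natCard_ringEquiv (K := K) (f := 1) Nat.prime_two (by rw [h2, pow_one])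
        exact (Nat.card_eq_one_iff_unique.1 h3).1.elim _ _
      have h3 := P.kerW g h1 fun w => Subsingleton.elim _ _
      have h4 := (P.sec.ker g h3).1 (Subsingleton.elim _ _)
      rwa [Subgroup.eq_bot_of_card_eq U hU, Subgroup.mem_bot] at h4
    refine solvOn_of_transl (n := 0) fun h _ x => ?_
    obtain ⟨g, h1, -⟩ := haff h 0 x x
    rw [hG g, one_smul, sub_zero, sub_eq_iff_eq_add] at h1
    exact h1
  have hfA : Finite (V ≃ₗ[ℤ] V) := Finite.of_injective (fun f : V ≃ₗ[ℤ] V => (f : V → V))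
    DFunLike.coe_injective
  have hsemi : ∀ l : clo G V, ∃ τ : RingAut K, ∀ (c : K) (v : V), l • c • v = τ c • l • v :=
    fun l => (add G V K σ P.semi hK l.1.toEquiv (map_zero l.1) fun x y z => by
      obtain ⟨g, h1, h2⟩ := l.2 (y - x) (z - x)
      exact ⟨g, by rw [h1, map_sub]; rfl, by rw [h2, map_sub]; rfl⟩).2
  let ι : G →* clo G V := (DistribMulAction.toModuleAut ℤ V (S := G)).codRestrict _
    fun g x y => ⟨g, rfl, rfl⟩
  obtain ⟨k, hk⟩ := lin n (ac n tc).lc G (clo G V) V K W σ U To E M π b e P hirr hn.le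
    (fun l hl => Subtype.ext (LinearEquiv.ext hl)) ι (fun _ _ => rfl) (fun l x y => l.2 x y) hsemi
  let p : H → Equiv.Perm V := fun h => (toPerm h).trans (Equiv.subRight (h • (0 : V)))
  have hp' : ∀ h x, p h x = h • x - h • (0 : V) := fun _ _ => rfl
  have hadd : ∀ h x y, p h (x + y) = p h x + p h y := fun h =>
    (add G V K σ P.semi hK (p h) (sub_self _) fun x y z => by
      obtain ⟨g, h1, h2⟩ := haff h x y z
      exact ⟨g, by rw [← h1, hp', hp', sub_sub_sub_cancel_right],
        by rw [← h2, hp', hp', sub_sub_sub_cancel_right]⟩).1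
  let q : H → clo G V := fun h => ⟨AddEquiv.toIntLinearEquiv { p h with map_add' := hadd h }, fun x y => by
    obtain ⟨g, h1, h2⟩ := haff h 0 x y
    rw [sub_zero] at h1 h2
    exact ⟨g, h1.symm, h2.symm⟩⟩
  have hq : ∀ h (x : V), q h • x = h • x - h • (0 : V) := fun _ _ => rfl
  let φ : H →* clo G V := MonoidHom.mk' q fun h h' => Subtype.ext (LinearEquiv.ext fun x => by
    change q (h * h') • x = q h • q h' • x
    rw [hq h', smul_sub, hq, hq, hq, mul_smul, mul_smul, sub_sub_sub_cancel_right])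
  refine solvOn_of_transl (n := k) fun h hh x => ?_
  have h1 := hk _ (der_mono le_top k (mem_der_map φ hh)) x
  rw [← sub_eq_iff_eq_add]
  exact h1

end Cfsg.Agent.H53.TC
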