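import Cfsg.Agent.H53.UwDefs

/-! Project UW: the dichotomy, the linear characters, the conjugation character. -/

set_option autoImplicit false

namespace Cfsg.Agent.H53.Uw

open Module Cfsg.Agent.H31 Cfsg.Agent.H11

universe u v

section Geo

variable {E V : Type u} [Field E] [Fintype E] [AddCommGroup V] [Module E V] [Finite V]
  {σ : E →+* E} {B : V →ₛₗ[σ] V →ₗ[E] E} {q : ℕ}
  {M : Type} [AddCommGroup M] [Module ℂ M] {ρ : Representation ℂ (isom B) M}

omit [Fintype E] [Finite V] in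
theorem conj_mem_CX {x : V} {t : isom B} (g : isom B) (ht : t ∈ CX B (E ∙ x)) :
    g⁻¹ * t * g ∈ CX B (E ∙ (g⁻¹).1 x) := by
  rw [mem_CX_span] at ht ⊢
  intro v hv
  have : B x (g.1 v) = 0 := by rw [isom_adj' g.2]; exact hv
  rw [mul_ap, mul_ap, ht _ this]
  exact inv_apply_apply g.1 v

theorem exists_fl (genq : GenqStmt.{u}) (S : St B q) (ho : Odd (finrank E V))
    (h3 : 3 ≤ finrank E V) (hρ : ρ.IsIrreducible) (hT : NT B ρ) {u : V} (hu : B u u ≠ 0) {v : M}
    (v0 : v ≠ 0) : ∃ X, Fl B u X ∧ v ∉ Fix ρ (QX B X) := by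
  by_contra h
  push Not at h
  let K : Subgroup (isom B) :=
    { carrier := {g | ρ g v = v}
      mul_mem' := fun {a b} ha hb => by
        change ρ (a * b) v = v
        rw [map_mul, Module.End.mul_apply, hb, ha]
      one_mem' := by
        change ρ 1 v = v
        rw [map_one]; rfl
      inv_mem' := fun {a} ha => by
        change ρ a⁻¹ v = v
        conv_lhs => rw [← ha]
        rw [← Module.End.mul_apply, ← map_mul, inv_mul_cancel, map_one]; rfl }
  have hK := genq E V σ B q S ho h3 u K hu fun X hX g hg => mem_Fix.1 (h X hX) g hg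
  let T : Submodule ℂ M := ⨅ x : {x // B x x = 0}, Fix ρ (CX B (E ∙ x.1))
  have hT' : ∀ w, w ∈ T ↔ ∀ x, B x x = 0 → ∀ t ∈ CX B (E ∙ x), ρ t w = w := fun w => by
    simp only [T, Submodule.mem_iInf, mem_Fix, Subtype.forall]
  rcases ((isIrreducible_iff ρ).1 hρ).2 T (fun g w hw => (hT' _).2 fun x hx t ht => by
    have := (hT' w).1 hw _ (isotropic_map (g⁻¹).2 hx) _ (conj_mem_CX g ht)
    conv_rhs => rw [← this]
    rw [← Module.End.mul_apply, ← Module.End.mul_apply, ← map_mul, ← map_mul]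
    congr 2
    group) with e | e
  · exact v0 ((Submodule.mem_bot ℂ).1 (e ▸ (hT' v).2 fun x hx t ht => hK x hx ht))
  · obtain ⟨x, hx, t, ht, t1⟩ := hT
    exact t1 (LinearMap.ext fun w => (hT' w).1 (e ▸ Submodule.mem_top) x hx t ht)

end Geo

theorem di (r3 : R3Stmt.{u}) (case1 : Case1Stmt.{u}) (case2 : Case2Stmt.{u}) (genq : GenqStmt.{u})
    (eta : EtaStmt.{u}) : DiStmt.{u} := by
  intro E V _ _ _ _ _ σ B q S ho h3 h32 M _ _ _ ρ hρ hT
  have ex : ∀ {u X}, Fl B u X → ¬ (q = 2 ∧ finrank E X = 1) := fun hX h =>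
    h32 ⟨by rw [← hX.dim, h.2], h.1⟩
  refine ⟨fun hZ hF u hu => ?_, fun hM => ?_⟩
  · by_contra h
    obtain ⟨v, hv, v0⟩ := (Submodule.ne_bot_iff _).1 h
    obtain ⟨X, hX, hv'⟩ := exists_fl genq S ho h3 hρ hT hu v0
    by_cases hc : v ∈ Fix ρ (CX B X)
    · obtain ⟨g, hg⟩ := (case1 E V σ B q S M ρ u X v hX (ex hX) hc hv').2 hZ
      exact hg (hF g)
    · obtain ⟨g, hg⟩ := (case2 E V σ B q S M ρ u X _ v hX (ex hX) hv hc).2 (fun _ _ => rfl) hZ
      exact hg (hF g)
  · obtain ⟨⟨η, η1, η2⟩, cj⟩ := eta E V σ B q S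
    by_contra h
    push Not at h
    obtain ⟨u₀, -, hu₀⟩ := S.herm.toIsHermSymm.exists_norm_ne_zero S.herm.nondegOn_top (by
      intro e
      have : finrank E (⊤ : Submodule E V) = 0 := by rw [e, finrank_bot]
      rw [finrank_top] at this
      omega)
    have key : ∀ i, q ^ (finrank E V - 1) - 1 ≤
        (q + 1) * finrank ℂ (Wt ρ (CX B (E ∙ u₀)) fun g => η i g) := fun i => by
      obtain ⟨u, hu, hW⟩ := h (η i) (η1 i)
      obtain ⟨w, hw, w0⟩ := (Submodule.ne_bot_iff _).1 hW
      obtain ⟨k, hk⟩ := cj u u₀ hu hu₀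
      have hv : ρ k w ∈ Wt ρ (CX B (E ∙ u₀)) fun g => η i g := fun r hr => by
        have e := hw _ ((hk r).1 hr)
        have e2 : η i (k⁻¹ * r * k) = η i r := by
          rw [map_mul, map_mul, map_inv, inv_mul_cancel_comm]
        simp only [e2] at e
        rw [← map_smul, ← e, ← Module.End.mul_apply, ← Module.End.mul_apply, ← map_mul, ← map_mul]
        congr 2
        group
      have v0 : ρ k w ≠ 0 := fun e => w0 (by
        rw [← Module.End.one_apply (R := ℂ) w, ← map_one ρ, ← inv_mul_cancel k, map_mul,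
          Module.End.mul_apply, e, map_zero])
      obtain ⟨X, hX, hv'⟩ := exists_fl genq S ho h3 hρ hT hu₀ v0
      have hd : finrank E V - 1 = 2 * finrank E X := by rw [← hX.dim]; rfl
      by_cases hc : ρ k w ∈ Fix ρ (CX B X)
      · have := (case1 E V σ B q S M ρ u₀ X _ hX (ex hX) hc hv').1
        rw [hd] at hM
        omega
      · rw [hd]
        exact (case2 E V σ B q S M ρ u₀ X _ _ hX (ex hX) hv hc).1
    have h3' := r3 _ M ρ (CX B (E ∙ u₀)) ⊤ (q + 1) (fun i g => η i g) fun i j hij => by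
      obtain ⟨r, hr, e⟩ := η2 u₀ hu₀ i j hij
      exact ⟨r, hr, fun e' => e (Units.ext e')⟩
    have e : ∀ i, finrank ℂ ↥(⊤ ⊓ Wt ρ (CX B (E ∙ u₀)) fun g => η i g) =
      finrank ℂ (Wt ρ (CX B (E ∙ u₀)) fun g => η i g) := fun i => by rw [top_inf_eq]
    simp only [e, finrank_top] at h3'
    have h4 := Finset.sum_le_sum fun i (_ : i ∈ Finset.univ) => key i
    rw [← Finset.mul_sum, Finset.sum_const, Finset.card_univ, Fintype.card_fin, smul_eq_mul] at h4
    have := Nat.le_of_mul_le_mul_left h4 (Nat.succ_pos q)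
    omega

theorem pi : PiStmt.{v} := by
  intro G _ _ χ hχ
  classical
  have h1 : ∀ g : G, ∃ n : ℕ, ∑ᶠ h : Subgroup.centralizer ({g} : Set G), χ h = n := fun g => by
    obtain ⟨n, hn⟩ := exists_nat_classInner (isCharacter_restrict hχ
      (Subgroup.centralizer ({g} : Set G))) isCharacter_one
    refine ⟨Nat.card (Subgroup.centralizer ({g} : Set G)) * n, ?_⟩
    rw [finsum_eq_sum_of_fintype, Nat.cast_mul, ← hn, card_mul_classInner]
    simp
  choose n hn using h1
  have h2 : (Nat.card G : ℂ) * classInner χ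
      (fun g : G => (Nat.card ↥(Subgroup.centralizer ({g} : Set G)) : ℂ)) = (∑ g, n g : ℕ) := by
    rw [card_mul_classInner, Nat.cast_sum]
    simp only [← hn, finsum_eq_sum_of_fintype, Complex.conj_natCast]
    have a : ∀ g : G, χ g * (Nat.card ↥(Subgroup.centralizer ({g} : Set G)) : ℂ) =
        ∑ h : G, if h * g = g * h then χ g else 0 := fun g => by
      rw [← Finset.sum_filter, Finset.sum_const, nsmul_eq_mul, mul_comm, Nat.card_eq_fintype_card,
        Fintype.card_subtype]
      simp only [Subgroup.mem_centralizer_singleton_iff]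
    have b : ∀ h : G, ∑ g : Subgroup.centralizer ({h} : Set G), χ g =
        ∑ g : G, if h * g = g * h then χ g else 0 := fun h => by
      rw [← Finset.sum_filter]
      exact (Finset.sum_subtype _ (fun g => by
        simp [Subgroup.mem_centralizer_singleton_iff, eq_comm]) χ).symm
    simp only [a, b]
    exact Finset.sum_comm
  have c0 : (Nat.card G : ℂ) ≠ 0 := Nat.cast_ne_zero.2 Nat.card_pos.ne'
  rw [← mul_eq_zero_iff_left c0, h2, Nat.cast_eq_zero, Finset.sum_eq_zero_iff]
  simp only [hn, Nat.cast_eq_zero, Finset.mem_univ, true_imp_iff]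

end Cfsg.Agent.H53.Uw
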