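import Cfsg.Agent.H53.UwDefs

/-! Project UW: reflections, transvections, scalars, Moebius inversion, the norm. -/

set_option autoImplicit false

namespace Cfsg.Agent.H53.Uw

open Module Cfsg.Agent.H31 Cfsg.Agent.H11
open scoped ComplexConjugate

universe u v

section Geo

variable {E V : Type u} [Field E] [AddCommGroup V] [Module E V] [FiniteDimensional E V]
  {σ : E →+* E} {B : V →ₛₗ[σ] V →ₗ[E] E} {q : ℕ}

theorem exists_c (h : IsHerm B) {x : V} {t : isom B} (ht : t ∈ CX B (E ∙ x)) :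
    ∃ c : E, c + σ c + c * σ c * B x x = 0 ∧ ∀ v, t.1 v = v + (c * B x v) • x := by
  by_cases x0 : x = 0
  · exact ⟨0, by simp, fun v => by
      rw [mem_CX_span.1 ht v (by rw [x0, zero_left]), zero_mul, zero_smul, add_zero]⟩
  obtain ⟨y, hy⟩ := h.exists_eq_one x0
  obtain ⟨c, hc⟩ := Submodule.mem_span_singleton.1 (sub_mem_of_CX h ht y)
  have e : ∀ v, t.1 v = v + (c * B x v) • x := fun v => by
    have h1 := mem_CX_span.1 ht (v - B x v • y) (by rw [map_sub, smul_right, hy, mul_one, sub_self])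
    rw [map_sub, map_smul, sub_eq_iff_eq_add, show t.1 y = y + c • x by rw [hc]; abel] at h1
    rw [h1]; module
  refine ⟨c, ?_, e⟩
  have := mem_isom.1 t.2 y y
  rw [e, h.toIsHermSymm.form_rk1, hy, h.toIsHermSymm.flip_one hy] at this
  linear_combination this

theorem fx_eq (h : IsHerm B) {x : V} {t : isom B} (ht : t ∈ CX B (E ∙ x)) (t1 : t ≠ 1) :
    fx t.1 = perp B (E ∙ x) ∧ x ≠ 0 := by
  obtain ⟨c, -, e⟩ := exists_c h ht
  have x0 : x ≠ 0 := fun x0 => t1 (isom_ext fun v => by rw [e, x0, smul_zero, add_zero]; rfl)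
  have c0 : c ≠ 0 := fun c0 => t1 (isom_ext fun v => by
    rw [e, c0, zero_mul, zero_smul, add_zero]; rfl)
  refine ⟨Submodule.ext fun v => ?_, x0⟩
  rw [mem_fx, mem_perp_span_singleton, e, add_eq_left, smul_eq_zero, or_iff_left x0, mul_eq_zero,
    or_iff_right c0]

theorem finrank_fx (h : IsHerm B) {x : V} {t : isom B} (ht : t ∈ CX B (E ∙ x)) (t1 : t ≠ 1) :
    finrank E (fx t.1) + 1 = finrank E V := by
  obtain ⟨e, x0⟩ := fx_eq h ht t1
  rw [e, ← h.finrank_add_finrank_perp (E ∙ x), finrank_span_singleton x0, add_comm]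

omit [FiniteDimensional E V] in
theorem om_one : om B q 1 = (q : ℂ) ^ finrank E V := by
  have : fx (1 : isom B).1 = ⊤ := eq_top_iff.2 fun v _ => mem_fx.2 rfl
  rw [om, this, finrank_top, ← mul_pow]
  simp

theorem om_ref (h : IsHerm B) {x : V} {t : isom B} (ht : t ∈ CX B (E ∙ x)) (t1 : t ≠ 1) :
    q * om B q t = -om B q 1 := by
  rw [om_one, om, ← finrank_fx h ht t1, pow_succ, pow_succ, neg_pow (q : ℂ)]
  have : ((-1 : ℂ) ^ finrank E (fx t.1)) * (-1) ^ finrank E (fx t.1) = 1 := by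
    rw [← mul_pow]; simp
  linear_combination (-(q : ℂ) * q ^ finrank E (fx t.1)) * this

theorem ref_ext (h : IsHerm B) {u : V} (hu : B u u ≠ 0) {r r' : isom B} (hr : r ∈ CX B (E ∙ u))
    (hr' : r' ∈ CX B (E ∙ u)) (e : r.1 u = r'.1 u) : r = r' := by
  obtain ⟨c, -, e1⟩ := exists_c h hr
  obtain ⟨c', -, e2⟩ := exists_c h hr'
  have u0 : u ≠ 0 := fun u0 => hu (by rw [u0, map_zero])
  rw [e1, e2, add_right_inj] at e
  have := mul_right_cancel₀ hu (smul_left_injective E u0 e)
  exact isom_ext fun v => by rw [e1, e2, this]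

theorem ref_det (h : IsHerm B) {u : V} (hu : B u u ≠ 0) {r : isom B} (hr : r ∈ CX B (E ∙ u)) :
    r.1 u = LinearMap.det (r.1 : V →ₗ[E] V) • u := h.apply_eq_det_smul hu r.2 hr

theorem exists_ref (h : IsHerm B) {u : V} (hu : B u u ≠ 0) {a : E} (ha : a * σ a = 1) :
    ∃ r ∈ CX B (E ∙ u), LinearMap.det (r.1 : V →ₗ[E] V) = a ∧ r.1 u = a • u := by
  obtain ⟨g, hg, h1, h2, h3⟩ := h.toIsHermSymm.exists_quasiRefl_det hu ha
  exact ⟨⟨g, hg⟩, mem_CX_span.2 h3, h1, h2⟩

omit [FiniteDimensional E V] in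
theorem exists_scal {a : E} (ha : a * σ a = 1) : ∃ s ∈ Zc B, ∀ x, s.1 x = a • x := by
  have a0 : a ≠ 0 := left_ne_zero_of_mul_eq_one ha
  exact ⟨⟨LinearEquiv.smulOfNeZero E V a a0, mem_isom_of_smul (fun _ => rfl) ha⟩,
    ⟨a, fun _ => rfl⟩, fun _ => rfl⟩

omit [FiniteDimensional E V] in
theorem conj_mem_CX' {x : V} {t : isom B} (g : isom B) (ht : t ∈ CX B (E ∙ x)) :
    g * t * g⁻¹ ∈ CX B (E ∙ g.1 x) := by
  rw [mem_CX_span] at ht ⊢
  intro v hv
  have : B x ((g⁻¹).1 v) = 0 := by rw [isom_adj g.2] at hv; exact hv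
  rw [mul_ap, mul_ap, ht _ this]
  exact apply_inv_apply g.1 v

end Geo

section Fin

variable {E V : Type u} [Field E] [Fintype E] [AddCommGroup V] [Module E V] [Finite V]
  {σ : E →+* E} {B : V →ₛₗ[σ] V →ₗ[E] E} {q : ℕ}

theorem St.card_mu (S : St B q) : Nat.card {a : E // a * σ a = 1} = q + 1 :=
  card_norm_eq S.card S.pow one_ne_zero (map_one σ)

theorem St.card_ref (S : St B q) {u : V} (hu : B u u ≠ 0) : Nat.card (CX B (E ∙ u)) = q + 1 := by
  rw [← S.card_mu]
  refine Nat.card_congr (Equiv.ofBijective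
    (fun r => ⟨LinearMap.det (r.1.1 : V →ₗ[E] V), S.herm.det_norm r.1.2⟩) ⟨fun r r' e => ?_, ?_⟩)
  · refine Subtype.ext (ref_ext S.herm hu r.2 r'.2 ?_)
    rw [ref_det S.herm hu r.2, ref_det S.herm hu r'.2]
    exact congrArg (· • u) (congrArg Subtype.val e)
  · rintro ⟨a, ha⟩
    obtain ⟨r, hr, h1, -⟩ := exists_ref S.herm hu ha
    exact ⟨⟨r, hr⟩, Subtype.ext h1⟩

theorem St.card_Zc (S : St B q) (h1 : 1 ≤ finrank E V) : Nat.card (Zc B) = q + 1 := by
  haveI : Nontrivial V := Module.nontrivial_of_finrank_pos (R := E) h1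
  obtain ⟨x, x0⟩ := exists_ne (0 : V)
  rw [← S.card_mu]
  choose f hf1 hf2 using fun a : {a : E // a * σ a = 1} => exists_scal (B := B) a.2
  refine (Nat.card_congr (Equiv.ofBijective (fun a => (⟨f a, hf1 a⟩ : Zc B))
    ⟨fun a b e => Subtype.ext (smul_left_injective E x0 ?_), ?_⟩)).symm
  · have := congrArg (fun s : Zc B => s.1.1 x) e
    simpa only [hf2] using this
  · rintro ⟨s, a, ha⟩
    exact ⟨⟨a, S.herm.norm_eq_one_of_smul ha s.2⟩, Subtype.ext (isom_ext fun v => by
      rw [hf2, ha])⟩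

theorem St.q_ne (S : St B q) : (q : ℂ) ≠ 0 :=
  Nat.cast_ne_zero.2 (by have := two_le_of_card_sq S.card; omega)

theorem St.sum_ref (S : St B q) {u : V} (hu : B u u ≠ 0) :
    ∑ᶠ r : CX B (E ∙ u), om B q r = 0 := by
  classical
  letI := Fintype.ofFinite (CX B (E ∙ u))
  refine mul_left_cancel₀ S.q_ne ?_
  rw [finsum_eq_sum_of_fintype, ← Finset.add_sum_erase _ _ (Finset.mem_univ 1), mul_add,
    Finset.mul_sum, Finset.sum_congr rfl (g := fun _ => -om B q 1) (fun r hr => om_ref S.herm r.2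
      fun e => (Finset.mem_erase.1 hr).1 (Subtype.ext e)), Finset.sum_const,
    Finset.card_erase_of_mem (Finset.mem_univ _), Finset.card_univ, ← Nat.card_eq_fintype_card,
    S.card_ref hu]
  simp

end Fin

theorem kit : KitStmt.{u} := by
  intro E V _ _ _ _ _ σ B q S
  have hs := S.herm.toIsHermSymm
  refine ⟨?_, S.card_Zc, fun u => S.card_ref, fun u => S.sum_ref, fun x _ t ht t1 e => ?_,
    fun x y hx hy t ht t' ht' t1 t1' => ?_, fun x hx x0 => ?_, fun x hx t ht => ?_⟩
  · obtain ⟨ω, h0, h1⟩ := hs.inv.exists_skew'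
    obtain ⟨ψ, hψ⟩ := (AddChar.exists_apply_ne_zero (a := ω)).2 h0
    exact ⟨ψ, ω, h1, hψ⟩
  · have := om_ref (q := q) S.herm ht t1
    rw [e, om_one] at this
    have h2 : ((q : ℂ) + 1) * q ^ finrank E V = 0 := by linear_combination this
    exact mul_ne_zero (by exact_mod_cast Nat.succ_ne_zero q) (pow_ne_zero _ S.q_ne) h2
  · obtain ⟨c, hc, e⟩ := exists_c S.herm ht
    obtain ⟨c', hc', e'⟩ := exists_c S.herm ht'
    rw [hx, mul_zero, add_zero] at hc
    rw [hy, mul_zero, add_zero] at hc'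
    have c0 : c ≠ 0 := fun c0 => t1 (isom_ext fun v => by
      rw [e, c0, zero_mul, zero_smul, add_zero]; rfl)
    have c0' : c' ≠ 0 := fun c0 => t1' (isom_ext fun v => by
      rw [e', c0, zero_mul, zero_smul, add_zero]; rfl)
    obtain ⟨s, h1⟩ := hs.inv.exists_norm_eq (a := c' / c) (by
      rw [map_div₀, eq_neg_of_add_eq_zero_right hc, eq_neg_of_add_eq_zero_right hc', neg_div_neg_eq])
    have s0 : s ≠ 0 := fun s0 => div_ne_zero c0' c0 (by rw [← h1, s0, zero_mul])
    obtain ⟨k, hk, h2⟩ := S.herm.witt_one (fx_eq S.herm ht t1).2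
      (smul_ne_zero s0 (fx_eq S.herm ht' t1').2) (by rw [hx, isotropic_smul hy])
    refine isConj_iff.2 ⟨⟨k, hk⟩, isom_ext fun v => ?_⟩
    change k (t.1 (k⁻¹ v)) = _
    rw [e, e', map_add, map_smul, apply_inv_apply, ← isom_adj hk, h2, smul_left, smul_smul]
    congr 2
    rw [eq_div_iff c0] at h1
    linear_combination B y v * h1
  · obtain ⟨ω, h0, h1⟩ := hs.inv.exists_skew'
    refine ⟨⟨tv B x ω hx h1, hs.tv_mem_isom hx h1⟩,
      mem_CX_span.2 fun v hv => tv_apply_of_perp hx h1 hv, fun e => ?_⟩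
    obtain ⟨y, hy⟩ := S.herm.exists_eq_one x0
    have := congrArg (fun g : isom B => g.1 y) e
    simp only [tv_apply, hy, mul_one] at this
    exact smul_ne_zero h0 x0 (add_eq_left.1 this)
  · obtain ⟨c, -, e⟩ := exists_c S.herm ht
    exact mem_sisom'.2 ⟨t.2, by rw [det_of_rk1 e, hx, mul_zero, add_zero]⟩

theorem eta : EtaStmt.{u} := by
  intro E V _ _ _ _ _ σ B q S
  have hs := S.herm.toIsHermSymm
  refine ⟨?_, fun u u' hu hu' => ?_⟩
  · let Mu := (normHom σ).ker
    have mem : ∀ a : Eˣ, a ∈ Mu ↔ (a : E) * σ a = 1 := fun a => by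
      rw [MonoidHom.mem_ker, ← Units.val_eq_one, coe_normHom]
    have cMu : Nat.card Mu = q + 1 := by
      rw [← S.card_mu]
      refine Nat.card_congr (Equiv.ofBijective (fun a => ⟨(a.1 : E), (mem _).1 a.2⟩)
        ⟨fun a b e => Subtype.ext (Units.ext (congrArg Subtype.val e)), ?_⟩)
      rintro ⟨a, ha⟩
      exact ⟨⟨Units.mk0 a (left_ne_zero_of_mul_eq_one ha), (mem _).2 ha⟩, rfl⟩
    let d : isom B →* Mu := ((LinearEquiv.det).comp (isom B).subtype).codRestrict Mu fun g =>
      (mem _).2 (by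
        simp only [MonoidHom.comp_apply, LinearEquiv.coe_det]
        exact S.herm.det_norm g.2)
    haveI : NeZero (Monoid.exponent Mu) := ⟨Monoid.exponent_ne_zero_of_finite⟩
    have c2 := CommGroup.card_monoidHom_of_hasEnoughRootsOfUnity Mu ℂ
    rw [cMu] at c2
    haveI : Finite (Mu →* ℂˣ) := Nat.finite_of_card_ne_zero (by omega)
    let e := (Finite.equivFinOfCardEq c2).symm
    refine ⟨fun i => (e i).comp d, fun i g hg => ?_, fun u hu i j hij => ?_⟩
    · rw [MonoidHom.comp_apply, show d g = 1 from Subtype.ext (mem_sisom.1 hg).2, map_one]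
    · obtain ⟨a, ha⟩ := DFunLike.ne_iff.1 (e.injective.ne hij)
      obtain ⟨r, hr, h1, -⟩ := exists_ref S.herm hu ((mem _).1 a.2)
      refine ⟨r, hr, ?_⟩
      rwa [MonoidHom.comp_apply, MonoidHom.comp_apply, show d r = a from
        Subtype.ext (Units.ext (by rw [← h1]; exact LinearEquiv.coe_det _))]
  · obtain ⟨s, h1⟩ := hs.exists_smul_norm_eq hu' (hs.norm_fixed u)
    have s0 : s ≠ 0 := fun s0 => hu (by rw [← h1, s0, zero_smul, map_zero])
    obtain ⟨k, hk, h2⟩ := S.herm.witt_one (x := u) (y := s • u') (fun e => hu (by rw [e, map_zero]))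
      (fun e => hu (by rw [← h1, e, map_zero])) h1.symm
    have e : (E ∙ k u) = E ∙ u' := by rw [h2, Submodule.span_singleton_smul_eq (Ne.isUnit s0)]
    refine ⟨⟨k, hk⟩, fun r => ⟨fun hr => ?_, fun hr => ?_⟩⟩
    · have := conj_mem_CX' (⟨k, hk⟩ : isom B)⁻¹ (e ▸ hr)
      rwa [inv_inv, show ((⟨k, hk⟩ : isom B)⁻¹).1 (k u) = u from inv_apply_apply k u] at this
    · have := conj_mem_CX' (⟨k, hk⟩ : isom B) hr
      rwa [show (⟨k, hk⟩ : isom B) * ((⟨k, hk⟩ : isom B)⁻¹ * r * ⟨k, hk⟩) * (⟨k, hk⟩ : isom B)⁻¹ = r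
        by group, e] at this

theorem mob : MobStmt.{u} := by
  intro E V _ _ _ _ _ σ B q S φ h1 h2
  classical
  letI := Fintype.ofFinite (isom B)
  haveI : Finite (Submodule E V) := Finite.of_injective _ SetLike.coe_injective
  letI := Fintype.ofFinite (Submodule E V)
  have a : ∀ Y : Submodule E V, ∑ g : isom B with Y ≤ fx g.1, φ g = 0 := fun Y => by
    have e : ∀ g : isom B, Y ≤ fx g.1 ↔ g ∈ CX B (perp B Y) := fun g => by
      rw [mem_CX, S.herm.perp_perp]
      exact ⟨fun h v hv => mem_fx.1 (h hv), fun h v hv => mem_fx.2 (h v hv)⟩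
    by_cases hY : TotIso B (perp B Y)
    · exact Finset.sum_eq_zero fun g hg => h2 _ hY g ((e g).1 (Finset.mem_filter.1 hg).2)
    · obtain ⟨u, hu, hu0⟩ : ∃ u ∈ perp B Y, B u u ≠ 0 := by
        by_contra h
        push Not at h
        exact hY fun x hx y hy => S.herm.toIsHermSymm.eq_zero_of_norm_zero h hx hy
      have le := CX_mono (B := B) ((Submodule.span_singleton_le_iff_mem u _).2 hu)
      letI := Fintype.ofFinite (CX B (E ∙ u))
      have : ∑ r : CX B (E ∙ u), ∑ g : isom B with Y ≤ fx g.1, φ (g * r) = 0 := by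
        rw [Finset.sum_comm]
        exact Finset.sum_eq_zero fun g _ => by
          rw [← finsum_eq_sum_of_fintype]; exact h1 u hu0 g
      have e2 : ∀ r : CX B (E ∙ u), ∑ g : isom B with Y ≤ fx g.1, φ (g * r) =
          ∑ g : isom B with Y ≤ fx g.1, φ g := fun r =>
        Finset.sum_equiv (Equiv.mulRight (r : isom B)) (fun g => by
          simp only [Finset.mem_filter, Finset.mem_univ, true_and, e, Equiv.coe_mulRight]
          exact (mul_mem_cancel_right (le r.2)).symm) fun g _ => rfl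
      simp only [e2] at this
      rw [Finset.sum_const, nsmul_eq_mul, mul_eq_zero] at this
      exact this.resolve_left (Nat.cast_ne_zero.2 Finset.univ_nonempty.card_pos.ne')
  have b : ∀ Y : Submodule E V, ∑ g : isom B with fx g.1 = Y, φ g = 0 := fun Y => by
    induction Y using WellFoundedGT.induction with
    | ind Y ih =>
      have := a Y
      rw [← Finset.sum_fiberwise_of_maps_to (g := fun g : isom B => fx g.1)
        (t := Finset.univ.filter (Y ≤ ·)) (fun g hg => by simpa using hg),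
        Finset.sum_eq_single_of_mem Y (by simp) fun Y' hY' hne => ?_] at this
      · rw [← this]
        refine Finset.sum_congr ?_ fun _ _ => rfl
        ext g
        simp only [Finset.mem_filter, Finset.mem_univ, true_and]
        exact ⟨fun h => ⟨h.ge, h⟩, fun h => h.2⟩
      · rw [← ih Y' (lt_of_le_of_ne (Finset.mem_filter.1 hY').2 hne.symm)]
        refine Finset.sum_congr ?_ fun _ _ => rfl
        ext g
        simp only [Finset.mem_filter, Finset.mem_univ, true_and]
        exact ⟨fun h => h.2, fun h => ⟨h ▸ (Finset.mem_filter.1 hY').2, h⟩⟩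
  rw [ip_eq, classInner_def, ← Finset.sum_fiberwise (κ := Submodule E V) Finset.univ
    (fun g : isom B => fx g.1), Finset.sum_eq_zero, mul_zero]
  intro Y _
  rw [Finset.sum_congr rfl (g := fun g => φ g *
    conj ((-1) ^ finrank E V * (-(q : ℂ)) ^ finrank E Y)) (fun g hg => by
      rw [om, (Finset.mem_filter.1 hg).2]), ← Finset.sum_mul, b, zero_mul]

theorem norm : NormStmt.{u} := by
  intro E V _ _ _ _ _ σ B q S
  classical
  letI := Fintype.ofFinite (isom B)
  letI := Fintype.ofFinite V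
  letI := Fintype.ofFinite (MulAction.orbitRel.Quotient (isom B) V)
  refine ⟨Fintype.card (MulAction.orbitRel.Quotient (isom B) V), ?_, ?_⟩
  · let f : Option {a : E // σ a = a} → MulAction.orbitRel.Quotient (isom B) V := fun o =>
      o.elim (Quotient.mk'' 0) fun a => if h : ∃ v, v ≠ 0 ∧ B v v = a then Quotient.mk'' h.choose
        else Quotient.mk'' 0
    have hf : Function.Surjective f := by
      rintro ⟨v⟩
      by_cases v0 : v = 0
      · exact ⟨none, by rw [v0]; rfl⟩
      · have h : ∃ w, w ≠ 0 ∧ B w w = B v v := ⟨v, v0, rfl⟩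
        refine ⟨some ⟨B v v, S.herm.toIsHermSymm.norm_fixed v⟩, ?_⟩
        simp only [f, Option.elim, dif_pos h]
        obtain ⟨g, hg, e⟩ := S.herm.witt_one v0 h.choose_spec.1 h.choose_spec.2.symm
        exact Quotient.sound' ⟨⟨g, hg⟩, e⟩
    have := Fintype.card_le_of_surjective f hf
    rwa [Fintype.card_option, ← Nat.card_eq_fintype_card (α := {a : E // σ a = a}),
      card_fixed S.card S.pow] at this
  · have e := MulAction.sum_card_fixedBy_eq_card_orbits_mul_card_group (isom B) V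
    have c0 : (Nat.card (isom B) : ℂ) ≠ 0 := Nat.cast_ne_zero.2 Nat.card_pos.ne'
    refine mul_left_cancel₀ c0 ?_
    rw [ip_eq, card_mul_classInner, Nat.card_eq_fintype_card, mul_comm, ← Nat.cast_mul, ← e,
      Nat.cast_sum]
    refine Finset.sum_congr rfl fun g _ => ?_
    rw [← Nat.card_eq_fintype_card, show Nat.card (MulAction.fixedBy V g) = Nat.card (fx g.1) from
      Nat.card_congr (Equiv.subtypeEquivRight fun v => mem_fx.symm), card_submodule S.card, om]
    simp only [map_mul, map_pow, map_neg, map_one, Complex.conj_natCast]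
    rw [mul_mul_mul_comm, ← mul_pow, ← mul_pow]
    push_cast
    ring

end Cfsg.Agent.H53.Uw
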