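import Cfsg.Agent.H53.UwDefs
import Cfsg.Agent.H75.Weights

/-! Project UW: weight spaces. -/

set_option autoImplicit false

namespace Cfsg.Agent.H53.Uw

open Module Polynomial

universe u

section

variable {G : Type u} [Group G] [Finite G] {M : Type} [AddCommGroup M] [Module ℂ M]
  [FiniteDimensional ℂ M] (ρ : Representation ℂ G M)

theorem dec (A : Subgroup G) (N : Submodule ℂ M) (h1 : ∀ a ∈ A, ∀ v ∈ N, ρ a v ∈ N)
    (h2 : ∀ a ∈ A, ∀ b ∈ A, ∀ v ∈ N, ρ a (ρ b v) = ρ b (ρ a v)) (P : Submodule ℂ M)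
    (hP : ∀ l, N ⊓ Wt ρ A l ≤ P) : N ≤ P := by
  classical
  let f : A → End ℂ N := fun a => (ρ a).restrict (h1 a a.2)
  have ss : ∀ a, (f a).IsSemisimple := fun a => by
    have hn : 0 < orderOf (a : G) := orderOf_pos _
    refine End.isSemisimple_of_squarefree_aeval_eq_zero
      (p := X ^ orderOf (a : G) - C 1) (separable_X_pow_sub_C 1 (by exact_mod_cast hn.ne')
        one_ne_zero).squarefree ?_
    have e : ∀ (k : ℕ) (v : N), ((f a ^ k) v : M) = ρ (a ^ k) v := fun k => by
      induction k with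
      | zero => intro v; simp
      | succ k ih =>
        intro v
        rw [pow_succ, pow_succ, map_mul, Module.End.mul_apply, Module.End.mul_apply, ih]
        rfl
    ext v
    rw [map_sub, map_pow, aeval_X, aeval_C, map_one, LinearMap.sub_apply, Submodule.coe_sub, e,
      pow_orderOf_eq_one, map_one]
    simp
  have top := End.iSup_iInf_maxGenEigenspace_eq_top_of_iSup_maxGenEigenspace_eq_top_of_commute f
    (fun a b _ => LinearMap.ext fun v => Subtype.ext (h2 a a.2 b b.2 v v.2))
    fun a => End.iSup_maxGenEigenspace_eq_top (f a)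
  have : (⊤ : Submodule ℂ N) ≤ P.comap N.subtype := by
    rw [← top]
    refine iSup_le fun χ v hv => hP (fun g => if h : g ∈ A then χ ⟨g, h⟩ else 0) ⟨v.2, fun a ha => ?_⟩
    have := (Submodule.mem_iInf _).1 hv ⟨a, ha⟩
    rw [(ss _).isFinitelySemisimple.maxGenEigenspace_eq_eigenspace, End.mem_eigenspace_iff] at this
    simp only [dif_pos ha]
    exact congrArg Subtype.val this
  exact fun v hv => this (Submodule.mem_top : (⟨v, hv⟩ : N) ∈ ⊤)

omit [Finite G] [FiniteDimensional ℂ M] in
theorem indep (A : Subgroup G) {ι : Type*} (l : ι → G → ℂ)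
    (h : ∀ i j, i ≠ j → ∃ a ∈ A, l i a ≠ l j a) : iSupIndep fun i => Wt ρ A (l i) := by
  classical
  rw [iSupIndep_iff_finset_sum_eq_zero_imp_eq_zero]
  intro s v hv h0
  refine H75.sum_eq_zero_of_eigen (fun a : A => ρ a) (fun i a => l i a) (fun i j e => ?_) s v
    (fun i hi a => hv i hi a a.2) h0
  by_contra hij
  obtain ⟨a, ha, e'⟩ := h i j hij
  exact e' (congrFun e ⟨a, ha⟩)

end

theorem r1 : R1Stmt.{u} := by
  intro G _ _ M _ _ _ ρ A N h1 h2 a₀ ha v₀ hv h0
  by_contra h
  push Not at h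
  refine h0 (sub_eq_zero.1 (LinearMap.mem_ker.1
    (dec ρ A N h1 h2 (LinearMap.ker (ρ a₀ - 1)) (fun l v hv => ?_) hv) :))
  by_cases v0 : v = 0
  · rw [v0]; exact Submodule.zero_mem _
  · rw [LinearMap.mem_ker, LinearMap.sub_apply, hv.2 a₀ ha, h l v v0 hv.1 hv.2, one_smul]
    exact sub_self v

theorem r2 : R2Stmt.{u} := by
  intro G _ _ M _ _ _ ρ A H l v hn v0 hv hs hF
  classical
  letI := Fintype.ofFinite H
  have hw : ∑ h : H, ρ h v ∈ Fix ρ H := mem_Fix.2 fun k hk => by
    rw [map_sum]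
    refine Fintype.sum_equiv (Equiv.mulLeft (⟨k, hk⟩ : H)) _ _ fun h => ?_
    rw [← Module.End.mul_apply, ← map_mul]; rfl
  rw [hF, Submodule.mem_bot] at hw
  let c : H → A → ℂ := fun h a => l ((h : G)⁻¹ * a * h)
  rw [← Finset.sum_fiberwise_of_maps_to (g := c) (t := Finset.univ.image c)
    (fun h _ => Finset.mem_image_of_mem c (Finset.mem_univ h))] at hw
  have := H75.sum_eq_zero_of_eigen (fun a : A => ρ a) (fun (i : A → ℂ) a => i a) (fun i j e => e)
    (Finset.univ.image c) _ (fun i _ a => by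
      rw [map_sum, Finset.smul_sum]
      refine Finset.sum_congr rfl fun h hh => ?_
      rw [← (Finset.mem_filter.1 hh).2]
      change _ = l ((h : G)⁻¹ * a * h) • _
      rw [← map_smul, ← hv _ (hn h h.2 a a.2), ← Module.End.mul_apply, ← Module.End.mul_apply,
        ← map_mul, ← map_mul]
      congr 2
      group) hw (c 1) (Finset.mem_image_of_mem c (Finset.mem_univ 1))
  rw [Finset.sum_congr rfl (g := fun _ => v) (fun (h : H) hh => hs h h.2 fun a ha => by
    have := congrFun (Finset.mem_filter.1 hh).2 ⟨a, ha⟩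
    simpa [c] using this), Finset.sum_const, ← Nat.cast_smul_eq_nsmul ℂ, smul_eq_zero] at this
  refine this.elim (Nat.cast_ne_zero.2 (Finset.card_pos.2 ⟨1, by simp⟩).ne') v0

theorem r3 : R3Stmt.{u} := by
  intro G _ _ M _ _ _ ρ A N k l h
  have i1 : iSupIndep fun i => (Wt ρ A (l i)).comap N.subtype := by
    classical
    have := indep ρ A l h
    rw [iSupIndep_iff_finset_sum_eq_zero_imp_eq_zero] at this ⊢
    intro s v hv h0 i hi
    exact Subtype.ext (this s (fun i => (v i : M)) hv (by
      rw [← Submodule.coe_sum, h0]; rfl) i hi)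
  refine le_trans (le_of_eq (Finset.sum_congr rfl fun i _ => ?_))
    (H75.sum_finrank_le_of_iSupIndep _ i1 Finset.univ)
  rw [← Submodule.map_comap_subtype]
  exact (Submodule.finrank_map_subtype_eq N _)

theorem r4 : R4Stmt.{u} := by
  intro G _ _ M _ _ _ ρ H
  letI := Fintype.ofFinite H
  have c0 : (Nat.card H : ℂ) ≠ 0 := Nat.cast_ne_zero.2 Nat.card_pos.ne'
  refine ⟨?_, fun h g => ?_⟩
  · letI := invertibleOfNonzero c0
    have e := Representation.card_inv_mul_sum_char_eq_finrank (ρ := ρ.comp H.subtype)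
    have e2 : Representation.invariants (ρ.comp H.subtype) = Fix ρ H := by
      ext v
      rw [Representation.mem_invariants, mem_Fix]
      exact ⟨fun h a ha => h ⟨a, ha⟩, fun h a => h a a.2⟩
    rw [e2] at e
    rw [finsum_eq_sum_of_fintype, ← Submodule.finrank_eq_zero, ← Nat.cast_eq_zero (R := ℂ), ← e,
      mul_eq_zero, or_iff_right (inv_ne_zero c0)]
    rfl
  · have e : ∑ a : H, ρ a = 0 := LinearMap.ext fun v => by
      have hw : ∑ a : H, ρ a v ∈ Fix ρ H := mem_Fix.2 fun k hk => by
        rw [map_sum]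
        refine Fintype.sum_equiv (Equiv.mulLeft (⟨k, hk⟩ : H)) _ _ fun h => ?_
        rw [← Module.End.mul_apply, ← map_mul]; rfl
      rw [h, Submodule.mem_bot] at hw
      rw [LinearMap.sum_apply, hw]; rfl
    rw [finsum_eq_sum_of_fintype]
    simp only [Representation.character, map_mul]
    rw [← map_sum, ← Finset.mul_sum, e, mul_zero, map_zero]

theorem r5 : R5Stmt.{u} := by
  intro G _ _ M _ _ _ ρ A hA
  classical
  have top : ⊤ ≤ Submodule.span ℂ {v : M | ∃ l, v ∈ Wt ρ A l} :=
    dec ρ A ⊤ (fun _ _ _ _ => trivial) (fun a ha b hb v _ => by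
      rw [← Module.End.mul_apply, ← map_mul, hA a ha b hb, map_mul]; rfl) _
      fun l v hv => Submodule.subset_span ⟨l, hv.2⟩
  obtain ⟨s, hs, h1, h2⟩ := exists_linearIndependent ℂ {v : M | ∃ l, v ∈ Wt ρ A l}
  let b : Basis s ℂ M := Basis.mk h2 (by rw [Subtype.range_coe, h1]; exact top)
  haveI : Finite s := Module.Finite.finite_basis b
  letI := Fintype.ofFinite s
  choose l hl using fun x : s => hs x.2
  have hb : ∀ x, b x = x := fun x => Basis.mk_apply _ _ x
  refine ⟨Fintype.card s, fun i => l ((Fintype.equivFin s).symm i), fun i h => ?_, fun a ha => ?_⟩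
  · have := hl ((Fintype.equivFin s).symm i)
    rw [h, Submodule.mem_bot, ← hb] at this
    exact b.ne_zero _ this
  · rw [Equiv.sum_comp (Fintype.equivFin s).symm (fun x => l x a), Representation.character,
      LinearMap.trace_eq_matrix_trace ℂ b, Matrix.trace]
    refine Finset.sum_congr rfl fun x _ => ?_
    rw [Matrix.diag_apply, LinearMap.toMatrix_apply, hb, hl x a ha, ← hb, map_smul, b.repr_self]
    simp

end Cfsg.Agent.H53.Uw
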