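import Cfsg.Agent.H53.UwMain
import Cfsg.Agent.H53.UwRep
import Cfsg.Agent.H53.UwDi
import Cfsg.Agent.H53.UwKit
import Cfsg.Agent.H51.UwSum
import Cfsg.Agent.H51.UwCase1
import Cfsg.Agent.H50.UwWeil
import Cfsg.Agent.H62.UwRk1
import Cfsg.Agent.H52.UwFo
import Cfsg.Agent.H89.UwForm
import Cfsg.Agent.H92.UwCyc
import Cfsg.Agent.H8.UwRk
import Cfsg.Agent.H67.UwFob
import Cfsg.Agent.H15.UwTw
import Cfsg.Agent.H10.UwCent
import Cfsg.Agent.H5.UwGenq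
import Cfsg.Agent.H61.UwBr
import Cfsg.Agent.H60.UwTor
import Cfsg.Agent.H6.UwCase2
import Cfsg.Agent.H23.UwHeis
import Cfsg.Agent.H47.UwGauss

/-! Assembly of the landed pieces of the project UW. -/

universe u

namespace Cfsg.Agent.H53.Uw

theorem hy_of (wd : WeilStmt.{u} → WdStmt.{u}) : Hy.{u} :=
  have gauss : GaussStmt.{u} := H47.UwGauss.gauss
  ⟨r4, kit, H50.UwWeil.weil gauss H15.UwTw.tw kit, wd (H50.UwWeil.weil gauss H15.UwTw.tw kit), mob,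
    H8.UwRk.rk (H62.UwRk1.rk1 H23.UwH.heis H89.UwForm.gen H89.UwForm.form0 kit) r5 gauss
      H89.UwForm.gen kit,
    di r3 (H51.UwCase1.case1 r1 r2 r3 (H52.UwFo.fo H67.UwFob.fob) H60Tor.tor)
      (H6.UwCase2.case2 r1 r2 r3 H89.UwForm.gen H89.UwForm.form0 (H52.UwFo.fo H67.UwFob.fob)
        H60Tor.tor kit) H5.UwG.genq eta,
    H10.UwC.cent H92.UwCyc.cyc H51.UwSum.sum⟩

end Cfsg.Agent.H53.Uw
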