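import Cfsg.Agent.H53.UwDefs
import Cfsg.Prelude.Def_Blocks

/-! Project UW: the main argument. -/

set_option autoImplicit false

namespace Cfsg.Agent.H53.Uw

open Module Cfsg.Agent.H31 Cfsg.Agent.H11

universe u v

/-- The pieces used in the main argument. -/
structure Hy : Prop where
  r4 : R4Stmt.{u}
  kit : KitStmt.{u}
  weil : WeilStmt.{u}
  wd : WdStmt.{u}
  mob : MobStmt.{u}
  rk : RkStmt.{u}
  di : DiStmt.{u}
  cent : CentStmt.{u}

section Abstract

variable {G : Type u} [Group G] [Finite G]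

theorem Hy.sum_mul (H : Hy.{u}) {χ : G → ℂ} (hχ : IsCharacter G χ) {A : Subgroup G}
    (h : ∑ᶠ a : A, χ a = 0) (g : G) : ∑ᶠ a : A, χ (g * a) = 0 := by
  obtain ⟨n, ρ, rfl⟩ := hχ
  exact (H.r4 G _ ρ A).2 ((H.r4 G _ ρ A).1.2 h) g

theorem Hy.sum_le (H : Hy.{u}) {χ : G → ℂ} (hχ : IsCharacter G χ) {A C : Subgroup G} (hA : A ≤ C)
    (h : ∑ᶠ a : A, χ a = 0) : ∑ᶠ a : C, χ a = 0 := by
  obtain ⟨n, ρ, rfl⟩ := hχ
  refine (H.r4 G _ ρ C).1.1 ?_
  have := (H.r4 G _ ρ A).1.2 h
  rw [eq_bot_iff] at this ⊢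
  exact fun v hv => this fun a ha => hv a (hA ha)

/-- The twist by a linear character. -/
noncomputable def twist {M : Type} [AddCommGroup M] [Module ℂ M] (ρ : Representation ℂ G M)
    (η : G →* ℂˣ) : Representation ℂ G M where
  toFun g := ((η g)⁻¹ : ℂˣ).val • ρ g
  map_one' := by simp
  map_mul' a b := by
    rw [map_mul, map_mul, smul_mul_smul_comm, mul_inv, Units.val_mul]

theorem twist_apply {M : Type} [AddCommGroup M] [Module ℂ M] (ρ : Representation ℂ G M)
    (η : G →* ℂˣ) (g : G) : twist ρ η g = ((η g)⁻¹ : ℂˣ).val • ρ g := rfl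

theorem twist_character {M : Type} [AddCommGroup M] [Module ℂ M] (ρ : Representation ℂ G M)
    (η : G →* ℂˣ) (g : G) : (twist ρ η).character g = ((η g)⁻¹ : ℂˣ).val * ρ.character g := by
  simp only [Representation.character, twist_apply, map_smul, smul_eq_mul]

theorem twist_irr {M : Type} [AddCommGroup M] [Module ℂ M] {ρ : Representation ℂ G M}
    (h : ρ.IsIrreducible) (η : G →* ℂˣ) : (twist ρ η).IsIrreducible := by
  rw [isIrreducible_iff] at h ⊢
  refine ⟨h.1, fun W hW => h.2 W fun g v hv => ?_⟩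
  have := W.smul_mem (η g : ℂ) (hW g v hv)
  rwa [twist_apply, LinearMap.smul_apply, smul_smul, Units.mul_inv, one_smul] at this

end Abstract

section Geo

variable {E V : Type u} [Field E] [Fintype E] [AddCommGroup V] [Module E V] [Finite V]
  {σ : E →+* E} {B : V →ₛₗ[σ] V →ₗ[E] E} {q : ℕ}
  {M : Type} [AddCommGroup M] [Module ℂ M] [FiniteDimensional ℂ M]
  {ρ : Representation ℂ (isom B) M}

theorem char_ne {t : isom B} (h : ρ t ≠ 1) : ρ.character t ≠ ρ.character 1 := by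
  intro e
  have := (mem_charKer_iff (isCharacter_character ρ)).2 e
  rw [charKer_character] at this
  exact h this

theorem Hy.nf_om (H : Hy.{u}) (S : St B q) : NF B (om B q) := fun u hu g =>
  H.sum_mul (H.weil E V σ B q S) ((H.kit E V σ B q S).2.2.2.1 u hu) g

theorem Hy.main (H : Hy.{u}) (S : St B q) (ho : Odd (finrank E V)) (h3 : 3 ≤ finrank E V)
    (hρ : RNF B ρ) (hT : NT B ρ) : ip ρ.character (om B q) ≠ 0 := by
  classical
  obtain ⟨-, -, -, -, k5, k6, k7, -⟩ := H.kit E V σ B q S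
  obtain ⟨-, -, -, φ, φ1, φ2, φ3⟩ := H.wd E V σ B q S ho h3
  obtain ⟨x, hx, t, ht, ht1⟩ := hT
  have t1 : t ≠ 1 := fun e => ht1 (by rw [e, map_one])
  have hc := char_ne ht1
  have ho' := k5 x hx t ht t1
  set χ := ρ.character with hχ
  have hω := H.weil E V σ B q S
  set a := (χ 1 - χ t) / (om B q 1 - om B q t) with ha
  have hd : om B q 1 - om B q t ≠ 0 := sub_ne_zero.2 ho'.symm
  have a0 : a ≠ 0 := div_ne_zero (sub_ne_zero.2 hc.symm) hd
  set κ := χ 1 - a * om B q 1 with hκ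
  have key : ∀ X, TotIso B X → ∀ z ∈ CX B X, χ z = κ + a * om B q z := by
    intro X hX z hz
    by_cases X0 : X = ⊥
    · have : z = 1 := isom_ext fun v => mem_CX.1 hz v (by rw [X0, perp_bot]; trivial)
      rw [this, hκ]; ring
    obtain ⟨y, hy, y0⟩ := (Submodule.ne_bot_iff X).1 X0
    obtain ⟨a', κ', h'⟩ := H.rk E V σ B q S ho M ρ hρ X hX
    obtain ⟨t', ht', t'1⟩ := k7 y (hX y hy y hy) y0
    have cj := k6 x y hx (hX y hy y hy) t ht t' ht' t1 t'1
    have e1 := h' 1 (one_mem _)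
    have e2 := h' t' (CX_mono ((Submodule.span_singleton_le_iff_mem y X).2 hy) ht')
    rw [← classFun_of_isConj (isClassFunction_of_isCharacter (isCharacter_character ρ)) cj,
      ← classFun_of_isConj (isClassFunction_of_isCharacter hω) cj] at e2
    have ea : a = a' := by
      rw [ha, div_eq_iff hd, ← hχ] at *
      rw [e1, e2]; ring
    have eκ : κ = κ' := by
      rw [hκ, ea, ← hχ] at *
      rw [e1]; ring
    rw [ea, eκ]
    exact h' z hz
  have nfχ : NF B χ := fun u hu g => (H.r4 _ M ρ _).2 (hρ u hu) g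
  have nfω := H.nf_om S
  letI := Fintype.ofFinite (isom B)
  have h0 := H.mob E V σ B q S (χ - a • om B q - κ • φ) (fun u hu g => by
    letI := Fintype.ofFinite (CX B (E ∙ u))
    have e1 := nfχ u hu g
    have e2 := nfω u hu g
    have e3 := φ1 u hu g
    rw [finsum_eq_sum_of_fintype] at e1 e2 e3 ⊢
    simp only [Pi.sub_apply, Pi.smul_apply, smul_eq_mul, Finset.sum_sub_distrib,
      ← Finset.mul_sum, e1, e2, e3, mul_zero, sub_zero]) (fun X hX z hz => by
    simp only [Pi.sub_apply, Pi.smul_apply, smul_eq_mul]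
    rw [key X hX z hz, φ2 X hX z hz]; ring)
  rw [ip_eq] at h0 φ3 ⊢
  rw [classInner_sub_left, classInner_sub_left, classInner_smul_left, classInner_smul_left, φ3,
    mul_zero, sub_zero, sub_eq_zero] at h0
  rw [h0]
  refine mul_ne_zero a0 fun e => ?_
  have := classInner_self_eq_zero.1 e
  exact ho' (by rw [this]; rfl)

theorem one_of_not_NT (S : St B q) (h32 : ¬ (finrank E V = 3 ∧ q = 2)) (h : ¬ NT B ρ)
    (g : isom B) (hg : g.1 ∈ sisom B) : ρ g = 1 := by
  have hle : sisom B ≤ ρ.ker.map (isom B).subtype := by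
    refine S.herm.sisom_le_of_hasTv (fun u c hu hc => ?_) ?_
    · refine ⟨⟨tv B u c hu hc, S.herm.toIsHermSymm.tv_mem_isom hu hc⟩, ?_, rfl⟩
      by_contra e
      exact h ⟨u, hu, ⟨tv B u c hu hc, S.herm.toIsHermSymm.tv_mem_isom hu hc⟩,
        mem_CX_span.2 fun v hv => tv_apply_of_perp hu hc hv, e⟩
    · by_cases h3 : finrank E V = 3
      · exact Or.inr (exists_fixed_ne S.card S.pow fun e => h32 ⟨h3, e⟩)
      · exact Or.inl h3
  obtain ⟨k, hk, e⟩ := hle hg
  rwa [show k = g from Subtype.ext e] at hk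

theorem two_le_q (S : St B q) : 2 ≤ q := two_le_of_card_sq S.card

theorem DD_bounds {q n : ℕ} (hq : 2 ≤ q) (hn : 3 ≤ n) : 2 ≤ DD q n ∧ DD q n < q ^ (n - 1) - 1 := by
  obtain ⟨m, rfl⟩ : ∃ m, n = m + 3 := ⟨n - 3, by omega⟩
  have h1 : 1 ≤ q ^ m := Nat.one_le_pow _ _ (by omega)
  rw [show m + 3 - 1 = m + 2 from rfl, DD]
  have e1 : q ^ (m + 3) = q ^ m * q * q * q := by ring
  have e2 : q ^ (m + 2) = q ^ m * q * q := by ring
  rw [e1, e2]
  set a := q ^ m
  have h2 : 4 ≤ a * q * q := by nlinarith [Nat.mul_le_mul h1 (Nat.mul_le_mul hq hq)]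
  set b := a * q * q
  refine ⟨(Nat.le_div_iff_mul_le (by omega)).2 ?_, (Nat.div_lt_iff_lt_mul (by omega)).2 ?_⟩
  · refine Nat.le_sub_of_add_le ?_
    nlinarith
  · obtain ⟨c, hc⟩ : ∃ c, b = c + 1 := ⟨b - 1, by omega⟩
    rw [hc, Nat.add_sub_cancel]
    refine (Nat.sub_lt_iff_lt_add (by nlinarith)).2 ?_
    nlinarith

theorem char_eq_of_one {t : isom B} (h : ρ t = 1) : ρ.character t = ρ.character 1 := by
  simp only [Representation.character, h, map_one]

theorem char_one_of_not_NT (S : St B q) (h32 : ¬ (finrank E V = 3 ∧ q = 2))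
    (hρ : ρ.IsIrreducible) (hZ : ∀ s ∈ Zc B, ρ s = 1)
    (hd : ∀ g : isom B, ∃ s z : isom B, s.1 ∈ sisom B ∧ z ∈ Zc B ∧ g = s * z) (h : ¬ NT B ρ) :
    ρ.character = fun _ => 1 := by
  refine (irr_eq_one_iff (isIrrCharacter_character ρ (h := hρ))).2 fun g => char_eq_of_one ?_
  obtain ⟨s, z, hs, hz, rfl⟩ := hd g
  rw [map_mul, one_of_not_NT S h32 h s hs, hZ z hz, one_mul]

theorem om0_Zc {s : isom B} (hs : s ∈ Zc B) (g : isom B) : om0 B q (s * g) = om0 B q g := by
  unfold om0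
  congr 1
  refine Eq.trans ?_ (finsum_comp_equiv (Equiv.mulRight (⟨s, hs⟩ : Zc B))
    (f := fun z : Zc B => om B q (z * g)))
  exact finsum_congr fun z => by rw [← mul_assoc]; rfl

theorem Hy.unique (H : Hy.{u}) (S : St B q) (ho : Odd (finrank E V)) (h3 : 3 ≤ finrank E V)
    (h32 : ¬ (finrank E V = 3 ∧ q = 2)) (hρ : ρ.IsIrreducible) (hZ : ∀ s ∈ Zc B, ρ s = 1)
    (hd : ∀ g : isom B, ∃ s z : isom B, s.1 ∈ sisom B ∧ z ∈ Zc B ∧ g = s * z)
    (hD : ρ.character 1 = DD q (finrank E V)) : ρ.character = om0 B q := by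
  obtain ⟨b1, b2⟩ := DD_bounds (two_le_q S) h3
  have hT : NT B ρ := by
    by_contra h
    rw [char_one_of_not_NT S h32 hρ hZ hd h] at hD
    have hD' : (1 : ℂ) = DD q (finrank E V) := hD
    have : (1 : ℕ) = DD q (finrank E V) := by exact_mod_cast hD'
    omega
  have hM : finrank ℂ M = DD q (finrank E V) := by
    rw [Representation.char_one] at hD
    exact_mod_cast hD
  obtain ⟨η, η1, η2⟩ := (H.di E V σ B q S ho h3 h32 M ρ hρ hT).2 (by omega)
  have hN : RNF B (twist ρ η) := fun u hu => by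
    have := η2 u hu
    rw [eq_bot_iff] at this ⊢
    refine fun v hv => this fun a ha => ?_
    have e := mem_Fix.1 hv a ha
    rw [twist_apply, LinearMap.smul_apply] at e
    conv_rhs => rw [← e]
    rw [smul_smul, Units.mul_inv, one_smul]
  have hT' : NT B (twist ρ η) := by
    obtain ⟨x, hx, t, ht, t1⟩ := hT
    refine ⟨x, hx, t, ht, ?_⟩
    rwa [twist_apply, η1 t ((H.kit E V σ B q S).2.2.2.2.2.2.2 x hx t ht), inv_one, Units.val_one,
      one_smul]
  have h1 : (twist ρ η).character 1 = DD q (finrank E V) := by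
    rw [twist_character, map_one, inv_one, Units.val_one, one_mul, hD]
  rcases (H.wd E V σ B q S ho h3).2.2.1 _ (isIrrCharacter_character _ (h := twist_irr hρ η))
    (H.main S ho h3 hN hT') with e | ⟨e, -⟩
  · have hz : ∀ z ∈ Zc B, η z = 1 := fun z hz => by
      have e1 := om0_Zc (q := q) hz 1
      rw [← e, mul_one, twist_character, char_eq_of_one (hZ z hz), h1, hD] at e1
      have d0 : (DD q (finrank E V) : ℂ) ≠ 0 := by exact_mod_cast (by omega : DD q (finrank E V) ≠ 0)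
      have := mul_right_cancel₀ d0 (e1.trans (one_mul _).symm)
      exact inv_eq_one.1 (Units.val_eq_one.1 this)
    rw [← e]
    funext g
    obtain ⟨s, z, hs, hz', rfl⟩ := hd g
    rw [twist_character, map_mul, η1 s hs, hz z hz', one_mul, inv_one, Units.val_one, one_mul]
  · rw [h1] at e
    exact absurd e (by simp)

theorem Hy.of_nofix (H : Hy.{u}) (S : St B q) (ho : Odd (finrank E V)) (h3 : 3 ≤ finrank E V)
    (h32 : ¬ (finrank E V = 3 ∧ q = 2)) (hρ : ρ.IsIrreducible) (hZ : ∀ s ∈ Zc B, ρ s = 1)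
    (hd : ∀ g : isom B, ∃ s z : isom B, s.1 ∈ sisom B ∧ z ∈ Zc B ∧ g = s * z)
    (hF : ∀ g : isom B, ∑ᶠ h : Subgroup.centralizer ({g} : Set (isom B)), ρ.character h = 0) :
    ρ.character = om0 B q := by
  have hT : NT B ρ := by
    by_contra h
    have h1 := hF 1
    rw [char_one_of_not_NT S h32 hρ hZ hd h] at h1
    letI := Fintype.ofFinite (Subgroup.centralizer ({1} : Set (isom B)))
    rw [finsum_eq_sum_of_fintype, Finset.sum_const, nsmul_eq_mul, mul_one, Nat.cast_eq_zero,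
      Finset.card_univ] at h1
    exact Fintype.card_ne_zero h1
  have hN := (H.di E V σ B q S ho h3 h32 M ρ hρ hT).1 hZ fun g => (H.r4 _ M ρ _).1.2 (hF g)
  rcases (H.wd E V σ B q S ho h3).2.2.1 _ (isIrrCharacter_character _ (h := hρ))
    (H.main S ho h3 hN hT) with e | ⟨-, z, hz, e⟩
  · exact e
  · exact absurd (char_eq_of_one (hZ z hz)) e

theorem Hy.sum_om0 (H : Hy.{u}) (S : St B q) (ho : Odd (finrank E V)) (g : isom B) :
    ∑ᶠ h : Subgroup.centralizer ({g} : Set (isom B)), om0 B q h = 0 := by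
  obtain ⟨A, hA, h0⟩ := H.cent E V σ B q S ho g
  have hω := H.weil E V σ B q S
  have h1 := H.sum_mul hω (H.sum_le hω hA h0)
  letI := Fintype.ofFinite (Subgroup.centralizer ({g} : Set (isom B)))
  letI := Fintype.ofFinite (Zc B)
  simp only [finsum_eq_sum_of_fintype] at h1
  simp only [om0, finsum_eq_sum_of_fintype, ← Finset.mul_sum]
  rw [Finset.sum_comm]
  simp [h1]

end Geo

theorem sum_cent {G : Type u} {G' : Type v} [Group G] [Group G'] [Finite G] [Finite G']
    (f : G →* G') (hf : Function.Surjective f)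
    (hc : ∀ a b, f a * f b = f b * f a → a * b = b * a) (χ : G' → ℂ) (g : G) :
    ∑ᶠ h : Subgroup.centralizer ({g} : Set G), χ (f h) = 0 ↔
      ∑ᶠ h : Subgroup.centralizer ({f g} : Set G'), χ h = 0 := by
  let f' : Subgroup.centralizer ({g} : Set G) →* Subgroup.centralizer ({f g} : Set G') :=
    (f.comp (Subgroup.centralizer ({g} : Set G)).subtype).codRestrict _ fun x => by
      have := Subgroup.mem_centralizer_singleton_iff.1 x.2
      rw [Subgroup.mem_centralizer_singleton_iff]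
      change f x * f g = f g * f x
      rw [← map_mul, this, map_mul]
  have hf' : Function.Surjective f' := fun y => by
    obtain ⟨x, hx⟩ := hf y
    refine ⟨⟨x, Subgroup.mem_centralizer_singleton_iff.2 (hc _ _ ?_)⟩, Subtype.ext hx⟩
    rw [hx]
    exact Subgroup.mem_centralizer_singleton_iff.1 y.2
  letI := Fintype.ofFinite (Subgroup.centralizer ({g} : Set G))
  letI := Fintype.ofFinite (Subgroup.centralizer ({f g} : Set G'))
  rw [finsum_eq_sum_of_fintype, finsum_eq_sum_of_fintype]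
  have e := sum_comp_of_surjective f' hf' fun y => χ y
  rw [show (∑ h : Subgroup.centralizer ({g} : Set G), χ (f h)) = _ from e, mul_eq_zero,
    or_iff_right (Nat.cast_ne_zero.2 Nat.card_pos.ne')]

theorem degree_iff {G : Type v} [Group G] {χ : G → ℂ} (hχ : IsIrrCharacter G χ) (d : ℕ) :
    charDegree χ = d ↔ χ 1 = d := by
  obtain ⟨k, -, hk⟩ := exists_pos_degree hχ
  rw [charDegree, hk, Complex.natCast_re, Nat.floor_natCast, Nat.cast_inj]

theorem final (H : Hy.{u}) (br : BrStmt.{u, v}) (pi : PiStmt.{v}) {G : Type v} [Group G]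
    [Fintype G] (n q : ℕ) (F : Type u) [Field F] [Fintype F] (hF : Fintype.card F = q ^ 2)
    (hn : 3 ≤ n) (hcop : Nat.Coprime n (2 * (q + 1))) (hG : Nonempty (G ≃* PSU n F q)) :
    Nat.card {χ : IrrCharacter G // charDegree (χ : G → ℂ) = (q ^ n - q) / (q + 1)} = 1 ∧
    ∀ χ : IrrCharacter G, classInner (χ : G → ℂ)
      (fun g : G => (Nat.card ↥(Subgroup.centralizer ({g} : Set G)) : ℂ)) ≠ 0 ↔
      charDegree (χ : G → ℂ) ≠ (q ^ n - q) / (q + 1) := by
  obtain ⟨f, hf, hk, hc, hd⟩ := br G n q F hF hn (Nat.Coprime.coprime_mul_left_right hcop) hG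
  have S : St (hermB hF n) q := ⟨hF, fun _ => rfl, isHerm_hermB hF n⟩
  have hr : finrank F (Fin n → F) = n := finrank_fin n
  have ho : Odd (finrank F (Fin n → F)) := by
    rw [hr]
    exact Nat.coprime_two_right.1 (Nat.Coprime.coprime_mul_right_right hcop)
  have h3 : 3 ≤ finrank F (Fin n → F) := by rwa [hr]
  have h32 : ¬ (finrank F (Fin n → F) = 3 ∧ q = 2) := by
    rw [hr]
    rintro ⟨rfl, rfl⟩
    revert hcop
    decide
  obtain ⟨w1, w2, -, -⟩ := H.wd F _ _ (hermB hF n) q S ho h3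
  rw [hr] at w2
  obtain ⟨χ₀, c1, c2⟩ := exists_irr_lift_of_surjective w1 f hf (by
    rw [hk]
    exact fun s hs x => om0_Zc hs x)
  have rep : ∀ χ : IrrCharacter G, ∃ (d : ℕ)
      (ρ : Representation ℂ (isom (hermB hF n)) (Fin d → ℂ)), ρ.IsIrreducible ∧
      (∀ s ∈ Zc (hermB hF n), ρ s = 1) ∧ ρ.character = fun g => χ.1 (f g) := fun χ => by
    obtain ⟨d, ρ, h1, h2⟩ := isIrrCharacter_comp_of_surjective χ.2 f hf
    refine ⟨d, ρ, h1, fun s hs => ?_, h2⟩
    have := ker_le_charKer_comp f χ.1 (hk ▸ hs)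
    rwa [← h2, charKer_character] at this
  have desc : ∀ χ : IrrCharacter G, (fun g => χ.1 (f g)) = om0 (hermB hF n) q → χ.1 = χ₀ :=
    fun χ h => funext fun y => by
      obtain ⟨x, rfl⟩ := hf y
      rw [c2, ← h]
  have d0 : χ₀ 1 = DD q n := by rw [← map_one f, c2, w2]
  have uniq : ∀ χ : IrrCharacter G, χ.1 1 = DD q n → χ.1 = χ₀ := fun χ h => by
    obtain ⟨d, ρ, h1, h2, h4⟩ := rep χ
    refine desc χ (h4 ▸ H.unique S ho h3 h32 h1 h2 hd ?_)
    rw [h4, hr]
    simpa only [map_one] using h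
  refine ⟨?_, fun χ => not_congr ?_⟩
  · rw [Nat.card_eq_one_iff_exists]
    exact ⟨⟨⟨χ₀, c1⟩, (degree_iff c1 _).2 d0⟩, fun χ =>
      Subtype.ext (Subtype.ext (uniq χ.1 ((degree_iff χ.1.2 _).1 χ.2)))⟩
  · rw [pi G χ (isCharacter_of_irr χ.2)]
    refine ⟨fun h => (degree_iff χ.2 _).2 ?_, fun h y => ?_⟩
    · obtain ⟨d, ρ, h1, h2, h4⟩ := rep χ
      have := desc χ (h4 ▸ H.of_nofix S ho h3 h32 h1 h2 hd fun g => by
        rw [h4]
        exact (sum_cent f hf hc χ.1 g).2 (h (f g)))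
      rw [this]
      exact d0
    · obtain ⟨x, rfl⟩ := hf y
      rw [← sum_cent f hf hc, uniq χ ((degree_iff χ.2 _).1 h)]
      simp only [c2]
      exact H.sum_om0 S ho x

end Cfsg.Agent.H53.Uw
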