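import Cfsg.Agent.H42.VpDefs

/-! Project VP, piece I2: a class-preserving coprime automorphism is trivial. -/

set_option autoImplicit false

namespace Cfsg.Agent.H53.VpI2

open Subgroup MulAction Cfsg.Agent.H42.Vp

universe u

theorem jor {K : Type u} [Group K] [Finite K] (C : Subgroup K)
    (h : ∀ k : K, ∃ g : K, g * k * g⁻¹ ∈ C) : C = ⊤ := by
  classical
  have := Fintype.ofFinite K
  have : ∀ g : K, Fintype (fixedBy (K ⧸ C) g) := fun g => Fintype.ofFinite _
  have := Fintype.ofFinite (Quotient (orbitRel K (K ⧸ C)))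
  have e := sum_card_fixedBy_eq_card_orbits_mul_card_group K (K ⧸ C)
  have e1 : Fintype.card (Quotient (orbitRel K (K ⧸ C))) ≤ 1 :=
    Fintype.card_le_one_iff.2 fun a b => Quotient.inductionOn₂' a b fun a b =>
      Quotient.sound' (exists_smul_eq K b a)
  have e2 : ∀ k : K, 1 ≤ Fintype.card (fixedBy (K ⧸ C) k) := fun k => by
    obtain ⟨g, hg⟩ := h k
    refine Fintype.card_pos_iff.2 ⟨⟨(g⁻¹ : K), ?_⟩⟩
    show ((k * g⁻¹ : K) : K ⧸ C) = (g⁻¹ : K)
    rw [eq_comm, QuotientGroup.eq, inv_inv, ← mul_assoc]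
    exact hg
  by_contra hC
  obtain ⟨a, ha⟩ : ∃ a, a ∉ C := by
    by_contra! q
    exact hC ((eq_top_iff' C).2 q)
  have e3 : 1 < Fintype.card (fixedBy (K ⧸ C) (1 : K)) :=
    Fintype.one_lt_card_iff.2 ⟨⟨(1 : K), one_smul _ _⟩, ⟨(a : K), one_smul _ _⟩, fun q => ha (by
      simpa using QuotientGroup.eq.1 (congrArg Subtype.val q))⟩
  have e4 := Finset.sum_lt_sum (s := Finset.univ) (f := fun _ : K => 1)
    (g := fun k => Fintype.card (fixedBy (K ⧸ C) k)) (fun k _ => e2 k) ⟨1, Finset.mem_univ _, e3⟩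
  rw [e, Finset.sum_const, Finset.card_univ, smul_eq_mul, mul_one] at e4
  nlinarith

theorem i2 : I2Stmt.{u} := by
  intro G _ _ p hp K hK x cop ⟨m, hm⟩ h
  have : Fact p.Prime := ⟨hp⟩
  have pg : IsPGroup p (zpowers x) := by
    obtain ⟨k, -, hk⟩ := (Nat.dvd_prime_pow hp).1 (orderOf_dvd_of_pow_eq_one hm)
    exact IsPGroup.of_card (by rw [Nat.card_zpowers, hk])
  have key : ∀ k ∈ K, ∃ g ∈ K, x * (g * k * g⁻¹) * x⁻¹ = g * k * g⁻¹ := by
    intro k hk
    let Cl : Set G := {y | ∃ g : K, (g : G) * k * (g : G)⁻¹ = y}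
    have d : Nat.card Cl ∣ Nat.card K := by
      letI : MulAction K G := MulAction.compHom G ((MulAut.conj (G := G)).comp K.subtype)
      have e : (stabilizer K k).index = Nat.card Cl := index_stabilizer K k
      exact e ▸ index_dvd_card _
    have inv : ∀ n : ℕ, ∀ y ∈ Cl, x ^ n * y * (x ^ n)⁻¹ ∈ Cl := by
      intro n
      induction n with
      | zero => intro y hy; simpa using hy
      | succ n ih =>
        intro y hy
        obtain ⟨g, hg⟩ := ih y hy
        obtain ⟨a, ha, e⟩ := h _ (hK.conj_mem' _ (hK.conj_mem k hk g) 1)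
        refine ⟨⟨a, ha⟩ * g, ?_⟩
        rw [inv_one, one_mul, mul_one] at e
        calc _ = a * (g * k * (g : G)⁻¹) * a⁻¹ := by push_cast; group
          _ = _ := by rw [← e, hg, pow_succ']; group
    have inv' : ∀ g : zpowers x, ∀ y ∈ Cl, (g : G) * y * (g : G)⁻¹ ∈ Cl := fun g y hy => by
      obtain ⟨n, hn⟩ := (mem_powers_iff_mem_zpowers.2 g.2)
      exact hn ▸ inv n y hy
    letI : MulAction (zpowers x) Cl :=
      { smul := fun g y => ⟨g * y * (g : G)⁻¹, inv' g y y.2⟩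
        one_smul := fun y => Subtype.ext (show ((1 : zpowers x) : G) * y * ((1 : zpowers x) : G)⁻¹ = y by
          simp)
        mul_smul := fun a b y => Subtype.ext
          (show ((a * b : zpowers x) : G) * y * ((a * b : zpowers x) : G)⁻¹ =
            a * (b * y * (b : G)⁻¹) * (a : G)⁻¹ by push_cast; group) }
    obtain ⟨⟨y, g, hg⟩, hy⟩ := pg.nonempty_fixed_point_of_prime_not_dvd_card Cl fun q =>
      (hp.coprime_iff_not_dvd.1 cop.symm) (q.trans d)
    exact ⟨g, g.2, hg ▸ congrArg Subtype.val (hy ⟨x, mem_zpowers x⟩)⟩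
  have e := jor ((centralizer ({x} : Set G)).subgroupOf K) fun k => by
    obtain ⟨g, hg, e⟩ := key k k.2
    exact ⟨⟨g, hg⟩, mem_centralizer_singleton_iff.2 (mul_inv_eq_iff_eq_mul.1 e).symm⟩
  intro k hk
  exact mem_centralizer_singleton_iff.1 (subgroupOf_eq_top.1 e hk)

end Cfsg.Agent.H53.VpI2
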